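import Cfsg.Agent.Lib.Helper28.SGS
import Cfsg.Agent.Lib.Helper28.TCPres

/-!
A presented group as the centraliser of an element of a group with a faithful permutation
representation given by a table: the generators of the presented group are sent to words in
the letters of the big group, the relators are checked on the points, a stabiliser chain shows
that the map is injective, and a count of conjugates in a point stabiliser bounds the order of
the centraliser.
-/

set_option autoImplicit false

namespace Cfsg.Agent.Lib.Helper28.CeGen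

open Cfsg.Agent.Lib.Helper28.TCKernel Cfsg.Agent.Lib.Helper28.TCSound
open Cfsg.Agent.Lib.Helper28.TCPerm Cfsg.Agent.Lib.Helper28.TCPres
open Cfsg.Agent.Lib.Helper28.SGS
open Cfsg.Spor

/-! ### kernel functions -/

/-- table of generators given as words. -/
def tpOf (tp : Nat → Nat → Nat) (kws : List (List Nat)) (y a : Nat) : Nat :=
  scanP tp (nthD [] kws y) a

/-- scan of the reversed word. -/
def scanR (tp : Nat → Nat → Nat) (w : List Nat) : Nat → Nat :=
  List.rec (motive := fun _ => Nat → Nat) (fun cur => cur)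
    (fun y _ ih cur => strictNat (tp y) (ih cur)) w

theorem scanR_nil (tp : Nat → Nat → Nat) (a : Nat) : scanR tp [] a = a := rfl
theorem scanR_cons (tp : Nat → Nat → Nat) (y : Nat) (w : List Nat) (a : Nat) :
    scanR tp (y :: w) a = tp y (scanR tp w a) := rfl

theorem scanP_app (tp : Nat → Nat → Nat) (u v : List Nat) (a : Nat) :
    scanP tp (u ++ v) a = scanP tp v (scanP tp u a) := by
  induction u generalizing a with
  | nil => rfl
  | cons y u ih => rw [List.cons_append, scanP_cons, scanP_cons, ih]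

theorem scanR_eq (tp : Nat → Nat → Nat) (w : List Nat) (a : Nat) :
    scanR tp w a = scanP tp w.reverse a := by
  induction w generalizing a with
  | nil => rfl
  | cons y w ih =>
    rw [scanR_cons, List.reverse_cons, scanP_app, ih, scanP_cons, scanP_nil]

/-- image of `q` under the conjugate `u z u⁻¹`, as scans. -/
def fpAt (tp : Nat → Nat → Nat) (z : Nat) (u : List Nat) (q : Nat) : Nat :=
  scanR tp u (strictNat (tp z) (scanP tp u q))

theorem fpAt_eq (tp : Nat → Nat → Nat) (z : Nat) (u : List Nat) (q : Nat) :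
    fpAt tp z u q = scanP tp (u ++ z :: u.reverse) q := by
  unfold fpAt
  rw [scanR_eq, scanP_app, scanP_cons]

/-- combined fingerprint over a list of points. -/
def fpL (tp : Nat → Nat → Nat) (z M : Nat) (u : List Nat) (qs : List Nat) : Nat :=
  List.rec (motive := fun _ => Nat) 0 (fun q _ ih => Nat.add (Nat.mul ih M) (fpAt tp z u q)) qs

theorem fpL_cons (tp : Nat → Nat → Nat) (z M : Nat) (u : List Nat) (q : Nat) (qs : List Nat) :
    fpL tp z M u (q :: qs) = fpL tp z M u qs * M + fpAt tp z u q := rfl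

theorem fpL_congr (tp : Nat → Nat → Nat) (z M : Nat) (u v : List Nat) (qs : List Nat)
    (h : ∀ q ∈ qs, fpAt tp z u q = fpAt tp z v q) : fpL tp z M u qs = fpL tp z M v qs := by
  induction qs with
  | nil => rfl
  | cons q qs ih =>
    rw [fpL_cons, fpL_cons, h q List.mem_cons_self,
      ih (fun q' hq' => h q' (List.mem_cons_of_mem _ hq'))]

/-- the keys of the words are strictly increasing, starting above `prev - 1`. -/
def incOK (key : List Nat → Nat) (ws : List (List Nat)) : Nat → Bool :=
  List.rec (motive := fun _ => Nat → Bool) (fun _ => true)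
    (fun w _ ih prev => strictNat (fun f => andK (Nat.ble (Nat.succ prev) f) (ih f))
      (Nat.succ (key w))) ws

theorem incOK_cons (key : List Nat → Nat) (w : List Nat) (ws : List (List Nat)) (prev : Nat) :
    incOK key (w :: ws) prev =
      (Nat.ble (prev + 1) (key w + 1) && incOK key ws (key w + 1)) := by
  show andK _ _ = _
  rw [andK_eq]
  rfl

theorem incOK_spec (key : List Nat → Nat) (ws : List (List Nat)) (prev : Nat)
    (h : incOK key ws prev = true) :
    (∀ w ∈ ws, prev ≤ key w) ∧ ws.Pairwise (fun u v => key u < key v) := by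
  induction ws generalizing prev with
  | nil => exact ⟨fun w hw => absurd hw List.not_mem_nil, List.Pairwise.nil⟩
  | cons w ws ih =>
    rw [incOK_cons, Bool.and_eq_true] at h
    obtain ⟨h1, h2⟩ := h
    have h1' : prev + 1 ≤ key w + 1 := Nat.le_of_ble_eq_true h1
    obtain ⟨h3, h4⟩ := ih (key w + 1) h2
    refine ⟨?_, List.Pairwise.cons (fun v hv => h3 v hv) h4⟩
    intro v hv
    rcases List.mem_cons.mp hv with e | e
    · rw [e]; omega
    · have := h3 v e
      omega

theorem inc_inj (key : List Nat → Nat) (ws : List (List Nat))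
    (h : ws.Pairwise (fun u v => key u < key v)) (i j : Fin ws.length)
    (e : key (ws.get i) = key (ws.get j)) : i = j := by
  rw [List.pairwise_iff_get] at h
  rcases lt_trichotomy i j with hij | hij | hij
  · have := h i j hij
    omega
  · exact hij
  · have := h j i hij
    omega

/-- all words satisfy the predicate. -/
def allW (pred : List Nat → Bool) (ws : List (List Nat)) : Bool :=
  List.rec (motive := fun _ => Bool) true (fun w _ ih => andK (pred w) ih) ws

theorem allW_spec (pred : List Nat → Bool) (ws : List (List Nat)) :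
    allW pred ws = true ↔ ∀ w ∈ ws, pred w = true := by
  induction ws with
  | nil => simp [allW]
  | cons w t ih =>
    have : allW pred (w :: t) = (pred w && allW pred t) := by
      show andK _ _ = _
      rw [andK_eq]; rfl
    rw [this, Bool.and_eq_true, ih]
    simp

/-- membership in a list of numbers. -/
def memK (l : List Nat) (p : Nat) : Bool :=
  List.rec (motive := fun _ => Bool) false
    (fun x _ ih => Bool.rec (motive := fun _ => Bool) ih true (Nat.beq p x)) l

theorem memK_spec (l : List Nat) (p : Nat) (h : memK l p = true) : p ∈ l := by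
  induction l with
  | nil => exact absurd h (by simp [memK])
  | cons x t ih =>
    have e : memK (x :: t) p = Bool.rec (motive := fun _ => Bool) (memK t p) true (Nat.beq p x) :=
      rfl
    rw [e] at h
    cases hb : Nat.beq p x with
    | true => rw [Nat.eq_of_beq_eq_true hb]; exact List.mem_cons_self
    | false =>
      rw [hb] at h
      exact List.mem_cons_of_mem _ (ih h)

/-- a point fixed by the letter `z` is in the list. -/
def fixAt (tp : Nat → Nat → Nat) (z : Nat) (fl : List Nat) (p : Nat) : Bool :=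
  Bool.rec (motive := fun _ => Bool) true (memK fl p) (Nat.beq (tp z p) p)

theorem fixAt_spec (tp : Nat → Nat → Nat) (z : Nat) (fl : List Nat) (p : Nat)
    (h : fixAt tp z fl p = true) (hp : tp z p = p) : p ∈ fl := by
  unfold fixAt at h
  have e : Nat.beq (tp z p) p = true := by rw [hp]; exact Nat.beq_refl _
  rw [e] at h
  exact memK_spec fl p h

/-! ### counting -/

section count

variable {G : Type*} [Group G] [Finite G] {α : Type*}

/-- the centraliser of `z`, conjugates of `z` in a point stabiliser, and the fixed points. -/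
theorem cent_count (φ : G →* Equiv.Perm α) (z : G) (ω : α)
    (F : Finset α) (hF : ∀ g : G, φ z (φ g ω) = φ g ω → φ g ω ∈ F)
    (m : Nat) (u : Fin m → G) (hu : ∀ i, φ z (φ (u i) ω) = φ (u i) ω)
    (hdist : ∀ i j, (u i)⁻¹ * z * u i = (u j)⁻¹ * z * u j → i = j) :
    Nat.card (Subgroup.centralizer ({z} : Set G)) * m ≤
      F.card * Nat.card {g : G // φ g ω = ω} := by
  classical
  have key : ∀ (c : Subgroup.centralizer ({z} : Set G)) (i : Fin m),
      (c.1 * u i)⁻¹ * z * (c.1 * u i) = (u i)⁻¹ * z * u i := by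
    intro c i
    have hc : z * c.1 = c.1 * z := (Subgroup.mem_centralizer_iff.mp c.2) z rfl
    calc (c.1 * u i)⁻¹ * z * (c.1 * u i) = (u i)⁻¹ * (c.1⁻¹ * (z * c.1)) * u i := by group
      _ = (u i)⁻¹ * z * u i := by rw [hc]; group
  have hT : ∀ (c : Subgroup.centralizer ({z} : Set G)) (i : Fin m),
      φ z (φ (c.1 * u i) ω) = φ (c.1 * u i) ω := by
    intro c i
    have hc : z * c.1 = c.1 * z := (Subgroup.mem_centralizer_iff.mp c.2) z rfl
    have e1 : φ (c.1 * u i) ω = φ c.1 (φ (u i) ω) := by rw [map_mul]; rfl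
    have e2 : φ z (φ c.1 (φ (u i) ω)) = φ (z * c.1) (φ (u i) ω) := by rw [map_mul]; rfl
    rw [e1, e2, hc, map_mul, Equiv.Perm.mul_apply, hu i]
  have h1 : Nat.card (Subgroup.centralizer ({z} : Set G)) * m ≤
      Nat.card {g : G // φ z (φ g ω) = φ g ω} := by
    have h := Nat.card_le_card_of_injective
      (fun p : Subgroup.centralizer ({z} : Set G) × Fin m =>
        (⟨p.1.1 * u p.2, hT p.1 p.2⟩ : {g : G // φ z (φ g ω) = φ g ω})) (by
      rintro ⟨c, i⟩ ⟨c', j⟩ hpq
      have e : c.1 * u i = c'.1 * u j := congrArg Subtype.val hpq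
      have e2 : (u i)⁻¹ * z * u i = (u j)⁻¹ * z * u j := by
        rw [← key c i, ← key c' j, e]
      have hij := hdist i j e2
      subst hij
      have e3 : c.1 = c'.1 := mul_right_cancel e
      rw [Subtype.ext e3])
    rwa [Nat.card_prod, Nat.card_fin] at h
  have h2 : Nat.card {g : G // φ z (φ g ω) = φ g ω} ≤
      F.card * Nat.card {g : G // φ g ω = ω} := by
    let rep : α → G := fun a => if h : ∃ g : G, φ g ω = a then h.choose else 1
    have hrep : ∀ g : G, φ (rep (φ g ω)) ω = φ g ω := by
      intro g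
      have h : ∃ g' : G, φ g' ω = φ g ω := ⟨g, rfl⟩
      show φ (if h : ∃ g' : G, φ g' ω = φ g ω then h.choose else 1) ω = φ g ω
      rw [dif_pos h]
      exact h.choose_spec
    have hmem : ∀ g : G, φ ((rep (φ g ω))⁻¹ * g) ω = ω := by
      intro g
      rw [map_mul, Equiv.Perm.mul_apply, map_inv]
      have h := hrep g
      generalize rep (φ g ω) = r at h ⊢
      rw [← h]
      exact perm_inv_apply _ _
    have h := Nat.card_le_card_of_injective
      (fun t : {g : G // φ z (φ g ω) = φ g ω} =>
        (((⟨φ t.1 ω, hF t.1 t.2⟩ : F), (⟨(rep (φ t.1 ω))⁻¹ * t.1, hmem t.1⟩ :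
          {g : G // φ g ω = ω})) : F × {g : G // φ g ω = ω})) (by
      rintro ⟨s, hs⟩ ⟨t, ht⟩ hst
      simp only [Prod.mk.injEq, Subtype.mk.injEq] at hst
      obtain ⟨e1, e2⟩ := hst
      rw [e1] at e2
      exact Subtype.ext (mul_left_cancel e2))
    rw [Nat.card_prod, Nat.card_eq_fintype_card (α := F), Fintype.card_coe] at h
    exact h
  exact le_trans h1 h2

/-- orbit-stabiliser, as an inequality. -/
theorem stab_mul_le (φ : G →* Equiv.Perm α) (ω : α) (r : Nat) (pts : Fin r → G)
    (hpts : ∀ i j, φ (pts i) ω = φ (pts j) ω → i = j) :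
    Nat.card {g : G // φ g ω = ω} * r ≤ Nat.card G := by
  have h := Nat.card_le_card_of_injective
    (fun p : {g : G // φ g ω = ω} × Fin r => pts p.2 * p.1.1) (by
    rintro ⟨⟨s, hs⟩, i⟩ ⟨⟨t, ht⟩, j⟩ hpq
    have e : pts i * s = pts j * t := hpq
    have e2 : φ (pts i) ω = φ (pts j) ω := by
      have a1 : φ (pts i * s) ω = φ (pts i) ω := by
        rw [map_mul, Equiv.Perm.mul_apply, hs]
      have a2 : φ (pts j * t) ω = φ (pts j) ω := by
        rw [map_mul, Equiv.Perm.mul_apply, ht]
      rw [← a1, ← a2, e]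
    have hij := hpts i j e2
    subst hij
    have e3 : s = t := mul_left_cancel e
    subst e3
    rfl)
  rwa [Nat.card_prod, Nat.card_fin] at h

end count

/-! ### word identities from the table -/

section table

variable {G : Type*} [Group G] {n L : Nat} {tp : Nat → Nat → Nat}

theorem wp_eq_one_of_scan (φ : G →* Equiv.Perm (Fin n)) (hinj : Function.Injective φ)
    (lt : Nat → G)
    (hφ : ∀ y, y < L → ∀ a : Fin n, (((φ (lt y))⁻¹ a : Fin n) : Nat) = tp y a)
    (w : List Nat) (hw : ∀ y ∈ w, y < L) (h : ∀ a : Fin n, scanP tp w a = a) :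
    wp lt w = 1 := by
  apply hinj
  rw [map_one]
  apply inv_injective
  rw [inv_one]
  ext a
  rw [scan_eq φ lt hφ w hw a, h a]
  rfl

theorem wp_eq_of_scan (φ : G →* Equiv.Perm (Fin n)) (hinj : Function.Injective φ)
    (lt : Nat → G)
    (hφ : ∀ y, y < L → ∀ a : Fin n, (((φ (lt y))⁻¹ a : Fin n) : Nat) = tp y a)
    (u v : List Nat) (hu : ∀ y ∈ u, y < L) (hv : ∀ y ∈ v, y < L)
    (h : ∀ a : Fin n, scanP tp u a = scanP tp v a) :
    wp lt u = wp lt v := by
  apply hinj
  apply inv_injective
  ext a
  rw [scan_eq φ lt hφ u hu a, scan_eq φ lt hφ v hv a, h a]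

theorem wp_reverse (lt : Nat → G) (hinvol : ∀ y, y < L → lt y * lt y = 1) (w : List Nat)
    (hw : ∀ y ∈ w, y < L) : wp lt w.reverse = (wp lt w)⁻¹ := by
  have h := wp_invw lt id L (fun y hy => eq_inv_of_mul_eq_one_left (hinvol y hy)) w hw
  unfold invw at h
  rw [List.map_id] at h
  exact h

/-- a lower bound for the orbit of `ω` from words with increasing images. -/
theorem stab_le_of_words [Finite G] (φ : G →* Equiv.Perm (Fin n)) (lt : Nat → G)
    (hφ : ∀ y, y < L → ∀ a : Fin n, (((φ (lt y))⁻¹ a : Fin n) : Nat) = tp y a)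
    (ω : Nat) (hω : ω < n) (ows : List (List Nat)) (hL : ∀ w ∈ ows, ∀ s ∈ w, s < L)
    (h : incOK (fun w => scanP tp w ω) ows 0 = true) :
    Nat.card {g : G // φ g ⟨ω, hω⟩ = ⟨ω, hω⟩} * ows.length ≤ Nat.card G := by
  obtain ⟨-, hpw⟩ := incOK_spec _ ows 0 h
  apply stab_mul_le φ ⟨ω, hω⟩ ows.length (fun i => (wp lt (ows.get i))⁻¹)
  intro i j e
  apply inc_inj (fun w => scanP tp w ω) ows hpw i j
  have h1 : ∀ i : Fin ows.length,
      ((φ (wp lt (ows.get i))⁻¹ ⟨ω, hω⟩ : Fin n) : Nat) = scanP tp (ows.get i) ω := by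
    intro i
    rw [map_inv]
    exact scan_eq φ lt hφ (ows.get i) (hL _ (List.get_mem ows i)) ⟨ω, hω⟩
  show scanP tp (ows.get i) ω = scanP tp (ows.get j) ω
  rw [← h1 i, ← h1 j, e]

end table

/-! ### the main statement -/

section main

variable {G : Type*} [Group G] [Finite G] {n L : Nat} {tp : Nat → Nat → Nat}
  {α : Type} [DecidableEq α]
  {edges : List (α × ℕ × α)} {extra : List (FreeGroup α)} {code : α × Bool → Nat}
  {dec : Nat → α × Bool} {inv : Nat → Nat} {Lp : Nat} {gens : List α} {pairs : List (α × α)}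
  {relW : List (List Nat)}
  {X k d : Nat} {xt rk par sy : Nat → Nat → Nat} {lv bs ns : Nat → Nat}
  {defs : List (List Nat)} {prs : List (List Nat × List Nat)}

theorem side (φ : G →* Equiv.Perm (Fin n)) (hinj : Function.Injective φ) (lt : Nat → G)
    (hφ : ∀ y, y < L → ∀ a : Fin n, (((φ (lt y))⁻¹ a : Fin n) : Nat) = tp y a)
    (hinvol : ∀ y, y < L → lt y * lt y = 1)
    (O : PresOK edges extra code dec inv Lp gens pairs relW)
    (hinvP : ∀ y, y < Lp → inv y = y)
    (N : Nat) (hfinP : Finite (Grp edges extra)) (hP : Nat.card (Grp edges extra) ≤ N)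
    (kws : List (List Nat)) (hkL : ∀ y, y < Lp → ∀ s ∈ nthD [] kws y, s < L)
    (rW : List (List Nat)) (hrW1 : ∀ w ∈ relW, w ∈ rW) (hrW2 : ∀ y, y < Lp → [y, y] ∈ rW)
    (hrel : ∀ p, p < n → relsAt (tpOf tp kws) rW p = true)
    (C : Checks n Lp X k d (tpOf tp kws) xt rk par sy lv bs ns defs prs) (hN : prodN ns k = N)
    (zl : Nat) (hzl : zl < L)
    (cprs : List (List Nat × List Nat))
    (hcp : ∀ y, y < Lp → (nthD [] kws y ++ [zl], zl :: nthD [] kws y) ∈ cprs)
    (hcomm : ∀ p, p < n → eqAt tp cprs p = true)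
    (ω : Nat) (hω : ω < n) (S : Nat)
    (hS : Nat.card {g : G // φ g ⟨ω, hω⟩ = ⟨ω, hω⟩} ≤ S)
    (fl : List Nat)
    (hfix : ∀ g : G, tp zl (φ g ⟨ω, hω⟩).1 = (φ g ⟨ω, hω⟩).1 → (φ g ⟨ω, hω⟩).1 ∈ fl)
    (us : List (List Nat)) (M : Nat) (qs : List Nat) (hqs : ∀ q ∈ qs, q < n)
    (husL : ∀ u ∈ us, ∀ s ∈ u, s < L)
    (hus1 : allW (fun u => Nat.beq (tp zl (scanP tp u ω)) (scanP tp u ω)) us = true)
    (hus2 : incOK (fun u => fpL tp zl M u qs) us 0 = true)
    (hnum : fl.length * S ≤ N * us.length) (hpos : 0 < us.length) :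
    ∃ θ : Grp edges extra →* G, Function.Injective θ ∧
      θ.range = Subgroup.centralizer ({lt zl} : Set G) := by
  classical
  -- the generators
  let g : Nat → G := fun y => wp lt (nthD [] kws y)
  have hφK : ∀ y, y < Lp → ∀ a : Fin n, (((φ (g y))⁻¹ a : Fin n) : Nat) = tpOf tp kws y a :=
    fun y hy a => scan_eq φ lt hφ (nthD [] kws y) (hkL y hy) a
  have hone : ∀ w ∈ rW, (∀ y ∈ w, y < Lp) → wp g w = 1 := by
    intro w hw hwL
    apply wp_eq_one_of_scan φ hinj g hφK w hwL
    intro a
    exact (relsAt_spec (tpOf tp kws) rW a).mp (hrel a a.2) w hw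
  have hsq : ∀ y, y < Lp → g y * g y = 1 := by
    intro y hy
    have h := hone [y, y] (hrW2 y hy) (by
      intro s hs
      have : s = y := by simpa using hs
      rw [this]; exact hy)
    rw [wp_cons, wp_cons, wp_nil, mul_one] at h
    exact h
  have hI : ∀ y, y < Lp → g (inv y) = (g y)⁻¹ := by
    intro y hy
    rw [hinvP y hy]
    exact eq_inv_of_mul_eq_one_left (hsq y hy)
  have hR : ∀ w ∈ relW, wp g w = 1 := fun w hw => hone w (hrW1 w hw) (O.rel_letters w hw)
  obtain ⟨θ, hθ⟩ := exists_hom O g hI hR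
  -- injectivity
  have hφP : ∀ y, y < Lp → ∀ a : Fin n,
      ((((φ.comp θ) (ltG edges extra dec y))⁻¹ a : Fin n) : Nat) = tpOf tp kws y a := by
    intro y hy a
    rw [MonoidHom.comp_apply, hθ y hy]
    exact hφK y hy a
  obtain ⟨hcard, hinjc, -⟩ := SGS.main C (φ.comp θ) (ltG edges extra dec) hφP N hN hP
  have hθinj : Function.Injective θ := by
    have : Function.Injective (φ ∘ θ) := by
      rw [← MonoidHom.coe_comp]; exact hinjc
    exact Function.Injective.of_comp this
  -- the centraliser
  have hcommg : ∀ y, y < Lp → lt zl * g y = g y * lt zl := by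
    intro y hy
    have h := wp_eq_of_scan φ hinj lt hφ (nthD [] kws y ++ [zl]) (zl :: nthD [] kws y)
      (by
        intro s hs
        rcases List.mem_append.mp hs with h1 | h1
        · exact hkL y hy s h1
        · rw [List.mem_singleton.mp h1]; exact hzl)
      (by
        intro s hs
        rcases List.mem_cons.mp hs with h1 | h1
        · rw [h1]; exact hzl
        · exact hkL y hy s h1)
      (fun a => (eqAt_spec tp cprs a).mp (hcomm a a.2) _ (hcp y hy))
    rw [wp_append, wp_cons, wp_cons, wp_nil, mul_one] at h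
    exact h.symm
  have hle : θ.range ≤ Subgroup.centralizer ({lt zl} : Set G) := by
    rw [MonoidHom.range_eq_map, ← genG O, MonoidHom.map_closure, Subgroup.closure_le]
    rintro _ ⟨_, ⟨y, hy, rfl⟩, rfl⟩
    rw [hθ y hy]
    show g y ∈ Subgroup.centralizer ({lt zl} : Set G)
    rw [Subgroup.mem_centralizer_iff]
    intro h hh
    rw [Set.mem_singleton_iff.mp hh]
    exact hcommg y hy
  -- the order of the centraliser
  let ω' : Fin n := ⟨ω, hω⟩
  have hfixiff : ∀ a : Fin n, φ (lt zl) a = a ↔ tp zl a.1 = a.1 := by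
    intro a
    constructor
    · intro h
      have h2 : (φ (lt zl))⁻¹ a = a := by
        conv_lhs => rw [← h]
        exact perm_inv_apply _ _
      rw [← hφ zl hzl a, h2]
    · intro h
      have h2 : (φ (lt zl))⁻¹ a = a := Fin.ext (by rw [hφ zl hzl a, h])
      conv_lhs => rw [← h2]
      exact perm_apply_inv _ _
  let F : Finset (Fin n) := Finset.univ.filter (fun a : Fin n => a.1 ∈ fl)
  have hFcard : F.card ≤ fl.length := by
    have h1 : F.card = (F.image (fun a : Fin n => a.1)).card :=
      (Finset.card_image_of_injective F (fun a b h => Fin.ext h)).symm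
    have h2 : F.image (fun a : Fin n => a.1) ⊆ fl.toFinset := by
      intro x hx
      obtain ⟨a, ha, rfl⟩ := Finset.mem_image.mp hx
      rw [List.mem_toFinset]
      exact (Finset.mem_filter.mp ha).2
    rw [h1]
    exact le_trans (Finset.card_le_card h2) (List.toFinset_card_le fl)
  have hF : ∀ x : G, φ (lt zl) (φ x ω') = φ x ω' → φ x ω' ∈ F := by
    intro x hx
    rw [Finset.mem_filter]
    exact ⟨Finset.mem_univ _, hfix x ((hfixiff _).mp hx)⟩
  let u : Fin us.length → G := fun i => (wp lt (us.get i))⁻¹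
  have huω : ∀ i : Fin us.length, ((φ (u i) ω' : Fin n) : Nat) = scanP tp (us.get i) ω := by
    intro i
    show ((φ (wp lt (us.get i))⁻¹ ω' : Fin n) : Nat) = _
    rw [map_inv]
    exact scan_eq φ lt hφ (us.get i) (husL _ (List.get_mem us i)) ω'
  have hu : ∀ i, φ (lt zl) (φ (u i) ω') = φ (u i) ω' := by
    intro i
    rw [hfixiff, huω i]
    have := (allW_spec _ us).mp hus1 (us.get i) (List.get_mem us i)
    exact Nat.eq_of_beq_eq_true this
  have hconj : ∀ i : Fin us.length, (u i)⁻¹ * lt zl * u i =
      wp lt (us.get i ++ zl :: (us.get i).reverse) := by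
    intro i
    have hL := husL _ (List.get_mem us i)
    rw [wp_append, wp_cons, wp_reverse lt hinvol _ hL]
    show (wp lt (us.get i))⁻¹⁻¹ * lt zl * (wp lt (us.get i))⁻¹ = _
    rw [inv_inv, mul_assoc]
  have hfp : ∀ (i : Fin us.length) (q : Nat) (hq : q < n),
      ((φ ((u i)⁻¹ * lt zl * u i))⁻¹ ⟨q, hq⟩ : Fin n).1 = fpAt tp zl (us.get i) q := by
    intro i q hq
    have hL := husL _ (List.get_mem us i)
    rw [hconj i, fpAt_eq]
    exact scan_eq φ lt hφ _ (by
      intro s hs
      rcases List.mem_append.mp hs with h1 | h1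
      · exact hL s h1
      · rcases List.mem_cons.mp h1 with h2 | h2
        · rw [h2]; exact hzl
        · exact hL s (List.mem_reverse.mp h2)) ⟨q, hq⟩
  obtain ⟨-, hpw⟩ := incOK_spec _ us 0 hus2
  have hdist : ∀ i j, (u i)⁻¹ * lt zl * u i = (u j)⁻¹ * lt zl * u j → i = j := by
    intro i j e
    apply inc_inj (fun u => fpL tp zl M u qs) us hpw i j
    apply fpL_congr
    intro q hq
    rw [← hfp i q (hqs q hq), ← hfp j q (hqs q hq), e]
  have hcount := cent_count φ (lt zl) ω' F hF us.length u hu hdist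
  have hCle : Nat.card (Subgroup.centralizer ({lt zl} : Set G)) ≤ N := by
    have h1 : Nat.card (Subgroup.centralizer ({lt zl} : Set G)) * us.length ≤ N * us.length :=
      calc Nat.card (Subgroup.centralizer ({lt zl} : Set G)) * us.length
          ≤ F.card * Nat.card {x : G // φ x ω' = ω'} := hcount
        _ ≤ fl.length * S := Nat.mul_le_mul hFcard hS
        _ ≤ N * us.length := hnum
    exact Nat.le_of_mul_le_mul_right h1 hpos
  refine ⟨θ, hθinj, ?_⟩
  apply Subgroup.eq_of_le_of_card_ge hle
  have h3 : Nat.card θ.range = N := by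
    rw [← hcard]
    exact (Nat.card_congr (MonoidHom.ofInjective hθinj).toEquiv).symm
  rw [h3]
  exact hCle

end main

end Cfsg.Agent.Lib.Helper28.CeGen
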