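import Cfsg.Agent.Lib.Helper28.CeHC0
import Cfsg.Agent.Lib.Helper28.CeHC1
import Cfsg.Agent.Lib.Helper28.CeHC2
import Cfsg.Agent.Lib.Helper28.CeHC3
import Cfsg.Agent.Lib.Helper28.CeHC4
import Cfsg.Agent.Lib.Helper28.CeHC5
import Cfsg.Agent.Lib.Helper28.CeHC6
import Cfsg.Agent.Lib.Helper28.CeHC7

set_option autoImplicit false

namespace Cfsg.Agent.Lib.Helper28.CeHX

open Cfsg.Agent.Lib.Helper28.TCKernel Cfsg.Agent.Lib.Helper28.SGS Cfsg.Agent.Lib.Helper28.CeGen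

theorem chunk : ∀ k, k < 8 → allTree CeData.chkPt 11 (k * 2 ^ 11) = true
  | 0, _ => CeHC0.chk
  | 1, _ => CeHC1.chk
  | 2, _ => CeHC2.chk
  | 3, _ => CeHC3.chk
  | 4, _ => CeHC4.chk
  | 5, _ => CeHC5.chk
  | 6, _ => CeHC6.chk
  | 7, _ => CeHC7.chk
  | (k + 8), h => absurd h (by omega)

theorem point (p : Nat) (hp : p < 8330) : CeData.chkPt p = true :=
  allTree_chunks CeData.chkPt 11 8 chunk p (lt_of_lt_of_le hp (by decide))

theorem hus1 : allW (fun u => Nat.beq (THeNLT.tp 4 (scanP THeNLT.tp u 0)) (scanP THeNLT.tp u 0))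
    CeData.us = true := by decide +kernel

theorem hus2 : incOK (fun u => fpL THeNLT.tp 4 16384 u CeData.qs) CeData.us 0 = true := by
  decide +kernel

end Cfsg.Agent.Lib.Helper28.CeHX
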