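import Cfsg.Agent.Lib.Helper28.TCPres
import Cfsg.Agent.Lib.Helper28.OrdChain

/-!
The enumeration part of the coset-table certificates alone: the index of a subgroup of a
presented group generated by the images of given words is positive and at most the number
of cosets of the table; and the step of an order bound along a chain of subgroups that uses
only this.
-/

set_option autoImplicit false

namespace Cfsg.Agent.Lib.Helper28.TCMainLe

open Cfsg.Agent.Lib.Helper28.TCKernel Cfsg.Agent.Lib.Helper28.TCSound
open Cfsg.Agent.Lib.Helper28.TCPres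
open Cfsg.Spor

variable {α : Type} [DecidableEq α]
  {edges : List (α × ℕ × α)} {extra : List (FreeGroup α)} {code : α × Bool → Nat}
  {dec : Nat → α × Bool} {inv : Nat → Nat} {L : Nat} {gens : List α} {pairs : List (α × α)}
  {relW : List (List Nat)}

theorem main_le (O : PresOK edges extra code dec inv L gens pairs relW)
    (S : Set (FreeGroup α)) (sgSrc : List (FreeGroup α)) (hS : S = {s | s ∈ sgSrc})
    (sgW : List (List Nat)) (hsg : sgSrc.map (toLetters code) = sgW)
    (hsgL : ∀ w ∈ sgW, ∀ y ∈ w, y < L)
    (N n d F B : Nat) (tgt sig crt hnt : Nat → Nat → Nat) (dsig mu dcrt dst par plet : Nat → Nat)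
    (certs : List Cert) (hints : List (Nat × Nat))
    (hcerts : certsOK (relAll inv L relW) (sgAll inv sgW) L certs hints = true)
    (hB : ∀ y v, sig y v ≤ B) (hB' : ∀ v, dsig v ≤ B)
    (hchk : ∀ v, andK (nameOK tgt sig crt hnt dsig mu dcrt dst par plet certs F L v)
      (finOK tgt sig hnt dsig mu F L N v) = true)
    (h0 : aliveB dsig N 0 = true) (hNd : N ≤ 2 ^ d)
    (hcnt : cntTree (aliveB dsig N) d 0 = n) :
    ((Subgroup.closure S).map
        (PresentedGroup.mk (coxRelators edges ∪ {r | r ∈ extra}))).index ≠ 0 ∧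
    ((Subgroup.closure S).map
        (PresentedGroup.mk (coxRelators edges ∪ {r | r ∈ extra}))).index ≤ n := by
  have hH := map_closure_eq O S sgSrc hS sgW hsg
  generalize (Subgroup.closure S).map
    (PresentedGroup.mk (coxRelators edges ∪ {r | r ∈ extra})) = H at hH ⊢
  have hI : ∀ y, y < L → ltG edges extra dec (inv y) = (ltG edges extra dec y)⁻¹ := ltG_inv O
  have hSm : ∀ w ∈ sgW, wp (ltG edges extra dec) w ∈ H := by
    intro w hw
    rw [hH]
    exact Subgroup.subset_closure ⟨w, hw, rfl⟩
  have hSA := sgAll_mem H (ltG edges extra dec) inv L sgW hI hsgL hSm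
  have hRA := relAll_one (ltG edges extra dec) inv L relW hI O.rel_letters (relG O)
  have hcert := certsOK_good H (ltG edges extra dec) _ _ L hRA hSA certs hints hcerts
  exact index_le_of_checks H (ltG edges extra dec) L N n d F B tgt sig crt hnt dsig mu dcrt
    dst par plet certs (genG O) (fun y hy => ⟨inv y, (O.inv_ok y hy).1, hI y hy⟩) hcert hB hB'
    hchk h0 hNd hcnt

theorem card_le_of_index_le {G : Type*} [Group G] (H : Subgroup G) (n m : Nat)
    (hidx : H.index ≠ 0 ∧ H.index ≤ n) (hfin : Finite H) (hm : Nat.card H ≤ m) :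
    Finite G ∧ Nat.card G ≤ n * m := by
  have h1 := Subgroup.card_mul_index H
  have hpos : 0 < Nat.card H := Nat.card_pos
  have hG : Nat.card G ≠ 0 := by
    rw [← h1]
    exact Nat.mul_ne_zero (by omega) hidx.1
  refine ⟨Nat.finite_of_card_ne_zero hG, ?_⟩
  rw [← h1, mul_comm]
  exact Nat.mul_le_mul hidx.2 hm

theorem chain_step_le {G P : Type*} [Group G] [Group P] (H : Subgroup G) (n m : Nat)
    (hidx : H.index ≠ 0 ∧ H.index ≤ n) (F : P →* G) (hF : F.range = H)
    (hP : Finite P ∧ Nat.card P ≤ m) : Finite G ∧ Nat.card G ≤ n * m := by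
  obtain ⟨hfin, hcard⟩ := hP
  subst hF
  obtain ⟨h1, h2⟩ := OrdChain.card_range_le F m hcard
  exact card_le_of_index_le F.range n m hidx h1 h2

end Cfsg.Agent.Lib.Helper28.TCMainLe
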