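import Cfsg.Prelude.Def_SporCoxeter

set_option autoImplicit false

namespace Cfsg.Agent.Lib.Helper28.Ce

open Cfsg.Spor

/-- the generators -/
inductive Gen
  | x
  | y
  | z
  deriving DecidableEq

abbrev x : FreeGroup Gen := FreeGroup.of Gen.x
abbrev y : FreeGroup Gen := FreeGroup.of Gen.y
abbrev z : FreeGroup Gen := FreeGroup.of Gen.z

/-- the diagram -/
def edges : List (Gen × ℕ × Gen) :=
  [(.x, 6, .y), (.x, 6, .z), (.y, 4, .z)]

/-- the further relators -/
def extra : List (FreeGroup Gen) := [x * y * x * y * x * z * x * z * x * y * z * x * y * x * z * y * x * z * x * y * z,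
  x * y * x * y * x * y * z * x * y * x * y * z * x * y * x * z * y * x * y * z * x * y * x * z * x * z,
  x * y * x * y * x * z * x * y * z * x * z * y * x * z * x * y * z * x * z * x * y * z * x * z * x * z]

end Cfsg.Agent.Lib.Helper28.Ce
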