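import Cfsg.Agent.Lib.Helper28.TCPres
import Cfsg.Agent.Lib.Helper28.DefCe

set_option autoImplicit false

namespace Cfsg.Agent.Lib.Helper28.PresCe

open Cfsg.Spor Cfsg.Agent.Lib.Helper28.TCKernel Cfsg.Agent.Lib.Helper28.TCPres

/-- letter of a generator or of its inverse -/
def code : Ce.Gen × Bool → Nat
  | (.x, _) => 0
  | (.y, _) => 1
  | (.z, _) => 2
def decl : List (Ce.Gen × Bool) := [(.x, true), (.y, true), (.z, true)]
/-- generator and sign of a letter -/
def dec (y : Nat) : Ce.Gen × Bool := decl.getD y (.x, true)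
def invL : List Nat := [0, 1, 2]
def inv : Nat → Nat := nthD 0 invL
def gens : List Ce.Gen := [.x, .y, .z]
def pairs : List (Ce.Gen × Ce.Gen) := [(.x, .y), (.x, .z), (.y, .z)]
def relW : List (List Nat) := [[0, 1, 0, 1, 0, 1, 0, 1, 0, 1, 0, 1],
  [0, 2, 0, 2, 0, 2, 0, 2, 0, 2, 0, 2],
  [1, 2, 1, 2, 1, 2, 1, 2],
  [0, 1, 0, 1, 0, 2, 0, 2, 0, 1, 2, 0, 1, 0, 2, 1, 0, 2, 0, 1, 2],
  [0, 1, 0, 1, 0, 1, 2, 0, 1, 0, 1, 2, 0, 1, 0, 2, 1, 0, 1, 2, 0, 1, 0, 2, 0, 2],
  [0, 1, 0, 1, 0, 2, 0, 1, 2, 0, 2, 1, 0, 2, 0, 1, 2, 0, 2, 0, 1, 2, 0, 2, 0, 2]]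
theorem ok : PresOK Ce.edges Ce.extra code dec inv 3 gens pairs relW where
  gens_all := by intro x; cases x <;> decide
  code_true := by decide +kernel
  code_false := by decide +kernel
  dec_code := by decide +kernel
  inv_ok := by decide +kernel
  node_inv := by decide +kernel
  pairs_nodes := by decide +kernel
  pairs_all := by decide +kernel
  label_symm := by decide +kernel
  rel_words := by decide +kernel
  rel_letters := by decide +kernel

end Cfsg.Agent.Lib.Helper28.PresCe
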