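import Cfsg.Agent.Lib.Helper28.TCMainLe
import Cfsg.Agent.Lib.Helper28.PresCe
import Cfsg.Agent.Lib.Helper28.TCeUC0

set_option autoImplicit false

namespace Cfsg.Agent.Lib.Helper28.TCeX

open Cfsg.Spor Cfsg.Agent.Lib.Helper28.TCKernel Cfsg.Agent.Lib.Helper28.TCSound Cfsg.Agent.Lib.Helper28.TCPres Cfsg.Agent.Lib.Helper28.TCMainLe

/-- the subgroup generators -/
def sgSrc : List (FreeGroup Ce.Gen) := [Ce.x]

theorem chunkU : ∀ k, k < 1 → allTree TCeUT.chkName 14 (k * 2 ^ 14) = true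
  | 0, _ => TCeUC0.chk
  | (k + 1), h => absurd h (by omega)

theorem chkU (v : Nat) : TCeUT.chkName v = true := by
  rcases Nat.lt_or_ge v (2 ^ 14) with h | h
  · exact allTree_chunks TCeUT.chkName 14 1 chunkU v h
  · exact chk_of_zero _ _ _ _ _ _ _ _ _ _ _ _ _ _ v
      (fun y => fld3_eq_zero _ _ _ _ _ _ _ _ y v 2 (by decide)
        (le_trans (by decide : 2 * 2 ^ (8 + 5) ≤ 2 ^ 14) h))
      (fld1_eq_zero _ _ _ _ _ _ _ _ v
        (le_trans (by decide : TCeUT.dtop.length * 2 ^ (7 + 5) ≤ 2 ^ 14) h))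
      (le_trans (by decide : 12704 ≤ 2 ^ 14) h)

/-- the index of the subgroup is positive and at most 10752 -/
theorem final_le : ((Subgroup.closure {s | s ∈ sgSrc}).map (PresentedGroup.mk (coxRelators Ce.edges ∪ {r | r ∈ Ce.extra}))).index ≠ 0 ∧ ((Subgroup.closure {s | s ∈ sgSrc}).map (PresentedGroup.mk (coxRelators Ce.edges ∪ {r | r ∈ Ce.extra}))).index ≤ 10752 :=
  main_le PresCe.ok {s | s ∈ sgSrc} sgSrc rfl TCeUT.sgW (by decide +kernel) (by decide +kernel)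
    12704 10752 14 2 65535 TCeUT.tgt TCeUT.sig TCeUT.crt TCeUT.hnt TCeUT.dsig TCeUT.mu TCeUT.dcrt TCeUT.dst
    TCeUT.par TCeUT.plet TCeUT.certs TCeUT.hints (by decide +kernel)
    (fun y v => fld3_le _ _ _ _ _ _ _ _ y v) (fun v => fld1_le _ _ _ _ _ _ _ _ v) chkU
    (by decide +kernel) (by decide) TCeUC0.cnt

end Cfsg.Agent.Lib.Helper28.TCeX
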