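import Cfsg.Agent.Lib.Helper28.ChainStep
import Cfsg.Agent.Lib.Helper28.TCMainLe
import Cfsg.Agent.Lib.Helper28.TCeX

/-!
The group presented on three involutions `x, y, z` with `(xy)^6 = (xz)^6 = (yz)^4 = 1` and
three further relators has order at most 21504: coset enumeration over the subgroup generated
by `x`.
-/

set_option autoImplicit false

namespace Cfsg.Agent.Lib.Helper28.CeP

open Cfsg.Spor Cfsg.Agent.Lib.Helper28.TCKernel Cfsg.Agent.Lib.Helper28.TCSound
open Cfsg.Agent.Lib.Helper28.TCPres Cfsg.Agent.Lib.Helper28.ChainStep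
open Cfsg.Agent.Lib.Helper28.TCMainLe

theorem invol_closure {G : Type*} [Group G] (x : G) (hx : x * x = 1) :
    Finite (Subgroup.closure ({x} : Set G)) ∧ Nat.card (Subgroup.closure ({x} : Set G)) ≤ 2 := by
  have hz : Subgroup.closure ({x} : Set G) = Subgroup.zpowers x :=
    (Subgroup.zpowers_eq_closure x).symm
  have h2 : x ^ 2 = 1 := by rw [pow_two]; exact hx
  have hdvd : orderOf x ∣ 2 := orderOf_dvd_of_pow_eq_one h2
  have hle : orderOf x ≤ 2 := Nat.le_of_dvd (by norm_num) hdvd
  have hpos : 0 < orderOf x := Nat.pos_of_dvd_of_pos hdvd (by norm_num)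
  have hcard : Nat.card (Subgroup.closure ({x} : Set G)) = orderOf x := by
    rw [hz]; exact Nat.card_zpowers x
  exact ⟨Nat.finite_of_card_ne_zero (by rw [hcard]; omega), by rw [hcard]; exact hle⟩

theorem bound : Finite (Grp Ce.edges Ce.extra) ∧ Nat.card (Grp Ce.edges Ce.extra) ≤ 21504 := by
  have h := TCeX.final_le
  have e : TCeX.sgSrc = [FreeGroup.of Ce.Gen.x] := rfl
  rw [e, map_single] at h
  obtain ⟨h1, h2⟩ := invol_closure (PresentedGroup.of Ce.Gen.x : Grp Ce.edges Ce.extra)
    (invol_G Ce.edges Ce.extra Ce.Gen.x (by decide))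
  have h3 := card_le_of_index_le _ 10752 2 h h1 h2
  exact ⟨h3.1, le_trans h3.2 (by decide)⟩

end Cfsg.Agent.Lib.Helper28.CeP
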