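import Cfsg.Agent.Lib.Helper28.CeSC0

set_option autoImplicit false

namespace Cfsg.Agent.Lib.Helper28.CeSX

open Cfsg.Agent.Lib.Helper28.TCKernel Cfsg.Agent.Lib.Helper28.SGS

theorem chunk : ∀ k, k < 1 → allTree CeST.chkPt 14 (k * 2 ^ 14) = true
  | 0, _ => CeSC0.chk
  | (k + 1), h => absurd h (by omega)

theorem checks : Checks 8330 3 11 2 14 CeData.tpK CeST.xt CeST.rk CeST.par CeST.sy CeST.lv CeST.bs CeST.ns
    CeST.defs CeST.prs where
  point := fun p hp => allTree_chunks CeST.chkPt 14 1 chunk p (lt_of_lt_of_le hp (by decide))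
  hX := by decide
  bd := by decide +kernel
  pbd := by decide +kernel
  fix := by decide +kernel
  lvX := fun s hs => nthD_of_length_le 0 CeST.lvl s (le_trans (by decide) hs)
  bsn := by decide +kernel
  cnt := by decide +kernel
  hd := by decide

theorem prod : prodN CeST.ns 2 = 21504 := by decide +kernel

end Cfsg.Agent.Lib.Helper28.CeSX
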