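import Cfsg.Agent.Lib.Helper28.HeMain
import Cfsg.Agent.Lib.Helper28.CeSX
import Cfsg.Agent.Lib.Helper28.CeHX
import Cfsg.Agent.Lib.Helper28.CeP

/-!
The centraliser of the involution `e` of the presented Held group is the image of the group
presented on `x, y, z` (module `DefCe`) under an injective homomorphism: `x, y, z` are sent to
`b` and two conjugates of `e`, the relators are checked on the 8330 cosets of the normaliser of
a four-group, a stabiliser chain of order 21504 shows that the map is injective, and the order
of the centraliser is bounded by the 42 fixed points of `e` and its 945 conjugates in the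
stabiliser of a point.
-/

set_option autoImplicit false

namespace Cfsg.Agent.Lib.Helper28.CeHe

open Cfsg.Spor Cfsg.Agent.Lib.Helper28.TCKernel Cfsg.Agent.Lib.Helper28.TCSound
open Cfsg.Agent.Lib.Helper28.TCPerm Cfsg.Agent.Lib.Helper28.TCPres
open Cfsg.Agent.Lib.Helper28.SGS Cfsg.Agent.Lib.Helper28.CeGen

theorem hpt (p : Nat) (hp : p < 8330) :
    relsAt CeData.tpK CeData.rW p = true ∧ eqAt THeNLT.tp CeData.cprs p = true ∧
      fixAt THeNLT.tp 4 CeData.fl p = true := by
  have h := CeHX.point p hp
  unfold CeData.chkPt at h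
  rw [Nat.ble_eq_true_of_le hp] at h
  have h' : andK (relsAt CeData.tpK CeData.rW p)
      (andK (eqAt THeNLT.tp CeData.cprs p) (fixAt THeNLT.tp 4 CeData.fl p)) = true := h
  rw [andK_true, andK_true] at h'
  exact h'

theorem main : ∃ z : Grp He.edges He.extra, orderOf z = 2 ∧
    ∃ θ : Grp Ce.edges Ce.extra →* Grp He.edges He.extra, Function.Injective θ ∧
      θ.range = Subgroup.centralizer ({z} : Set (Grp He.edges He.extra)) := by
  have hb := HeBound.bound
  have hfin := hb.1
  obtain ⟨φ, el, hcard, hinj, hφ', hel, heq, hSt, htr, hcls⟩ :=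
    StructN.structN PresHe.ok THeNX.permOK (by decide) HeIwa.hidx (by decide +kernel)
      (by decide +kernel) HeSX.checks 4030387200 HeSX.prod hb.1 hb.2
  have hI : ∀ y, y < 7 → ltG He.edges He.extra PresHe.dec (PresHe.inv y) =
      (ltG He.edges He.extra PresHe.dec y)⁻¹ := ltG_inv PresHe.ok
  have hinvy : ∀ y, y < 7 → PresHe.inv y = y := by decide +kernel
  have hinvol : ∀ y, y < 7 → ltG He.edges He.extra PresHe.dec y *
      ltG He.edges He.extra PresHe.dec y = 1 := by
    intro y hy
    have e := hI y hy
    rw [hinvy y hy] at e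
    nth_rewrite 2 [e]
    exact mul_inv_cancel _
  -- the stabiliser of the point 0
  have hS : Nat.card {g : Grp He.edges He.extra //
      φ g ⟨0, by decide⟩ = ⟨0, by decide⟩} ≤ 483840 := by
    have h := stab_mul_le φ (⟨0, by decide⟩ : Fin 8330) 8330
      (fun i => (htr i).choose) (by
        intro i j e
        have hi := (htr i).choose_spec
        have hj := (htr j).choose_spec
        rw [← hi, ← hj]
        exact e)
    rw [hcard] at h
    exact Nat.le_of_mul_le_mul_right
      (le_trans h (by decide : 4030387200 ≤ 483840 * 8330)) (by decide)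
  have hfix : ∀ g : Grp He.edges He.extra,
      THeNLT.tp 4 (φ g ⟨0, by decide⟩).1 = (φ g ⟨0, by decide⟩).1 →
        (φ g ⟨0, by decide⟩).1 ∈ CeData.fl :=
    fun g hg => fixAt_spec THeNLT.tp 4 CeData.fl _ (hpt _ (φ g ⟨0, by decide⟩).2).2.2 hg
  have hside := side φ hinj (ltG He.edges He.extra PresHe.dec) hφ' hinvol PresCe.ok
    (by decide +kernel) 21504 CeP.bound.1 CeP.bound.2
    CeData.kws (by decide +kernel) CeData.rW (by decide +kernel) (by decide +kernel)
    (fun p hp => (hpt p hp).1)
    CeSX.checks CeSX.prod 4 (by decide) CeData.cprs (by decide +kernel)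
    (fun p hp => (hpt p hp).2.1)
    0 (by decide) 483840 hS CeData.fl hfix CeData.us 16384 CeData.qs (by decide +kernel)
    (by decide +kernel) CeHX.hus1 CeHX.hus2 (by decide +kernel) (by decide +kernel)
  -- the order of `e`
  have hz2 := hinvol 4 (by decide)
  have hz1 : ltG He.edges He.extra PresHe.dec 4 ≠ 1 := by
    intro h1
    have h2 := hφ' 4 (by decide) ⟨3, by decide⟩
    rw [h1, map_one, inv_one] at h2
    have h3 : THeNLT.tp 4 3 = 161 := by decide +kernel
    rw [h3] at h2
    have h4 : (3 : Nat) = 161 := h2
    exact absurd h4 (by decide)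
  exact ⟨ltG He.edges He.extra PresHe.dec 4,
    orderOf_eq_prime (by rw [pow_two]; exact hz2) hz1, hside⟩

end Cfsg.Agent.Lib.Helper28.CeHe
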