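import Cfsg.Agent.Lib.Helper28.CeMX
import Cfsg.Agent.Lib.Helper28.CeP

/-!
The centraliser of the transvection `1 + E₀₁` in `SL(5, 2)` is the image of the group presented
on `x, y, z` (module `DefCe`) under an injective homomorphism: the special linear group acts
faithfully on the 32 vectors, the generators are sent to three explicit involutions, and the
order of the centraliser is bounded by counting the transvections that fix a vector.
-/

set_option autoImplicit false

namespace Cfsg.Agent.Lib.Helper28.CeMat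

open Cfsg.Spor Cfsg.Agent.Lib.Helper28.TCKernel Cfsg.Agent.Lib.Helper28.TCSound
open Cfsg.Agent.Lib.Helper28.TCPerm Cfsg.Agent.Lib.Helper28.TCPres
open Cfsg.Agent.Lib.Helper28.SGS Cfsg.Agent.Lib.Helper28.CeGen

abbrev SL5 : Type := Matrix.SpecialLinearGroup (Fin 5) (ZMod 2)
abbrev V5 : Type := Fin 5 → ZMod 2

/-- the vector with number `a`. -/
def vecN (a : Nat) : V5 := fun i => if (a / 2 ^ i.val) % 2 = 1 then 1 else 0

theorem vec_inj : ∀ a : Fin 32, ∀ b : Fin 32, vecN a.val = vecN b.val → a = b := by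
  decide +kernel

noncomputable def vecEquiv : Fin 32 ≃ V5 :=
  Equiv.ofBijective (fun a : Fin 32 => vecN a.val)
    ((Fintype.bijective_iff_injective_and_card _).mpr
      ⟨fun a b h => vec_inj a b h, by simp [ZMod.card]⟩)

theorem vecEquiv_apply (a : Fin 32) : vecEquiv a = vecN a.val := rfl

/-- the action of a matrix on the vectors. -/
def mvPerm (g : SL5) : Equiv.Perm V5 where
  toFun v := Matrix.mulVec g.1 v
  invFun v := Matrix.mulVec (g⁻¹).1 v
  left_inv v := by
    show Matrix.mulVec (g⁻¹).1 (Matrix.mulVec g.1 v) = v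
    rw [Matrix.mulVec_mulVec, ← Matrix.SpecialLinearGroup.coe_mul, inv_mul_cancel,
      Matrix.SpecialLinearGroup.coe_one, Matrix.one_mulVec]
  right_inv v := by
    show Matrix.mulVec g.1 (Matrix.mulVec (g⁻¹).1 v) = v
    rw [Matrix.mulVec_mulVec, ← Matrix.SpecialLinearGroup.coe_mul, mul_inv_cancel,
      Matrix.SpecialLinearGroup.coe_one, Matrix.one_mulVec]

theorem mvPerm_apply (g : SL5) (v : V5) : mvPerm g v = Matrix.mulVec g.1 v := rfl

def φV : SL5 →* Equiv.Perm V5 where
  toFun := mvPerm
  map_one' := by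
    apply Equiv.ext
    intro v
    rw [mvPerm_apply, Matrix.SpecialLinearGroup.coe_one, Matrix.one_mulVec]
    rfl
  map_mul' g h := by
    apply Equiv.ext
    intro v
    rw [Equiv.Perm.mul_apply, mvPerm_apply, mvPerm_apply, mvPerm_apply,
      Matrix.SpecialLinearGroup.coe_mul, Matrix.mulVec_mulVec]

theorem φV_inj : Function.Injective φV := by
  intro g h e
  apply Subtype.ext
  apply Matrix.ext_of_mulVec_single
  intro i
  have := congrArg (fun p : Equiv.Perm V5 => p (Pi.single i 1)) e
  exact this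

/-- the action on the numbers of the vectors. -/
noncomputable def φ2 : SL5 →* Equiv.Perm (Fin 32) :=
  (vecEquiv.symm.permCongrHom : Equiv.Perm V5 ≃* Equiv.Perm (Fin 32)).toMonoidHom.comp φV

theorem φ2_apply (g : SL5) (a : Fin 32) :
    φ2 g a = vecEquiv.symm (Matrix.mulVec g.1 (vecN a.val)) := rfl

theorem φ2_inj : Function.Injective φ2 := by
  intro g h e
  apply φV_inj
  exact (vecEquiv.symm.permCongrHom : Equiv.Perm V5 ≃* Equiv.Perm (Fin 32)).injective e

/-! ### the letters -/

theorem sq_det (M : Matrix (Fin 5) (Fin 5) (ZMod 2)) (h : M * M = 1) : M.det = 1 := by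
  have h1 : M.det * M.det = 1 := by rw [← Matrix.det_mul, h, Matrix.det_one]
  have key : ∀ x : ZMod 2, x * x = 1 → x = 1 := by decide
  exact key _ h1

theorem sqX : CeMData.mX * CeMData.mX = 1 := by decide +kernel
theorem sqY : CeMData.mY * CeMData.mY = 1 := by decide +kernel
theorem sqZ : CeMData.mZ * CeMData.mZ = 1 := by decide +kernel
theorem sqT : CeMData.mT * CeMData.mT = 1 := by decide +kernel
theorem sqW : CeMData.mW * CeMData.mW = 1 := by decide +kernel

/-- an involution as an element of the special linear group. -/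
def mkSL (M : Matrix (Fin 5) (Fin 5) (ZMod 2)) (h : M * M = 1) : SL5 := ⟨M, sq_det M h⟩

theorem mkSL_val (M : Matrix (Fin 5) (Fin 5) (ZMod 2)) (h : M * M = 1) : (mkSL M h).1 = M := rfl

theorem sq_SL (M : Matrix (Fin 5) (Fin 5) (ZMod 2)) (h : M * M = 1) :
    mkSL M h * mkSL M h = 1 := Subtype.ext h

def gX : SL5 := mkSL CeMData.mX sqX
def gY : SL5 := mkSL CeMData.mY sqY
def gZ : SL5 := mkSL CeMData.mZ sqZ
def gT : SL5 := mkSL CeMData.mT sqT
def gW : SL5 := mkSL CeMData.mW sqW

/-- the letters. -/
def lt2 (y : Nat) : SL5 := [gX, gY, gZ, gT, gW].getD y 1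

theorem tabX : ∀ a : Fin 32, Matrix.mulVec CeMData.mX (vecN a.val) = vecN (CeMData.tp 0 a.val) := by
  decide +kernel
theorem tabY : ∀ a : Fin 32, Matrix.mulVec CeMData.mY (vecN a.val) = vecN (CeMData.tp 1 a.val) := by
  decide +kernel
theorem tabZ : ∀ a : Fin 32, Matrix.mulVec CeMData.mZ (vecN a.val) = vecN (CeMData.tp 2 a.val) := by
  decide +kernel
theorem tabT : ∀ a : Fin 32, Matrix.mulVec CeMData.mT (vecN a.val) = vecN (CeMData.tp 3 a.val) := by
  decide +kernel
theorem tabW : ∀ a : Fin 32, Matrix.mulVec CeMData.mW (vecN a.val) = vecN (CeMData.tp 4 a.val) := by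
  decide +kernel

theorem tp_lt : ∀ y, y < 5 → ∀ a, a < 32 → CeMData.tp y a < 32 := by decide +kernel

theorem act_of_tab (g : SL5) (hg : g * g = 1) (y : Nat) (hy : y < 5)
    (h : ∀ a : Fin 32, Matrix.mulVec g.1 (vecN a.val) = vecN (CeMData.tp y a.val)) (a : Fin 32) :
    (((φ2 g)⁻¹ a : Fin 32) : Nat) = CeMData.tp y a := by
  have hinv : g⁻¹ = g := inv_eq_of_mul_eq_one_left hg
  rw [← map_inv, hinv, φ2_apply, h a]
  have e : vecN (CeMData.tp y a.val) = vecEquiv ⟨CeMData.tp y a.val, tp_lt y hy a.val a.2⟩ := rfl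
  rw [e, Equiv.symm_apply_apply]

theorem lt2_sq : ∀ y, y < 5 → lt2 y * lt2 y = 1 := by
  intro y hy
  interval_cases y
  · exact sq_SL _ sqX
  · exact sq_SL _ sqY
  · exact sq_SL _ sqZ
  · exact sq_SL _ sqT
  · exact sq_SL _ sqW

theorem lt2_act : ∀ y, y < 5 → ∀ a : Fin 32, (((φ2 (lt2 y))⁻¹ a : Fin 32) : Nat) = CeMData.tp y a := by
  intro y hy
  interval_cases y
  · exact act_of_tab gX (sq_SL _ sqX) 0 (by decide) tabX
  · exact act_of_tab gY (sq_SL _ sqY) 1 (by decide) tabY
  · exact act_of_tab gZ (sq_SL _ sqZ) 2 (by decide) tabZ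
  · exact act_of_tab gT (sq_SL _ sqT) 3 (by decide) tabT
  · exact act_of_tab gW (sq_SL _ sqW) 4 (by decide) tabW

/-! ### the order of the special linear group and of a point stabiliser -/

theorem card_SL5 : Nat.card SL5 ≤ 9999360 := by
  have h1 : Nat.card SL5 ≤ Nat.card (Matrix.GeneralLinearGroup (Fin 5) (ZMod 2)) :=
    Nat.card_le_card_of_injective _ Matrix.SpecialLinearGroup.toGL_injective
  have h2 := Matrix.card_GL_field (𝔽 := ZMod 2) (n := 5)
  rw [ZMod.card, Fin.prod_univ_five] at h2
  rw [h2] at h1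
  exact le_trans h1 (by decide)

theorem point (p : Nat) (hp : p < 32) : CeMData.chkPt p = true := by
  have h : allLt CeMData.chkPt 32 = true := by decide +kernel
  exact (allLt_spec _ _).mp h p hp

theorem hows : incOK (fun w => scanP CeMData.tp w 1) CeMData.ows 0 = true := by decide +kernel

theorem stab_le : Nat.card {g : SL5 // φ2 g ⟨1, by decide⟩ = ⟨1, by decide⟩} ≤ 322560 := by
  have h := stab_le_of_words φ2 lt2 lt2_act 1 (by decide) CeMData.ows (by decide +kernel) hows
  have h2 : Nat.card {g : SL5 // φ2 g ⟨1, by decide⟩ = ⟨1, by decide⟩} * 31 ≤ 322560 * 31 :=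
    le_trans h card_SL5
  exact Nat.le_of_mul_le_mul_right h2 (by decide)

theorem hus1 : allW (fun u => Nat.beq (CeMData.tp 3 (scanP CeMData.tp u 1)) (scanP CeMData.tp u 1))
    CeMData.us = true := by decide +kernel

theorem hus2 : incOK (fun u => fpL CeMData.tp 3 32 u CeMData.qs) CeMData.us 0 = true := by
  decide +kernel

/-- the zero vector is fixed. -/
theorem zero_fixed (g : SL5) : φ2 g ⟨0, by decide⟩ = ⟨0, by decide⟩ := by
  rw [φ2_apply, Equiv.symm_apply_eq, vecEquiv_apply]
  have e : vecN 0 = 0 := by decide +kernel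
  show Matrix.mulVec g.1 (vecN 0) = vecN 0
  rw [e, Matrix.mulVec_zero]

theorem main : ∃ θ : Grp Ce.edges Ce.extra →* SL5, Function.Injective θ ∧
    θ.range = Subgroup.centralizer ({gT} : Set SL5) := by
  have hb := CeP.bound
  have hfin := hb.1
  have hfix : ∀ g : SL5, CeMData.tp 3 (φ2 g ⟨1, by decide⟩).1 = (φ2 g ⟨1, by decide⟩).1 →
      (φ2 g ⟨1, by decide⟩).1 ∈ CeMData.fl := by
    intro g hg
    have h1 := fixAt_spec CeMData.tp 3 (0 :: CeMData.fl) _
      (by
        have := point (φ2 g ⟨1, by decide⟩).1 (φ2 g ⟨1, by decide⟩).2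
        unfold CeMData.chkPt at this
        rw [andK_true, andK_true] at this
        exact this.2.2) hg
    rcases List.mem_cons.mp h1 with h0 | h0
    · exfalso
      have e1 : φ2 g ⟨1, by decide⟩ = ⟨0, by decide⟩ := Fin.ext h0
      have e2 := zero_fixed g
      rw [← e2] at e1
      have := (φ2 g).injective e1
      exact absurd this (by decide)
    · exact h0
  have hrel : ∀ p, p < 32 → relsAt (tpOf CeMData.tp CeMData.kws) CeMData.rW p = true := by
    intro p hp
    have := point p hp
    unfold CeMData.chkPt at this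
    rw [andK_true, andK_true] at this
    exact this.1
  have hcomm : ∀ p, p < 32 → eqAt CeMData.tp CeMData.cprs p = true := by
    intro p hp
    have := point p hp
    unfold CeMData.chkPt at this
    rw [andK_true, andK_true] at this
    exact this.2.1
  have h := side φ2 φ2_inj lt2 lt2_act lt2_sq PresCe.ok (by decide +kernel) 21504 hb.1 hb.2
    CeMData.kws (by decide +kernel) CeMData.rW (by decide +kernel) (by decide +kernel) hrel
    CeMX.checks CeMX.prod 3 (by decide) CeMData.cprs (by decide +kernel) hcomm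
    1 (by decide) 322560 stab_le CeMData.fl hfix CeMData.us 32 CeMData.qs (by decide +kernel)
    (by decide +kernel) hus1 hus2 (by decide +kernel) (by decide +kernel)
  exact h

theorem gT_eq : (gT : Matrix (Fin 5) (Fin 5) (ZMod 2)) = Matrix.transvection 0 1 1 := by
  show CeMData.mT = _
  decide +kernel

end Cfsg.Agent.Lib.Helper28.CeMat
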