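import Cfsg.Agent.Lib.Helper28.SGS
import Cfsg.Agent.Lib.Helper28.CeData
import Cfsg.Agent.Lib.Helper28.CeSD0

set_option autoImplicit false

namespace Cfsg.Agent.Lib.Helper28.CeST

open Cfsg.Agent.Lib.Helper28.TCKernel Cfsg.Agent.Lib.Helper28.SGS

def x0top : List (List Nat) := [CeSD0.x0g0]
def x1top : List (List Nat) := [CeSD0.x1g0]
def x2top : List (List Nat) := [CeSD0.x2g0]
def x3top : List (List Nat) := [CeSD0.x3g0]
def x4top : List (List Nat) := [CeSD0.x4g0]
def x5top : List (List Nat) := [CeSD0.x5g0]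
def x6top : List (List Nat) := [CeSD0.x6g0]
def x7top : List (List Nat) := [CeSD0.x7g0]
def x8top : List (List Nat) := [CeSD0.x8g0]
def x9top : List (List Nat) := [CeSD0.x9g0]
def x10top : List (List Nat) := [CeSD0.x10g0]
def xq0 : List (List (List Nat)) := [x0top, x1top, x2top, x3top, x4top, x5top, x6top, x7top]
def xq1 : List (List (List Nat)) := [x8top, x9top, x10top]
def xtops : List (List (List (List Nat))) := [xq0, xq1]
def l0top : List (List Nat) := [CeSD0.l0g0]
def l1top : List (List Nat) := [CeSD0.l1g0]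
def ltops : List (List (List Nat)) := [l0top, l1top]
def xt : Nat → Nat → Nat := fld4z xtops 10 4 15 1023 14 16383
def rk : Nat → Nat → Nat := fld3 ltops 9 5 31 511 22 0 15
def par : Nat → Nat → Nat := fld3 ltops 9 5 31 511 22 4 16383
def sy : Nat → Nat → Nat := fld3 ltops 9 5 31 511 22 18 15
def lvl : List Nat := [1, 1, 1, 2, 2, 2, 2, 2, 2, 2, 2]
def lv : Nat → Nat := nthD 0 lvl
def bsl : List Nat := [0, 729]
def bs : Nat → Nat := nthD 0 bsl
def nsl : List Nat := [42, 512]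
def ns : Nat → Nat := nthD 0 nsl
def defs : List (List Nat) := [[0, 1, 2, 0, 1, 2, 0, 2, 1, 0, 2, 1, 0],
  [0, 1, 2, 1, 2, 0, 2, 1, 2, 1, 0],
  [0, 1, 2, 0, 2, 0, 2, 1, 0, 1, 0, 1, 2, 0, 2, 0, 2, 1, 0],
  [0, 2, 1, 0, 1, 2, 0, 2, 0, 2, 1, 2, 0]]
def prs : List (List Nat × List Nat) := []
def cj : List (List Nat) := []
def wodd : List Nat := []
def chkPt (p : Nat) : Bool :=
  ptOK xt CeData.tpK rk par sy lv bs defs prs 3 2 8330 p

end Cfsg.Agent.Lib.Helper28.CeST
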