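import Mathlib
import Cfsg.Prelude.Def_SporadicB

/-!
A perfect finite group `H` with a central involution `z` such that `H ⧸ ⟨z⟩` is a quotient of
a simple group `K` of composite order with `|H| = 2 |K|` is a non-split double cover of `K`.
-/

set_option autoImplicit false

namespace Cfsg.Agent.Lib.Helper28.Cover

theorem invol_comm {Q : Type*} [Group Q] (h : ∀ x : Q, x * x = 1) (x y : Q) : x * y = y * x := by
  have h1 := h (x * y)
  have hx : x⁻¹ = x := inv_eq_of_mul_eq_one_left (h x)
  have hy : y⁻¹ = y := inv_eq_of_mul_eq_one_left (h y)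
  have h2 : x * y = (x * y)⁻¹ := (inv_eq_of_mul_eq_one_left h1).symm
  rw [h2, mul_inv_rev, hx, hy]

theorem nonsplit_double_cover {H K : Type*} [Group H] [Group K] [Finite H] [Finite K]
    (hK : IsSimpleGroup K) (hKcard : ¬ (Nat.card K).Prime)
    (z : H) (hz1 : z ≠ 1) (hz2 : z * z = 1) (hzc : ∀ h : H, h * z = z * h)
    (hcard : Nat.card H = 2 * Nat.card K)
    [hn : (Subgroup.zpowers z).Normal]
    (ψ : K →* H ⧸ Subgroup.zpowers z) (hψ : Function.Surjective ψ)
    (hperf : commutator H = ⊤) :
    Cfsg.IsNonsplitDoubleCover H K := by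
  have hord : orderOf z = 2 := orderOf_eq_prime (by rw [pow_two]; exact hz2) hz1
  have hZ : Nat.card (Subgroup.zpowers z) = 2 := by rw [Nat.card_zpowers, hord]
  have hq : Nat.card (H ⧸ Subgroup.zpowers z) = Nat.card K := by
    have h1 := Subgroup.card_eq_card_quotient_mul_card_subgroup (Subgroup.zpowers z)
    rw [hZ, hcard] at h1
    omega
  have hbij : Function.Bijective ψ :=
    (Nat.bijective_iff_surjective_and_card ψ).mpr ⟨hψ, hq.symm⟩
  let e : K ≃* H ⧸ Subgroup.zpowers z := MulEquiv.ofBijective ψ hbij
  have hsimp : IsSimpleGroup (H ⧸ Subgroup.zpowers z) := e.symm.isSimpleGroup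
  have hZle : Subgroup.zpowers z ≤ Subgroup.center H := by
    rw [Subgroup.zpowers_le, Subgroup.mem_center_iff]
    exact hzc
  have hcen : Subgroup.center H = Subgroup.zpowers z := by
    apply le_antisymm _ hZle
    have hnorm : ((Subgroup.center H).map (QuotientGroup.mk' (Subgroup.zpowers z))).Normal :=
      Subgroup.Normal.map inferInstance _ (QuotientGroup.mk'_surjective _)
    rcases hsimp.eq_bot_or_eq_top_of_normal _ hnorm with h | h
    · have h1 := (Subgroup.map_eq_bot_iff _).mp h
      rwa [QuotientGroup.ker_mk'] at h1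
    · exfalso
      apply hKcard
      have hcomm : ∀ a b : H ⧸ Subgroup.zpowers z, a * b = b * a := by
        intro a b
        have ha : a ∈ (Subgroup.center H).map (QuotientGroup.mk' (Subgroup.zpowers z)) := by
          rw [h]; trivial
        obtain ⟨c, hc, rfl⟩ := ha
        obtain ⟨d, rfl⟩ := QuotientGroup.mk'_surjective (Subgroup.zpowers z) b
        rw [← map_mul, ← map_mul, (Subgroup.mem_center_iff.mp hc) d]
      have hKc : IsMulCommutative K := ⟨⟨fun a b => by
        apply e.injective
        rw [map_mul, map_mul, hcomm]⟩⟩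
      exact Group.is_simple_iff_prime_card.mp hK
  refine ⟨by rw [hcen]; exact hZ, ⟨(QuotientGroup.quotientMulEquivOfEq hcen).trans e.symm⟩, ?_⟩
  intro L hL
  have hidx : L.index = 2 := by rw [hL.index_eq_card, hcen, hZ]
  have hLn : L.Normal := Subgroup.normal_of_index_eq_two hidx
  have hc2 : Nat.card (H ⧸ L) = 2 := hidx
  have hcomm : IsMulCommutative (H ⧸ L) := by
    refine ⟨⟨fun a b => invol_comm (fun x => ?_) a b⟩⟩
    have := pow_card_eq_one' (G := H ⧸ L) (x := x)
    rw [hc2, pow_two] at this
    exact this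
  have hle : commutator H ≤ L := Subgroup.Normal.quotient_commutative_iff_commutator_le.mp hcomm
  rw [hperf] at hle
  have hLtop : L = ⊤ := top_le_iff.mp hle
  have hd := hL.disjoint
  rw [hLtop, disjoint_top] at hd
  rw [hd] at hcen
  have : z ∈ (⊥ : Subgroup H) := by rw [hcen]; exact Subgroup.mem_zpowers z
  exact hz1 (Subgroup.mem_bot.mp this)


/-- the same without the hypothesis `z ≠ 1`, which follows from the orders. -/
theorem nonsplit_double_cover' {H K : Type*} [Group H] [Group K] [Finite H] [Finite K]
    (hK : IsSimpleGroup K) (hKcard : ¬ (Nat.card K).Prime)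
    (z : H) (hz2 : z * z = 1) (hzc : ∀ h : H, h * z = z * h)
    (hcard : Nat.card H = 2 * Nat.card K)
    [hn : (Subgroup.zpowers z).Normal]
    (ψ : K →* H ⧸ Subgroup.zpowers z) (hψ : Function.Surjective ψ)
    (hperf : commutator H = ⊤) :
    Cfsg.IsNonsplitDoubleCover H K := by
  have hz1 : z ≠ 1 := by
    intro h1
    have h2 : Nat.card (Subgroup.zpowers z) = 1 := by
      rw [h1, Subgroup.zpowers_one_eq_bot]
      exact Subgroup.card_bot
    have h3 := Subgroup.card_eq_card_quotient_mul_card_subgroup (Subgroup.zpowers z)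
    rw [h2, mul_one, hcard] at h3
    have h4 := Nat.card_le_card_of_surjective ψ hψ
    have h5 : 0 < Nat.card K := Nat.card_pos
    omega
  exact nonsplit_double_cover hK hKcard z hz1 hz2 hzc hcard ψ hψ hperf

/-- a group generated by conjugate involutions with a relator of odd length is perfect. -/
theorem perfect_of_conj {H : Type*} [Group H] {β : Type*} (g : β → H)
    (hgen : Subgroup.closure (Set.range g) = ⊤) (x0 : β)
    (hconj : ∀ x, IsConj (g x0) (g x)) (hinv : g x0 * g x0 = 1)
    (w : List β) (m : ℕ) (hodd : (w.length * m) % 2 = 1) (hrel : ((w.map g).prod) ^ m = 1) :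
    commutator H = ⊤ := by
  let π : H →* Abelianization H := Abelianization.of
  have h1 : ∀ x, π (g x) = π (g x0) := by
    intro x
    obtain ⟨c, hc⟩ := isConj_iff.mp (hconj x)
    rw [← hc, map_mul, map_mul, map_inv, mul_comm (π c), mul_assoc, mul_inv_cancel, mul_one]
  have h2 : ∀ u : List β, π ((u.map g).prod) = π (g x0) ^ u.length := by
    intro u
    induction u with
    | nil => rw [List.map_nil, List.prod_nil, map_one, List.length_nil, pow_zero]
    | cons y u ih =>
      rw [List.map_cons, List.prod_cons, map_mul, h1 y, ih, List.length_cons, pow_succ, mul_comm]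
  have h3 : π (g x0) ^ 2 = 1 := by rw [pow_two, ← map_mul, hinv, map_one]
  have h4 : π (g x0) = 1 := by
    have h5 : π (((w.map g).prod) ^ m) = π (g x0) ^ (w.length * m) := by
      rw [map_pow, h2 w, pow_mul]
    rw [hrel, map_one] at h5
    have h6 : w.length * m = 2 * (w.length * m / 2) + 1 := by omega
    rw [h6, pow_succ, pow_mul, h3, one_pow, one_mul] at h5
    exact h5.symm
  rw [eq_top_iff, ← hgen, Subgroup.closure_le]
  rintro x ⟨y, rfl⟩
  have h5 : π (g y) = 1 := by rw [h1 y, h4]
  have h6 : g y ∈ (Abelianization.of : H →* Abelianization H).ker := h5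
  rw [Abelianization.ker_of] at h6
  exact h6

/-- two involutions whose product has order dividing 3 are conjugate. -/
theorem braid_conj {H : Type*} [Group H] (x y : H) (hx : x * x = 1) (hy : y * y = 1)
    (h3 : (x * y) ^ 3 = 1) : IsConj x y := by
  rw [isConj_iff]
  refine ⟨x * y, ?_⟩
  have hx' : x⁻¹ = x := inv_eq_of_mul_eq_one_left hx
  have hy' : y⁻¹ = y := inv_eq_of_mul_eq_one_left hy
  have e : x * y * x * (x * y)⁻¹ = (x * y) ^ 3 * y⁻¹ := by
    rw [mul_inv_rev, hx', hy', pow_succ, pow_two]
    simp only [mul_assoc]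
    rw [hy, mul_one]
  rw [e, h3, one_mul, hy']

/-- The subgroup of a finite group `G` generated by elements `g0 x` that satisfy the relators
of a simple group `K = ⟨β | rels⟩` of composite order up to a central involution `z`, is a
non-split double cover of `K` if it has order `2 |K|` and is perfect. -/
theorem cover_pres {G : Type*} [Group G] [Finite G] {β : Type*} (rels : Set (FreeGroup β))
    [Finite (PresentedGroup rels)]
    (hK : IsSimpleGroup (PresentedGroup rels)) (hKcard : ¬ (Nat.card (PresentedGroup rels)).Prime)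
    (g0 : β → G) (z : G)
    (hz : z ∈ Subgroup.closure (Set.range g0))
    (hzc : ∀ x, g0 x * z = z * g0 x) (hz2 : z * z = 1)
    (hrel : ∀ r ∈ rels, FreeGroup.lift g0 r = 1 ∨ FreeGroup.lift g0 r = z)
    (hcard : Nat.card (Subgroup.closure (Set.range g0)) = 2 * Nat.card (PresentedGroup rels))
    (hperf : commutator (Subgroup.closure (Set.range g0)) = ⊤) :
    Cfsg.IsNonsplitDoubleCover (Subgroup.closure (Set.range g0)) (PresentedGroup rels) := by
  let H : Subgroup G := Subgroup.closure (Set.range g0)
  let zh : H := ⟨z, hz⟩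
  let gh : β → H := fun x => ⟨g0 x, Subgroup.subset_closure ⟨x, rfl⟩⟩
  let θ : FreeGroup β →* H := FreeGroup.lift gh
  have hθ : ∀ w : FreeGroup β, ((θ w : H) : G) = FreeGroup.lift g0 w := by
    intro w
    have e : H.subtype.comp θ = FreeGroup.lift g0 := by
      apply FreeGroup.ext_hom
      intro x
      simp [θ, gh]
    exact DFunLike.congr_fun e w
  have hzc' : ∀ h : H, h * zh = zh * h := by
    intro h
    have h2 : H ≤ Subgroup.centralizer {z} := by
      show Subgroup.closure (Set.range g0) ≤ _
      rw [Subgroup.closure_le]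
      rintro _ ⟨x, rfl⟩
      rw [SetLike.mem_coe, Subgroup.mem_centralizer_iff]
      intro y hy
      rw [Set.mem_singleton_iff] at hy
      subst hy
      exact (hzc x).symm
    have h4 := h2 h.2
    rw [Subgroup.mem_centralizer_iff] at h4
    apply Subtype.ext
    exact (h4 z rfl).symm
  have hz2' : zh * zh = 1 := Subtype.ext hz2
  have hn : (Subgroup.zpowers zh).Normal := by
    refine ⟨fun n hn g => ?_⟩
    obtain ⟨k, rfl⟩ := Subgroup.mem_zpowers_iff.mp hn
    have hc : Commute g (zh ^ k) := Commute.zpow_right (hzc' g) k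
    have e : g * zh ^ k * g⁻¹ = zh ^ k := by rw [hc.eq, mul_assoc, mul_inv_cancel, mul_one]
    rw [e]
    exact Subgroup.zpow_mem_zpowers zh k
  let f : β → H ⧸ Subgroup.zpowers zh := fun x => QuotientGroup.mk' (Subgroup.zpowers zh) (gh x)
  have hf : FreeGroup.lift f = (QuotientGroup.mk' (Subgroup.zpowers zh)).comp θ := by
    apply FreeGroup.ext_hom
    intro x
    simp [θ, f]
  have hfr : ∀ r ∈ rels, FreeGroup.lift f r = 1 := by
    intro r hr
    rw [hf, MonoidHom.comp_apply, QuotientGroup.mk'_apply, QuotientGroup.eq_one_iff]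
    rcases hrel r hr with h | h
    · have : θ r = 1 := Subtype.ext (by rw [hθ, h]; rfl)
      rw [this]
      exact Subgroup.one_mem _
    · have : θ r = zh := Subtype.ext (by rw [hθ, h])
      rw [this]
      exact Subgroup.mem_zpowers zh
  let ψ : PresentedGroup rels →* H ⧸ Subgroup.zpowers zh := PresentedGroup.toGroup hfr
  have hψ : Function.Surjective ψ := by
    intro q
    obtain ⟨h, rfl⟩ := QuotientGroup.mk'_surjective (Subgroup.zpowers zh) q
    have hh : (h : G) ∈ (FreeGroup.lift g0).range := by
      rw [FreeGroup.range_lift_eq_closure]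
      exact h.2
    obtain ⟨w, hw⟩ := hh
    refine ⟨PresentedGroup.mk rels w, ?_⟩
    have e1 : ψ (PresentedGroup.mk rels w) = FreeGroup.lift f w := rfl
    rw [e1, hf, MonoidHom.comp_apply]
    congr 1
    exact Subtype.ext (by rw [hθ, hw])
  exact nonsplit_double_cover' hK hKcard zh hz2' hzc' hcard ψ hψ hperf

/-- the subgroup generated by involutions `g0 x` whose braid graph is connected, with a
relator of odd length, is perfect. -/
theorem perfect_closure {G : Type*} [Group G] {β : Type*} (g0 : β → G) (x0 : β)
    (hinv : ∀ x, g0 x * g0 x = 1)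
    (hconn : ∀ x, Relation.ReflTransGen (fun u v => (g0 u * g0 v) ^ 3 = 1) x0 x)
    (w : List β) (m : ℕ) (hodd : (w.length * m) % 2 = 1) (hrel : ((w.map g0).prod) ^ m = 1) :
    commutator (Subgroup.closure (Set.range g0)) = ⊤ := by
  let H : Subgroup G := Subgroup.closure (Set.range g0)
  let gh : β → H := fun x => ⟨g0 x, Subgroup.subset_closure ⟨x, rfl⟩⟩
  have hgen : Subgroup.closure (Set.range gh) = ⊤ := by
    have h1 := Subgroup.closure_closure_coe_preimage (k := Set.range g0)
    have h2 : Set.range gh = ((↑) : H → G) ⁻¹' (Set.range g0) := by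
      ext h
      constructor
      · rintro ⟨x, rfl⟩
        exact ⟨x, rfl⟩
      · rintro ⟨x, hx⟩
        exact ⟨x, Subtype.ext hx⟩
    rw [h2]
    exact h1
  have hconj : ∀ x, IsConj (gh x0) (gh x) := by
    intro x
    induction hconn x with
    | refl => exact IsConj.refl _
    | tail _ h3 ih =>
      exact ih.trans (braid_conj _ _ (Subtype.ext (hinv _)) (Subtype.ext (hinv _))
        (Subtype.ext h3))
  have hrel' : ((w.map gh).prod) ^ m = 1 := by
    apply Subtype.ext
    have e : (((w.map gh).prod : H) : G) = (w.map g0).prod := by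
      rw [← Subgroup.coe_subtype, map_list_prod, List.map_map]
      rfl
    rw [Subgroup.coe_pow, e, hrel]
    rfl
  exact perfect_of_conj gh hgen x0 hconj (Subtype.ext (hinv x0)) w m hodd hrel'

end Cfsg.Agent.Lib.Helper28.Cover
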