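import Cfsg.Agent.Lib.Helper28.Cover

/-!
Transport of `Cfsg.IsNonsplitDoubleCover` along an isomorphism, and to the centralisers of
the conjugates of an element.
-/

set_option autoImplicit false

namespace Cfsg.Agent.Lib.Helper28.CoverCongr

theorem cover_congr {H H' K : Type*} [Group H] [Group H'] [Group K] [Finite H] (e : H ≃* H')
    (h : Cfsg.IsNonsplitDoubleCover H K) : Cfsg.IsNonsplitDoubleCover H' K := by
  obtain ⟨h1, ⟨f⟩, h3⟩ := h
  have hc : (Subgroup.center H).map (e : H →* H') = Subgroup.center H' := by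
    ext x
    constructor
    · rintro ⟨y, hy, rfl⟩
      rw [SetLike.mem_coe] at hy
      rw [Subgroup.mem_center_iff] at hy ⊢
      intro g
      obtain ⟨g', rfl⟩ := e.surjective g
      show e g' * e y = e y * e g'
      rw [← map_mul, ← map_mul, hy g']
    · intro hx
      refine ⟨e.symm x, ?_, e.apply_symm_apply x⟩
      rw [SetLike.mem_coe]
      rw [Subgroup.mem_center_iff] at hx ⊢
      intro g
      apply e.injective
      rw [map_mul, map_mul, e.apply_symm_apply]
      exact hx (e g)
  have hcard : Nat.card (Subgroup.center H') = Nat.card (Subgroup.center H) := by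
    rw [← hc]
    exact Subgroup.card_map_of_injective e.injective
  have : Finite H' := Finite.of_equiv H e.toEquiv
  refine ⟨by rw [hcard]; exact h1,
    ⟨(QuotientGroup.congr (Subgroup.center H) (Subgroup.center H') e hc).symm.trans f⟩, ?_⟩
  intro L' hL'
  apply h3 (L'.comap (e : H →* H'))
  apply Subgroup.isComplement'_of_card_mul_and_disjoint
  · have h4 := hL'.card_mul_card
    have h5 : Nat.card (L'.comap (e : H →* H')) = Nat.card L' := by
      rw [Subgroup.comap_equiv_eq_map_symm]
      exact Subgroup.card_map_of_injective e.symm.injective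
    rw [h5, ← hcard, h4]
    exact (Nat.card_congr e.toEquiv).symm
  · rw [Subgroup.disjoint_def]
    intro x hx1 hx2
    have h6 : e x ∈ Subgroup.center H' := by
      rw [← hc]
      exact ⟨x, hx1, rfl⟩
    have h7 : e x ∈ L' := hx2
    have h8 := Subgroup.disjoint_def.mp hL'.disjoint h6 h7
    exact e.injective (by rw [h8, map_one])

theorem cent_conj {G : Type*} [Group G] (g z : G) :
    Nonempty (Subgroup.centralizer ({z} : Set G) ≃*
      Subgroup.centralizer ({g * z * g⁻¹} : Set G)) := by
  have h : (Subgroup.centralizer ({z} : Set G)).map ((MulAut.conj g : G ≃* G) : G →* G) =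
      Subgroup.centralizer ({g * z * g⁻¹} : Set G) := by
    ext x
    constructor
    · rintro ⟨y, hy, rfl⟩
      rw [SetLike.mem_coe] at hy
      rw [Subgroup.mem_centralizer_singleton_iff] at hy ⊢
      show g * y * g⁻¹ * (g * z * g⁻¹) = g * z * g⁻¹ * (g * y * g⁻¹)
      calc g * y * g⁻¹ * (g * z * g⁻¹) = g * (y * z) * g⁻¹ := by group
        _ = g * (z * y) * g⁻¹ := by rw [hy]
        _ = g * z * g⁻¹ * (g * y * g⁻¹) := by group
    · intro hx
      rw [Subgroup.mem_centralizer_singleton_iff] at hx
      refine ⟨g⁻¹ * x * g, ?_, ?_⟩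
      · rw [SetLike.mem_coe, Subgroup.mem_centralizer_singleton_iff]
        calc g⁻¹ * x * g * z = g⁻¹ * (x * (g * z * g⁻¹)) * g := by group
          _ = g⁻¹ * ((g * z * g⁻¹) * x) * g := by rw [hx]
          _ = z * (g⁻¹ * x * g) := by group
      · show g * (g⁻¹ * x * g) * g⁻¹ = x
        group
  exact ⟨((MulAut.conj g : G ≃* G).subgroupMap (Subgroup.centralizer ({z} : Set G))).trans
    (MulEquiv.subgroupCongr h)⟩

theorem cover_conj {G K : Type*} [Group G] [Group K] [Finite G] (z : G) (H : Subgroup G)
    (hC : Subgroup.centralizer ({z} : Set G) = H) (hcov : Cfsg.IsNonsplitDoubleCover H K) :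
    ∀ d ∈ conjugatesOf z, Cfsg.IsNonsplitDoubleCover (Subgroup.centralizer ({d} : Set G)) K := by
  intro d hd
  obtain ⟨g, rfl⟩ := isConj_iff.mp hd
  obtain ⟨e⟩ := cent_conj g z
  exact cover_congr ((MulEquiv.subgroupCongr hC).symm.trans e) hcov

end Cfsg.Agent.Lib.Helper28.CoverCongr
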