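import Cfsg.Prelude.Def_Spor_Fi23
import Cfsg.Agent.Lib.Helper28.OrdChain

set_option autoImplicit false

namespace Cfsg.Agent.Lib.Helper28.F23a

open Cfsg.Spor

/-- the generators -/
inductive Gen
  | a
  | b
  | c
  | d
  | e
  | f
  | g
  | h
  | i
  deriving DecidableEq

abbrev a : FreeGroup Gen := FreeGroup.of Gen.a
abbrev b : FreeGroup Gen := FreeGroup.of Gen.b
abbrev c : FreeGroup Gen := FreeGroup.of Gen.c
abbrev d : FreeGroup Gen := FreeGroup.of Gen.d
abbrev e : FreeGroup Gen := FreeGroup.of Gen.e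
abbrev f : FreeGroup Gen := FreeGroup.of Gen.f
abbrev g : FreeGroup Gen := FreeGroup.of Gen.g
abbrev h : FreeGroup Gen := FreeGroup.of Gen.h
abbrev i : FreeGroup Gen := FreeGroup.of Gen.i

/-- the sub-diagram -/
def edges : List (Gen × ℕ × Gen) :=
  [(.a, 3, .b), (.b, 3, .c), (.c, 3, .d), (.d, 3, .e), (.d, 3, .h), (.e, 3, .f), (.f, 3, .g), (.h, 3, .i)]

/-- the further relators -/
def extra : List (FreeGroup Gen) := [(d * c * b * d * e * f * d * h * i) ^ 10,
  (a * b * c * d * e * f * h) ^ 9]

/-- the generators in the bigger group -/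
def iota : Gen → Fi23.Gen
  | .a => .a
  | .b => .b
  | .c => .c
  | .d => .d
  | .e => .e
  | .f => .f
  | .g => .g
  | .h => .h
  | .i => .i

def gensL : List Gen := [.a, .b, .c, .d, .e, .f, .g, .h, .i]

theorem hom : ∃ F : CoxPresented Gen edges extra →* CoxPresented Fi23.Gen Fi23.edges Fi23.extra,
    F.range = (Subgroup.closure {s | s ∈ gensL.map (fun x => FreeGroup.of (iota x))}).map
      (PresentedGroup.mk (coxRelators Fi23.edges ∪ {r | r ∈ Fi23.extra})) :=
  OrdChain.sub_hom Fi23.edges Fi23.extra edges extra iota gensL (by intro x; cases x <;> decide)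
    (by decide +kernel) (by decide +kernel)

end Cfsg.Agent.Lib.Helper28.F23a
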