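import Cfsg.Prelude.Def_Spor_He
import Cfsg.Agent.Lib.Helper28.OrdChain

set_option autoImplicit false

namespace Cfsg.Agent.Lib.Helper28.Hea

open Cfsg.Spor

/-- the generators -/
inductive Gen
  | a
  | b
  | c
  | d
  | e
  deriving DecidableEq

abbrev a : FreeGroup Gen := FreeGroup.of Gen.a
abbrev b : FreeGroup Gen := FreeGroup.of Gen.b
abbrev c : FreeGroup Gen := FreeGroup.of Gen.c
abbrev d : FreeGroup Gen := FreeGroup.of Gen.d
abbrev e : FreeGroup Gen := FreeGroup.of Gen.e

/-- the sub-diagram -/
def edges : List (Gen × ℕ × Gen) :=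
  [(.a, 4, .b), (.b, 3, .c), (.c, 10, .d), (.d, 3, .e)]

/-- the further relators -/
def extra : List (FreeGroup Gen) := [e * ((a * b * c) ^ 3)⁻¹,
  a * ((c * d) ^ 5)⁻¹]

/-- the generators in the bigger group -/
def iota : Gen → He.Gen
  | .a => .a
  | .b => .b
  | .c => .c
  | .d => .d
  | .e => .e

def gensL : List Gen := [.a, .b, .c, .d, .e]

theorem hom : ∃ F : CoxPresented Gen edges extra →* CoxPresented He.Gen He.edges He.extra,
    F.range = (Subgroup.closure {s | s ∈ gensL.map (fun x => FreeGroup.of (iota x))}).map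
      (PresentedGroup.mk (coxRelators He.edges ∪ {r | r ∈ He.extra})) :=
  OrdChain.sub_hom He.edges He.extra edges extra iota gensL (by intro x; cases x <;> decide)
    (by decide +kernel) (by decide +kernel)

end Cfsg.Agent.Lib.Helper28.Hea
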