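import Cfsg.Agent.Lib.Helper28.F22SC0
import Cfsg.Agent.Lib.Helper28.F22SC1

set_option autoImplicit false

namespace Cfsg.Agent.Lib.Helper28.F22SX

open Cfsg.Agent.Lib.Helper28.TCKernel Cfsg.Agent.Lib.Helper28.SGS

theorem chunk : ∀ k, k < 2 → allTree F22ST.chkPt 11 (k * 2 ^ 11) = true
  | 0, _ => F22SC0.chk
  | 1, _ => F22SC1.chk
  | (k + 2), h => absurd h (by omega)

theorem checks : Checks 3510 9 49 5 12 T1687LT.tp F22ST.xt F22ST.rk F22ST.par F22ST.sy F22ST.lv F22ST.bs F22ST.ns
    F22ST.defs F22ST.prs where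
  point := fun p hp => allTree_chunks F22ST.chkPt 11 2 chunk p (lt_of_lt_of_le hp (by decide))
  hX := by decide
  bd := by decide +kernel
  pbd := by decide +kernel
  fix := by decide +kernel
  lvX := fun s hs => nthD_of_length_le 0 F22ST.lvl s (le_trans (by decide) hs)
  bsn := by decide +kernel
  cnt := by decide +kernel
  hd := by decide

theorem prod : prodN F22ST.ns 5 = 64561751654400 := by decide +kernel

end Cfsg.Agent.Lib.Helper28.F22SX
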