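import Cfsg.Agent.Lib.Helper28.TF22aUT
import Cfsg.Agent.Lib.Helper28.TCJoin

set_option autoImplicit false
set_option Elab.async false

namespace Cfsg.Agent.Lib.Helper28.TF22aUC0

open Cfsg.Agent.Lib.Helper28.TCKernel Cfsg.Agent.Lib.Helper28.TCJoin Cfsg.Agent.Lib.Helper28.TF22aUT

theorem chk0 : allTree chkName 12 0 = true := by decide +kernel
theorem chk1 : allTree chkName 12 4096 = true := by decide +kernel
theorem chk2 : allTree chkName 12 8192 = true := by decide +kernel
theorem chk3 : allTree chkName 12 12288 = true := by decide +kernel
theorem chk4 : allTree chkName 12 16384 = true := by decide +kernel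
theorem chk5 : allTree chkName 12 20480 = true := by decide +kernel
theorem chk6 : allTree chkName 12 24576 = true := by decide +kernel
theorem chk7 : allTree chkName 12 28672 = true := by decide +kernel
theorem chk : allTree chkName 15 0 = true :=
  (join chkName 14 0 (join chkName 13 0 (join chkName 12 0 chk0 chk1) (join chkName 12 8192 chk2 chk3)) (join chkName 13 16384 (join chkName 12 16384 chk4 chk5) (join chkName 12 24576 chk6 chk7)))
theorem cnt : cntTree (aliveB dsig 17038) 15 0 = 3159 := by decide +kernel

end Cfsg.Agent.Lib.Helper28.TF22aUC0
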