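import Cfsg.Agent.Lib.Helper28.TCMain
import Cfsg.Agent.Lib.Helper28.PresF22a
import Cfsg.Agent.Lib.Helper28.TF22aUC0
import Cfsg.Agent.Lib.Helper28.TF22aLC0

set_option autoImplicit false

namespace Cfsg.Agent.Lib.Helper28.TF22aX

open Cfsg.Spor Cfsg.Agent.Lib.Helper28.TCKernel Cfsg.Agent.Lib.Helper28.TCSound Cfsg.Agent.Lib.Helper28.TCPerm Cfsg.Agent.Lib.Helper28.TCPres Cfsg.Agent.Lib.Helper28.TCMain

/-- the subgroup generators -/
def sgSrc : List (FreeGroup F22a.Gen) := [F22a.b, F22a.c, F22a.d, F22a.e, F22a.f, F22a.g, F22a.h]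

theorem chunkU : ∀ k, k < 1 → allTree TF22aUT.chkName 15 (k * 2 ^ 15) = true
  | 0, _ => TF22aUC0.chk
  | (k + 1), h => absurd h (by omega)

theorem chkU (v : Nat) : TF22aUT.chkName v = true := by
  rcases Nat.lt_or_ge v (2 ^ 15) with h | h
  · exact allTree_chunks TF22aUT.chkName 15 1 chunkU v h
  · exact chk_of_zero _ _ _ _ _ _ _ _ _ _ _ _ _ _ v
      (fun y => fld3_eq_zero _ _ _ _ _ _ _ _ y v 3 (by decide)
        (le_trans (by decide : 3 * 2 ^ (8 + 5) ≤ 2 ^ 15) h))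
      (fld1_eq_zero _ _ _ _ _ _ _ _ v
        (le_trans (by decide : TF22aUT.dtop.length * 2 ^ (7 + 5) ≤ 2 ^ 15) h))
      (le_trans (by decide : 17038 ≤ 2 ^ 15) h)

theorem chunkL : ∀ k, k < 1 → allTree TF22aLT.chkPoint 12 (k * 2 ^ 12) = true
  | 0, _ => TF22aLC0.chk
  | (k + 1), h => absurd h (by omega)

theorem chkL (a : Nat) (ha : a < 3159) : TF22aLT.chkPoint a = true :=
  allTree_chunks TF22aLT.chkPoint 12 1 chunkL a (lt_of_lt_of_le ha (by decide))

theorem permOK : PermChecks 3159 TF22aLT.tp PresF22a.inv TF22aLT.pa TF22aLT.pl PresF22a.relW TF22aLT.sgW TF22aLT.tw 14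
    TF22aLT.roots 8 where
  point := fun a ha => chkL a ha
  invL := by decide +kernel
  wsL := by decide +kernel
  sgL := by decide +kernel
  twL := by decide +kernel
  root1 := by decide +kernel
  rootpos := by decide +kernel

/-- index and orbit structure of the subgroup -/
theorem final :
    ((Subgroup.closure {s | s ∈ sgSrc}).map (PresentedGroup.mk (coxRelators F22a.edges ∪ {r | r ∈ F22a.extra}))).index = 3159 ∧
    ∃ ψ : (PresentedGroup (coxRelators F22a.edges ∪ {r | r ∈ F22a.extra})) ⧸ ((Subgroup.closure {s | s ∈ sgSrc}).map (PresentedGroup.mk (coxRelators F22a.edges ∪ {r | r ∈ F22a.extra}))) → Fin 3159,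
      Function.Injective ψ ∧
      ∀ r, r < 3159 → (∀ r' ∈ (0 :: TF22aLT.roots), clsOf TF22aLT.roots r' = clsOf TF22aLT.roots r → r' = r) →
        ∃ q, ψ '' (MulAction.orbit ((Subgroup.closure {s | s ∈ sgSrc}).map (PresentedGroup.mk (coxRelators F22a.edges ∪ {r | r ∈ F22a.extra}))) q) = {b : Fin 3159 | clsOf TF22aLT.roots b.1 = clsOf TF22aLT.roots r} :=
  main PresF22a.ok {s | s ∈ sgSrc} sgSrc rfl TF22aLT.sgW (by decide +kernel)
    17038 3159 15 4 262143 TF22aUT.tgt TF22aUT.sig TF22aUT.crt TF22aUT.hnt TF22aUT.dsig TF22aUT.mu TF22aUT.dcrt TF22aUT.dst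
    TF22aUT.par TF22aUT.plet TF22aUT.certs TF22aUT.hints (by decide +kernel)
    (fun y v => fld3_le _ _ _ _ _ _ _ _ y v) (fun v => fld1_le _ _ _ _ _ _ _ _ v) chkU
    (by decide +kernel) (by decide) TF22aUC0.cnt
    TF22aLT.tp TF22aLT.pa TF22aLT.pl TF22aLT.tw 14 TF22aLT.roots permOK (by decide) (by decide +kernel)

end Cfsg.Agent.Lib.Helper28.TF22aX
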