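import Cfsg.Agent.Lib.Helper28.TCMain
import Cfsg.Agent.Lib.Helper28.PresF22c
import Cfsg.Agent.Lib.Helper28.TF22cUC0
import Cfsg.Agent.Lib.Helper28.TF22cLC0

set_option autoImplicit false

namespace Cfsg.Agent.Lib.Helper28.TF22cX

open Cfsg.Spor Cfsg.Agent.Lib.Helper28.TCKernel Cfsg.Agent.Lib.Helper28.TCSound Cfsg.Agent.Lib.Helper28.TCPerm Cfsg.Agent.Lib.Helper28.TCPres Cfsg.Agent.Lib.Helper28.TCMain

/-- the subgroup generators -/
def sgSrc : List (FreeGroup F22c.Gen) := [F22c.b]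

theorem chunkU : ∀ k, k < 1 → allTree TF22cUT.chkName 6 (k * 2 ^ 6) = true
  | 0, _ => TF22cUC0.chk
  | (k + 1), h => absurd h (by omega)

theorem chkU (v : Nat) : TF22cUT.chkName v = true := by
  rcases Nat.lt_or_ge v (2 ^ 6) with h | h
  · exact allTree_chunks TF22cUT.chkName 6 1 chunkU v h
  · exact chk_of_zero _ _ _ _ _ _ _ _ _ _ _ _ _ _ v
      (fun y => fld3_eq_zero _ _ _ _ _ _ _ _ y v 1 (by decide)
        (le_trans (by decide : 1 * 2 ^ (6 + 0) ≤ 2 ^ 6) h))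
      (fld1_eq_zero _ _ _ _ _ _ _ _ v
        (le_trans (by decide : TF22cUT.dtop.length * 2 ^ (6 + 0) ≤ 2 ^ 6) h))
      (le_trans (by decide : 60 ≤ 2 ^ 6) h)

theorem chunkL : ∀ k, k < 1 → allTree TF22cLT.chkPoint 6 (k * 2 ^ 6) = true
  | 0, _ => TF22cLC0.chk
  | (k + 1), h => absurd h (by omega)

theorem chkL (a : Nat) (ha : a < 60) : TF22cLT.chkPoint a = true :=
  allTree_chunks TF22cLT.chkPoint 6 1 chunkL a (lt_of_lt_of_le ha (by decide))

theorem permOK : PermChecks 60 TF22cLT.tp PresF22c.inv TF22cLT.pa TF22cLT.pl PresF22c.relW TF22cLT.sgW TF22cLT.tw 2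
    TF22cLT.roots 4 where
  point := fun a ha => chkL a ha
  invL := by decide +kernel
  wsL := by decide +kernel
  sgL := by decide +kernel
  twL := by decide +kernel
  root1 := by decide +kernel
  rootpos := by decide +kernel

/-- index and orbit structure of the subgroup -/
theorem final :
    ((Subgroup.closure {s | s ∈ sgSrc}).map (PresentedGroup.mk (coxRelators F22c.edges ∪ {r | r ∈ F22c.extra}))).index = 60 ∧
    ∃ ψ : (PresentedGroup (coxRelators F22c.edges ∪ {r | r ∈ F22c.extra})) ⧸ ((Subgroup.closure {s | s ∈ sgSrc}).map (PresentedGroup.mk (coxRelators F22c.edges ∪ {r | r ∈ F22c.extra}))) → Fin 60,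
      Function.Injective ψ ∧
      ∀ r, r < 60 → (∀ r' ∈ (0 :: TF22cLT.roots), clsOf TF22cLT.roots r' = clsOf TF22cLT.roots r → r' = r) →
        ∃ q, ψ '' (MulAction.orbit ((Subgroup.closure {s | s ∈ sgSrc}).map (PresentedGroup.mk (coxRelators F22c.edges ∪ {r | r ∈ F22c.extra}))) q) = {b : Fin 60 | clsOf TF22cLT.roots b.1 = clsOf TF22cLT.roots r} :=
  main PresF22c.ok {s | s ∈ sgSrc} sgSrc rfl TF22cLT.sgW (by decide +kernel)
    60 60 6 0 255 TF22cUT.tgt TF22cUT.sig TF22cUT.crt TF22cUT.hnt TF22cUT.dsig TF22cUT.mu TF22cUT.dcrt TF22cUT.dst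
    TF22cUT.par TF22cUT.plet TF22cUT.certs TF22cUT.hints (by decide +kernel)
    (fun y v => fld3_le _ _ _ _ _ _ _ _ y v) (fun v => fld1_le _ _ _ _ _ _ _ _ v) chkU
    (by decide +kernel) (by decide) TF22cUC0.cnt
    TF22cLT.tp TF22cLT.pa TF22cLT.pl TF22cLT.tw 2 TF22cLT.roots permOK (by decide) (by decide +kernel)

end Cfsg.Agent.Lib.Helper28.TF22cX
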