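import Cfsg.Agent.Lib.Helper28.FinalIwa
import Cfsg.Agent.Lib.Helper28.ChainStep
import Cfsg.Agent.Lib.Helper28.T1687X
import Cfsg.Agent.Lib.Helper28.T1685X
import Cfsg.Agent.Lib.Helper28.TF22aX
import Cfsg.Agent.Lib.Helper28.TF22bX
import Cfsg.Agent.Lib.Helper28.TF22cX
import Cfsg.Agent.Lib.Helper28.F22SX

/-!
The presented group Fi22 (generators on the diagram Y332) has order 64561751654400 and is
simple.

Upper bound: the chain Fi22 > <b..i> > <b..h> > <b,c,d,e> > <b> with indices 14080, 3159,
12096, 60 found by coset enumeration in the groups presented by the relators involving only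
the generators of the subgroups.  Lower bound: a stabiliser chain of the permutation
representation on the 3510 cosets of <a,c,d,e,f,g,h,i,(abcdeh)^5>.  Simplicity: Iwasawa's
criterion (rank 3, the stabiliser centralises a, the generators are conjugate to a).
-/

set_option autoImplicit false

namespace Cfsg.Agent.Lib.Helper28.F22Main

open Cfsg.Spor Cfsg.Agent.Lib.Helper28.TCKernel Cfsg.Agent.Lib.Helper28.TCSound
open Cfsg.Agent.Lib.Helper28.TCPerm Cfsg.Agent.Lib.Helper28.TCPres
open Cfsg.Agent.Lib.Helper28.ChainStep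

theorem c_bound : Finite (Grp F22c.edges F22c.extra) ∧
    Nat.card (Grp F22c.edges F22c.extra) ≤ 60 * 2 := by
  have h := TF22cX.final.1
  have e : TF22cX.sgSrc = [FreeGroup.of F22c.Gen.b] := rfl
  rw [e, map_single] at h
  exact chain_bottom _ 60 h (by decide) _
    (invol_G F22c.edges F22c.extra F22c.Gen.b (by decide)) rfl

theorem b_bound : Finite (Grp F22b.edges F22b.extra) ∧
    Nat.card (Grp F22b.edges F22b.extra) ≤ 12096 * (60 * 2) := by
  obtain ⟨F, hF⟩ := F22c.hom
  exact chain_step _ 12096 _ TF22bX.final.1 (by decide) F hF c_bound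

theorem a_bound : Finite (Grp F22a.edges F22a.extra) ∧
    Nat.card (Grp F22a.edges F22a.extra) ≤ 3159 * (12096 * (60 * 2)) := by
  obtain ⟨F, hF⟩ := F22b.hom
  exact chain_step _ 3159 _ TF22aX.final.1 (by decide) F hF b_bound

theorem bound : Finite (Grp Fi22.edges Fi22.extra) ∧
    Nat.card (Grp Fi22.edges Fi22.extra) ≤ 14080 * (3159 * (12096 * (60 * 2))) := by
  obtain ⟨F, hF⟩ := F22a.hom
  exact chain_step _ 14080 _ T1685X.final.1 (by decide) F hF a_bound

theorem hidx : (Subgroup.closure ((wp (ltG Fi22.edges Fi22.extra PresFi22.dec)) ''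
    {w | w ∈ T1687LT.sgW})).index = 3510 := by
  rw [← map_closure_eq PresFi22.ok {s | s ∈ T1687X.sgSrc} T1687X.sgSrc rfl T1687LT.sgW
    (by decide +kernel)]
  exact T1687X.final.1

theorem simple_card : IsSimpleGroup (Grp Fi22.edges Fi22.extra) ∧
    Nat.card (Grp Fi22.edges Fi22.extra) = 64561751654400 :=
  FinalIwa.simple_card PresFi22.ok (r := 2817) T1687X.permOK (by decide) hidx
    (by decide +kernel) F22SX.checks 64561751654400 F22SX.prod (by decide) bound.1
    (le_trans bound.2 (by decide)) [0] (by decide +kernel) (by decide +kernel)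
    F22ST.cj (by decide +kernel) F22ST.wodd (by decide) (by decide +kernel)
    (by decide) (by decide) (by decide) (by decide)

end Cfsg.Agent.Lib.Helper28.F22Main
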