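import Cfsg.Agent.Lib.Helper28.F23SC0
import Cfsg.Agent.Lib.Helper28.F23SC1
import Cfsg.Agent.Lib.Helper28.F23SC2
import Cfsg.Agent.Lib.Helper28.F23SC3
import Cfsg.Agent.Lib.Helper28.F23SC4
import Cfsg.Agent.Lib.Helper28.F23SC5
import Cfsg.Agent.Lib.Helper28.F23SC6
import Cfsg.Agent.Lib.Helper28.F23SC7
import Cfsg.Agent.Lib.Helper28.F23SC8
import Cfsg.Agent.Lib.Helper28.F23SC9
import Cfsg.Agent.Lib.Helper28.F23SC10
import Cfsg.Agent.Lib.Helper28.F23SC11
import Cfsg.Agent.Lib.Helper28.F23SC12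
import Cfsg.Agent.Lib.Helper28.F23SC13
import Cfsg.Agent.Lib.Helper28.F23SC14
import Cfsg.Agent.Lib.Helper28.F23SC15
import Cfsg.Agent.Lib.Helper28.F23SC16
import Cfsg.Agent.Lib.Helper28.F23SC17
import Cfsg.Agent.Lib.Helper28.F23SC18
import Cfsg.Agent.Lib.Helper28.F23SC19
import Cfsg.Agent.Lib.Helper28.F23SC20
import Cfsg.Agent.Lib.Helper28.F23SC21
import Cfsg.Agent.Lib.Helper28.F23SC22
import Cfsg.Agent.Lib.Helper28.F23SC23
import Cfsg.Agent.Lib.Helper28.F23SC24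
import Cfsg.Agent.Lib.Helper28.F23SC25
import Cfsg.Agent.Lib.Helper28.F23SC26
import Cfsg.Agent.Lib.Helper28.F23SC27
import Cfsg.Agent.Lib.Helper28.F23SC28
import Cfsg.Agent.Lib.Helper28.F23SC29
import Cfsg.Agent.Lib.Helper28.F23SC30
import Cfsg.Agent.Lib.Helper28.F23SC31

set_option autoImplicit false

namespace Cfsg.Agent.Lib.Helper28.F23SX

open Cfsg.Agent.Lib.Helper28.TCKernel Cfsg.Agent.Lib.Helper28.SGS

theorem chunk : ∀ k, k < 32 → allTree F23ST.chkPt 10 (k * 2 ^ 10) = true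
  | 0, _ => F23SC0.chk
  | 1, _ => F23SC1.chk
  | 2, _ => F23SC2.chk
  | 3, _ => F23SC3.chk
  | 4, _ => F23SC4.chk
  | 5, _ => F23SC5.chk
  | 6, _ => F23SC6.chk
  | 7, _ => F23SC7.chk
  | 8, _ => F23SC8.chk
  | 9, _ => F23SC9.chk
  | 10, _ => F23SC10.chk
  | 11, _ => F23SC11.chk
  | 12, _ => F23SC12.chk
  | 13, _ => F23SC13.chk
  | 14, _ => F23SC14.chk
  | 15, _ => F23SC15.chk
  | 16, _ => F23SC16.chk
  | 17, _ => F23SC17.chk
  | 18, _ => F23SC18.chk
  | 19, _ => F23SC19.chk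
  | 20, _ => F23SC20.chk
  | 21, _ => F23SC21.chk
  | 22, _ => F23SC22.chk
  | 23, _ => F23SC23.chk
  | 24, _ => F23SC24.chk
  | 25, _ => F23SC25.chk
  | 26, _ => F23SC26.chk
  | 27, _ => F23SC27.chk
  | 28, _ => F23SC28.chk
  | 29, _ => F23SC29.chk
  | 30, _ => F23SC30.chk
  | 31, _ => F23SC31.chk
  | (k + 32), h => absurd h (by omega)

theorem checks : Checks 31671 10 54 5 15 T1689LT.tp F23ST.xt F23ST.rk F23ST.par F23ST.sy F23ST.lv F23ST.bs F23ST.ns
    F23ST.defs F23ST.prs where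
  point := fun p hp => allTree_chunks F23ST.chkPt 10 32 chunk p (lt_of_lt_of_le hp (by decide))
  hX := by decide
  bd := by decide +kernel
  pbd := by decide +kernel
  fix := by decide +kernel
  lvX := fun s hs => nthD_of_length_le 0 F23ST.lvl s (le_trans (by decide) hs)
  bsn := by decide +kernel
  cnt := by decide +kernel
  hd := by decide

theorem prod : prodN F23ST.ns 5 = 4089470473293004800 := by decide +kernel

end Cfsg.Agent.Lib.Helper28.F23SX
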