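import Cfsg.Agent.Lib.Helper28.TCMain
import Cfsg.Agent.Lib.Helper28.PresF23b
import Cfsg.Agent.Lib.Helper28.TF23bUC0
import Cfsg.Agent.Lib.Helper28.TF23bLC0

set_option autoImplicit false

namespace Cfsg.Agent.Lib.Helper28.TF23bX

open Cfsg.Spor Cfsg.Agent.Lib.Helper28.TCKernel Cfsg.Agent.Lib.Helper28.TCSound Cfsg.Agent.Lib.Helper28.TCPerm Cfsg.Agent.Lib.Helper28.TCPres Cfsg.Agent.Lib.Helper28.TCMain

/-- the subgroup generators -/
def sgSrc : List (FreeGroup F23b.Gen) := [F23b.b, F23b.c, F23b.d, F23b.e, F23b.f, F23b.g, F23b.h]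

theorem chunkU : ∀ k, k < 1 → allTree TF23bUT.chkName 15 (k * 2 ^ 15) = true
  | 0, _ => TF23bUC0.chk
  | (k + 1), h => absurd h (by omega)

theorem chkU (v : Nat) : TF23bUT.chkName v = true := by
  rcases Nat.lt_or_ge v (2 ^ 15) with h | h
  · exact allTree_chunks TF23bUT.chkName 15 1 chunkU v h
  · exact chk_of_zero _ _ _ _ _ _ _ _ _ _ _ _ _ _ v
      (fun y => fld3_eq_zero _ _ _ _ _ _ _ _ y v 3 (by decide)
        (le_trans (by decide : 3 * 2 ^ (8 + 5) ≤ 2 ^ 15) h))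
      (fld1_eq_zero _ _ _ _ _ _ _ _ v
        (le_trans (by decide : TF23bUT.dtop.length * 2 ^ (7 + 5) ≤ 2 ^ 15) h))
      (le_trans (by decide : 20621 ≤ 2 ^ 15) h)

theorem chunkL : ∀ k, k < 1 → allTree TF23bLT.chkPoint 12 (k * 2 ^ 12) = true
  | 0, _ => TF23bLC0.chk
  | (k + 1), h => absurd h (by omega)

theorem chkL (a : Nat) (ha : a < 3159) : TF23bLT.chkPoint a = true :=
  allTree_chunks TF23bLT.chkPoint 12 1 chunkL a (lt_of_lt_of_le ha (by decide))

theorem permOK : PermChecks 3159 TF23bLT.tp PresF23b.inv TF23bLT.pa TF23bLT.pl PresF23b.relW TF23bLT.sgW TF23bLT.tw 14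
    TF23bLT.roots 8 where
  point := fun a ha => chkL a ha
  invL := by decide +kernel
  wsL := by decide +kernel
  sgL := by decide +kernel
  twL := by decide +kernel
  root1 := by decide +kernel
  rootpos := by decide +kernel

/-- index and orbit structure of the subgroup -/
theorem final :
    ((Subgroup.closure {s | s ∈ sgSrc}).map (PresentedGroup.mk (coxRelators F23b.edges ∪ {r | r ∈ F23b.extra}))).index = 3159 ∧
    ∃ ψ : (PresentedGroup (coxRelators F23b.edges ∪ {r | r ∈ F23b.extra})) ⧸ ((Subgroup.closure {s | s ∈ sgSrc}).map (PresentedGroup.mk (coxRelators F23b.edges ∪ {r | r ∈ F23b.extra}))) → Fin 3159,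
      Function.Injective ψ ∧
      ∀ r, r < 3159 → (∀ r' ∈ (0 :: TF23bLT.roots), clsOf TF23bLT.roots r' = clsOf TF23bLT.roots r → r' = r) →
        ∃ q, ψ '' (MulAction.orbit ((Subgroup.closure {s | s ∈ sgSrc}).map (PresentedGroup.mk (coxRelators F23b.edges ∪ {r | r ∈ F23b.extra}))) q) = {b : Fin 3159 | clsOf TF23bLT.roots b.1 = clsOf TF23bLT.roots r} :=
  main PresF23b.ok {s | s ∈ sgSrc} sgSrc rfl TF23bLT.sgW (by decide +kernel)
    20621 3159 15 4 262143 TF23bUT.tgt TF23bUT.sig TF23bUT.crt TF23bUT.hnt TF23bUT.dsig TF23bUT.mu TF23bUT.dcrt TF23bUT.dst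
    TF23bUT.par TF23bUT.plet TF23bUT.certs TF23bUT.hints (by decide +kernel)
    (fun y v => fld3_le _ _ _ _ _ _ _ _ y v) (fun v => fld1_le _ _ _ _ _ _ _ _ v) chkU
    (by decide +kernel) (by decide) TF23bUC0.cnt
    TF23bLT.tp TF23bLT.pa TF23bLT.pl TF23bLT.tw 14 TF23bLT.roots permOK (by decide) (by decide +kernel)

end Cfsg.Agent.Lib.Helper28.TF23bX
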