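import Cfsg.Agent.Lib.Helper28.FinalIwa2
import Cfsg.Agent.Lib.Helper28.ChainStep
import Cfsg.Agent.Lib.Helper28.T1689X
import Cfsg.Agent.Lib.Helper28.TF23aX
import Cfsg.Agent.Lib.Helper28.TF23bX
import Cfsg.Agent.Lib.Helper28.TF23cX
import Cfsg.Agent.Lib.Helper28.TF23dX
import Cfsg.Agent.Lib.Helper28.F23SX

/-!
The presented group Fi23 (generators on the diagram Y342) has order 4089470473293004800 and
is simple.

Upper bound: the chain Fi23 > <a..i> > <b..i> > <b..h> > <b,c,d,e> > <b> with indices 31671,
14080, 3159, 24192, 60 found by coset enumeration in the groups presented by the relators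
involving only the generators of the subgroups.  Lower bound: a stabiliser chain of the
permutation representation on the 31671 cosets of <a..i>.  Simplicity: Iwasawa's criterion
(rank 3, the stabiliser centralises z = (bcdefgh)^9, the generators are conjugate to z).
-/

set_option autoImplicit false

namespace Cfsg.Agent.Lib.Helper28.F23Main

open Cfsg.Spor Cfsg.Agent.Lib.Helper28.TCKernel Cfsg.Agent.Lib.Helper28.TCSound
open Cfsg.Agent.Lib.Helper28.TCPerm Cfsg.Agent.Lib.Helper28.TCPres
open Cfsg.Agent.Lib.Helper28.ChainStep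

theorem d_bound : Finite (Grp F23d.edges F23d.extra) ∧
    Nat.card (Grp F23d.edges F23d.extra) ≤ 60 * 2 := by
  have h := TF23dX.final.1
  have e : TF23dX.sgSrc = [FreeGroup.of F23d.Gen.b] := rfl
  rw [e, map_single] at h
  exact chain_bottom _ 60 h (by decide) _
    (invol_G F23d.edges F23d.extra F23d.Gen.b (by decide)) rfl

theorem c_bound : Finite (Grp F23c.edges F23c.extra) ∧
    Nat.card (Grp F23c.edges F23c.extra) ≤ 24192 * (60 * 2) := by
  obtain ⟨F, hF⟩ := F23d.hom
  exact chain_step _ 24192 _ TF23cX.final.1 (by decide) F hF d_bound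

theorem b_bound : Finite (Grp F23b.edges F23b.extra) ∧
    Nat.card (Grp F23b.edges F23b.extra) ≤ 3159 * (24192 * (60 * 2)) := by
  obtain ⟨F, hF⟩ := F23c.hom
  exact chain_step _ 3159 _ TF23bX.final.1 (by decide) F hF c_bound

theorem a_bound : Finite (Grp F23a.edges F23a.extra) ∧
    Nat.card (Grp F23a.edges F23a.extra) ≤ 14080 * (3159 * (24192 * (60 * 2))) := by
  obtain ⟨F, hF⟩ := F23b.hom
  exact chain_step _ 14080 _ TF23aX.final.1 (by decide) F hF b_bound

theorem bound : Finite (Grp Fi23.edges Fi23.extra) ∧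
    Nat.card (Grp Fi23.edges Fi23.extra) ≤ 31671 * (14080 * (3159 * (24192 * (60 * 2)))) := by
  obtain ⟨F, hF⟩ := F23a.hom
  exact chain_step _ 31671 _ T1689X.final.1 (by decide) F hF a_bound

theorem hidx : (Subgroup.closure ((wp (ltG Fi23.edges Fi23.extra PresFi23.dec)) ''
    {w | w ∈ T1689LT.sgW})).index = 31671 := by
  rw [← map_closure_eq PresFi23.ok {s | s ∈ T1689X.sgSrc} T1689X.sgSrc rfl T1689LT.sgW
    (by decide +kernel)]
  exact T1689X.final.1

theorem simple_card : IsSimpleGroup (Grp Fi23.edges Fi23.extra) ∧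
    Nat.card (Grp Fi23.edges Fi23.extra) = 4089470473293004800 :=
  FinalIwa2.simple_card PresFi23.ok (r := 28161) T1689X.permOK (by decide) hidx
    (by decide +kernel) F23SX.checks 4089470473293004800 F23SX.prod (by decide) bound.1
    (le_trans bound.2 (by decide)) F23ST.z0 (by decide +kernel) (by decide +kernel)
    F23ST.cj (by decide +kernel) F23ST.wodd (by decide) (by decide +kernel)
    (by decide) (by decide) (by decide) (by decide)

end Cfsg.Agent.Lib.Helper28.F23Main
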