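import Cfsg.Agent.Lib.Helper28.TCMain
import Cfsg.Agent.Lib.Helper28.SGS

/-!
The word identities of a checked stabiliser chain hold in the presented group, once its
order is bounded by the order of the permutation group.
-/

set_option autoImplicit false

namespace Cfsg.Agent.Lib.Helper28.SGSRel

open Cfsg.Agent.Lib.Helper28.TCKernel Cfsg.Agent.Lib.Helper28.TCSound
open Cfsg.Agent.Lib.Helper28.TCPerm Cfsg.Agent.Lib.Helper28.TCPres
open Cfsg.Agent.Lib.Helper28.SGS
open Cfsg.Spor

variable {α : Type} [DecidableEq α]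
  {edges : List (α × ℕ × α)} {extra : List (FreeGroup α)} {code : α × Bool → Nat}
  {dec : Nat → α × Bool} {inv : Nat → Nat} {L : Nat} {gens : List α} {pairs : List (α × α)}
  {relW : List (List Nat)}

theorem sgs_rels (O : PresOK edges extra code dec inv L gens pairs relW)
    {n K : Nat} {roots : List Nat} {tp : Nat → Nat → Nat} {pa pl : Nat → Nat}
    {sgW tw : List (List Nat)}
    (C : PermChecks n tp inv pa pl relW sgW tw K roots L)
    {X k d : Nat} {xt rk par sy : Nat → Nat → Nat} {lv bs ns : Nat → Nat}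
    {defs : List (List Nat)} {prs : List (List Nat × List Nat)}
    (S : Checks n L X k d tp xt rk par sy lv bs ns defs prs)
    (N : Nat) (hN : prodN ns k = N)
    (hfin : Finite (Grp edges extra)) (hle : Nat.card (Grp edges extra) ≤ N) :
    ∃ el : Nat → Grp edges extra, (∀ y, y < L → el y = ltG edges extra dec y) ∧
      ∀ uv ∈ prs, wp el uv.1 = wp el uv.2 := by
  obtain ⟨φ, hφ⟩ := exists_hom O (letterPerm C) (letterPerm_inv C) (letterPerm_rel C)
  have hφ' : ∀ y, y < L → ∀ a : Fin n,
      (((φ (ltG edges extra dec y))⁻¹ a : Fin n) : Nat) = tp y a := by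
    intro y hy a
    rw [hφ y hy]
    exact letterPerm_inv_apply C y hy a
  obtain ⟨_, _, el, hel, heq⟩ := SGS.main S φ (ltG edges extra dec) hφ' N hN hle
  exact ⟨el, hel, heq⟩

end Cfsg.Agent.Lib.Helper28.SGSRel
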