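import Cfsg.Agent.Lib.Helper28.F23CoverA
import Cfsg.Agent.Lib.Helper28.SGSRel
import Cfsg.Agent.Lib.Helper28.F23Main
import Cfsg.Agent.Lib.Helper28.F22Main

/-!
In the presented group Fi23 the subgroup generated by the nodes other than `j` is a
non-split double cover of the presented group Fi22.
-/

set_option autoImplicit false

namespace Cfsg.Agent.Lib.Helper28.F23Cover

open Cfsg.Spor Cfsg.Agent.Lib.Helper28.TCKernel Cfsg.Agent.Lib.Helper28.TCSound
open Cfsg.Agent.Lib.Helper28.TCPerm Cfsg.Agent.Lib.Helper28.TCPres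
open Cfsg.Agent.Lib.Helper28.SGS Cfsg.Agent.Lib.Helper28.F23CoverA

theorem g0_eq (x : Fi22.Gen) :
    g0 x = ltG Fi23.edges Fi23.extra PresFi23.dec (PresFi23.code (emb x, true)) := by
  unfold ltG
  rw [ltOf_code PresFi23.ok _ (invol_G Fi23.edges Fi23.extra) (emb x, true)]
  rfl

theorem z_wp : z = wp (ltG Fi23.edges Fi23.extra PresFi23.dec) F23ST.zw := by
  have h0 : toLetters PresFi23.code zF = F23ST.zw := by decide +kernel
  unfold z
  rw [mk_eq_wp PresFi23.ok zF, h0]

theorem z_el (el : Nat → Grp Fi23.edges Fi23.extra)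
    (hel : ∀ y, y < 10 → el y = ltG Fi23.edges Fi23.extra PresFi23.dec y)
    (heq : ∀ uv ∈ F23ST.prs, wp el uv.1 = wp el uv.2) : z = el 50 := by
  have h2 : wp el [50] = wp el F23ST.zw := heq ([50], F23ST.zw) (by decide +kernel)
  have h3 : wp el F23ST.zw = wp (ltG Fi23.edges Fi23.extra PresFi23.dec) F23ST.zw :=
    wp_congr el _ _ (fun y hy => hel y ((by decide : ∀ y ∈ F23ST.zw, y < 10) y hy))
  rw [z_wp, ← h3, ← h2, wp_cons, wp_nil, mul_one]

theorem z_facts : z * z = 1 ∧ ∀ x, g0 x * z = z * g0 x := by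
  obtain ⟨el, hel, heq⟩ := SGSRel.sgs_rels PresFi23.ok T1689X.permOK F23SX.checks
    4089470473293004800 F23SX.prod F23Main.bound.1 (le_trans F23Main.bound.2 (by decide))
  have hz : z = el 50 := z_el el hel heq
  refine ⟨?_, ?_⟩
  · have h : wp el [50, 50] = wp el [] := heq ([50, 50], []) (by decide +kernel)
    rw [wp_cons, wp_cons, wp_nil, mul_one] at h
    rw [hz]
    exact h
  · intro x
    have hm : ([50, PresFi23.code (emb x, true)], [PresFi23.code (emb x, true), 50]) ∈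
        F23ST.prs := by
      cases x <;> decide +kernel
    have hl : PresFi23.code (emb x, true) < 10 := by
      cases x <;> decide
    have h : wp el [50, PresFi23.code (emb x, true)] = wp el [PresFi23.code (emb x, true), 50] :=
      heq _ hm
    rw [wp_cons, wp_cons, wp_nil, mul_one, wp_cons, wp_cons, wp_nil, mul_one, hel _ hl] at h
    rw [g0_eq, hz]
    exact h.symm

theorem cover : Cfsg.IsNonsplitDoubleCover (((Subgroup.closure ({Cfsg.Spor.Fi23.a,
    Cfsg.Spor.Fi23.b, Cfsg.Spor.Fi23.c, Cfsg.Spor.Fi23.d, Cfsg.Spor.Fi23.e, Cfsg.Spor.Fi23.f,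
    Cfsg.Spor.Fi23.g, Cfsg.Spor.Fi23.h, Cfsg.Spor.Fi23.i} :
    Set (FreeGroup Cfsg.Spor.Fi23.Gen))).map
    (PresentedGroup.mk (Cfsg.Spor.coxRelators Cfsg.Spor.Fi23.edges ∪
      {r | r ∈ Cfsg.Spor.Fi23.extra})))) Cfsg.Spor.Fi22 :=
  cover_set F23Main.bound.1 F23Main.simple_card.2 T1689X.final.1 F22Main.bound.1
    F22Main.simple_card z_facts.1 z_facts.2

end Cfsg.Agent.Lib.Helper28.F23Cover
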