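import Cfsg.Agent.Lib.Helper28.Cover
import Cfsg.Agent.Lib.Helper28.PresFi23
import Cfsg.Prelude.Def_Spor_Fi22

/-!
The subgroup of the presented group Fi23 generated by the nodes other than `j` is a
non-split double cover of the presented group Fi22, given the orders of both groups, the
index of the subgroup, the simplicity of Fi22 and the fact that `(bcdefgh)^9` is a central
involution of the subgroup.
-/

set_option autoImplicit false

namespace Cfsg.Agent.Lib.Helper28.F23CoverA

open Cfsg.Spor Cfsg.Agent.Lib.Helper28.TCKernel Cfsg.Agent.Lib.Helper28.TCSound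
open Cfsg.Agent.Lib.Helper28.TCPres

/-- the embedding of the Fi22 diagram into the Fi23 diagram. -/
def emb : Fi22.Gen → Fi23.Gen
  | .a => .a
  | .b => .b
  | .c => .c
  | .d => .d
  | .e => .e
  | .f => .f
  | .g => .g
  | .h => .h
  | .i => .i

/-- the relators of Fi23. -/
abbrev rels23 : Set (FreeGroup Fi23.Gen) := coxRelators Fi23.edges ∪ {r | r ∈ Fi23.extra}

/-- the relators of Fi22. -/
abbrev rels22 : Set (FreeGroup Fi22.Gen) := coxRelators Fi22.edges ∪ {r | r ∈ Fi22.extra}

/-- the images of the generators of Fi22. -/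
noncomputable def g0 (x : Fi22.Gen) : Grp Fi23.edges Fi23.extra := PresentedGroup.of (emb x)

/-- the word of the central involution. -/
def zF : FreeGroup Fi23.Gen :=
  (Fi23.b * Fi23.c * Fi23.d * Fi23.e * Fi23.f * Fi23.g * Fi23.h) ^ 9

/-- the central involution. -/
noncomputable def z : Grp Fi23.edges Fi23.extra := PresentedGroup.mk rels23 zF

/-- the generators of the subgroup. -/
def src : List (FreeGroup Fi23.Gen) :=
  [Fi23.a, Fi23.b, Fi23.c, Fi23.d, Fi23.e, Fi23.f, Fi23.g, Fi23.h, Fi23.i]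

theorem emb_node (x : Fi22.Gen) : emb x ∈ coxNodes Fi23.edges := by
  cases x <;> decide

theorem emb_label (x y : Fi22.Gen) :
    coxLabel Fi22.edges x y = coxLabel Fi23.edges (emb x) (emb y) := by
  cases x <;> cases y <;> decide

theorem cox23 (x y : Fi23.Gen) (hx : x ∈ coxNodes Fi23.edges) (hy : y ∈ coxNodes Fi23.edges) :
    ((PresentedGroup.of x : Grp Fi23.edges Fi23.extra) * PresentedGroup.of y) ^
      coxLabel Fi23.edges x y = 1 := by
  have h : (FreeGroup.of x * FreeGroup.of y) ^ coxLabel Fi23.edges x y ∈ rels23 :=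
    Or.inl ⟨x, hx, y, hy, rfl⟩
  have h1 := PresentedGroup.one_of_mem h
  rw [map_pow, map_mul] at h1
  exact h1

theorem g0_invol (x : Fi22.Gen) : g0 x * g0 x = 1 :=
  invol_G Fi23.edges Fi23.extra (emb x) (emb_node x)

theorem g0_cox (x y : Fi22.Gen) : (g0 x * g0 y) ^ coxLabel Fi22.edges x y = 1 := by
  rw [emb_label]
  exact cox23 _ _ (emb_node x) (emb_node y)

theorem lift_g0 (r : FreeGroup Fi22.Gen) :
    FreeGroup.lift g0 r = PresentedGroup.mk rels23 (FreeGroup.map emb r) := by
  have e : FreeGroup.lift g0 = (PresentedGroup.mk rels23).comp (FreeGroup.map emb) := by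
    apply FreeGroup.ext_hom
    intro x
    rw [FreeGroup.lift_apply_of, MonoidHom.comp_apply, FreeGroup.map.of]
    rfl
  exact DFunLike.congr_fun e r

theorem rel22 (r : FreeGroup Fi22.Gen) (hr : r ∈ rels22) :
    FreeGroup.lift g0 r = 1 ∨ FreeGroup.lift g0 r = z := by
  rcases hr with ⟨x, _, y, _, rfl⟩ | hr
  · left
    rw [map_pow, map_mul, FreeGroup.lift_apply_of, FreeGroup.lift_apply_of]
    exact g0_cox x y
  · have hr' : r ∈ Fi22.extra := hr
    rw [lift_g0]
    unfold Fi22.extra at hr'
    simp only [List.mem_cons, List.not_mem_nil, or_false] at hr'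
    rcases hr' with rfl | rfl | rfl
    · left
      exact PresentedGroup.one_of_mem
        (Or.inr (show FreeGroup.map emb _ ∈ Fi23.extra by decide +kernel))
    · left
      exact PresentedGroup.one_of_mem
        (Or.inr (show FreeGroup.map emb _ ∈ Fi23.extra by decide +kernel))
    · right
      have e : FreeGroup.map emb
          ((Fi22.b * Fi22.c * Fi22.d * Fi22.e * Fi22.f * Fi22.g * Fi22.h) ^ 9) = zF := by
        decide +kernel
      rw [e]
      rfl

theorem z_mem : z ∈ Subgroup.closure (Set.range g0) := by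
  have e : z = (g0 .b * g0 .c * g0 .d * g0 .e * g0 .f * g0 .g * g0 .h) ^ 9 := by
    unfold z zF
    rw [map_pow, map_mul, map_mul, map_mul, map_mul, map_mul, map_mul]
    rfl
  rw [e]
  have m : ∀ x, g0 x ∈ Subgroup.closure (Set.range g0) :=
    fun x => Subgroup.subset_closure ⟨x, rfl⟩
  exact pow_mem (mul_mem (mul_mem (mul_mem (mul_mem (mul_mem (mul_mem (m _) (m _)) (m _))
    (m _)) (m _)) (m _)) (m _)) 9

theorem range_eq : Subgroup.closure (Set.range g0) =
    (Subgroup.closure {s | s ∈ src}).map (PresentedGroup.mk rels23) := by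
  rw [MonoidHom.map_closure]
  congr 1
  ext g
  constructor
  · rintro ⟨x, rfl⟩
    refine ⟨FreeGroup.of (emb x), ?_, rfl⟩
    show FreeGroup.of (emb x) ∈ src
    cases x <;> decide
  · rintro ⟨s, hs, rfl⟩
    have hs' : s ∈ src := hs
    unfold src at hs'
    simp only [List.mem_cons, List.not_mem_nil, or_false] at hs'
    rcases hs' with rfl | rfl | rfl | rfl | rfl | rfl | rfl | rfl | rfl
    · exact ⟨.a, rfl⟩
    · exact ⟨.b, rfl⟩
    · exact ⟨.c, rfl⟩
    · exact ⟨.d, rfl⟩
    · exact ⟨.e, rfl⟩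
    · exact ⟨.f, rfl⟩
    · exact ⟨.g, rfl⟩
    · exact ⟨.h, rfl⟩
    · exact ⟨.i, rfl⟩

theorem perfect : commutator (Subgroup.closure (Set.range g0)) = ⊤ := by
  have hR : ∀ u v : Fi22.Gen, coxLabel Fi22.edges u v = 3 → (g0 u * g0 v) ^ 3 = 1 := by
    intro u v h
    have := g0_cox u v
    rwa [h] at this
  have pb : Relation.ReflTransGen (fun u v => (g0 u * g0 v) ^ 3 = 1) Fi22.Gen.a Fi22.Gen.b :=
    .single (hR _ _ (by decide))
  have pc := pb.tail (hR .b .c (by decide))
  have pd := pc.tail (hR .c .d (by decide))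
  have pe := pd.tail (hR .d .e (by decide))
  have pf := pe.tail (hR .e .f (by decide))
  have pg := pf.tail (hR .f .g (by decide))
  have ph := pd.tail (hR .d .h (by decide))
  have pi := ph.tail (hR .h .i (by decide))
  have hconn : ∀ x, Relation.ReflTransGen (fun u v => (g0 u * g0 v) ^ 3 = 1) Fi22.Gen.a x := by
    intro x
    cases x
    · exact .refl
    · exact pb
    · exact pc
    · exact pd
    · exact pe
    · exact pf
    · exact pg
    · exact ph
    · exact pi
  have hrel : (([Fi22.Gen.a, .b, .c, .d, .e, .f, .h].map g0).prod) ^ 9 = 1 := by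
    have h : (Fi23.a * Fi23.b * Fi23.c * Fi23.d * Fi23.e * Fi23.f * Fi23.h) ^ 9 ∈ rels23 :=
      Or.inr (show _ ∈ Fi23.extra by decide)
    have h1 := PresentedGroup.one_of_mem h
    rw [map_pow, map_mul, map_mul, map_mul, map_mul, map_mul, map_mul] at h1
    simp only [List.map_cons, List.map_nil, List.prod_cons, List.prod_nil, mul_one]
    simp only [mul_assoc] at h1
    exact h1
  exact Cover.perfect_closure g0 .a g0_invol hconn _ 9 (by decide) hrel

theorem cover_abs (hfin23 : Finite (Grp Fi23.edges Fi23.extra))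
    (hcard23 : Nat.card (Grp Fi23.edges Fi23.extra) = 4089470473293004800)
    (hidx : ((Subgroup.closure {s | s ∈ src}).map (PresentedGroup.mk rels23)).index = 31671)
    (hfin22 : Finite (Grp Fi22.edges Fi22.extra))
    (h22 : IsSimpleGroup (Grp Fi22.edges Fi22.extra) ∧
      Nat.card (Grp Fi22.edges Fi22.extra) = 64561751654400)
    (hzz : z * z = 1) (hzc : ∀ x, g0 x * z = z * g0 x) :
    Cfsg.IsNonsplitDoubleCover (Subgroup.closure (Set.range g0)) Cfsg.Spor.Fi22 := by
  have hKcard : ¬ (Nat.card (PresentedGroup rels22)).Prime := by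
    rw [h22.2]
    intro hp
    have h2 : (2 : ℕ) ∣ 64561751654400 := by norm_num
    have := hp.eq_one_or_self_of_dvd 2 h2
    omega
  have hcard : Nat.card (Subgroup.closure (Set.range g0)) =
      2 * Nat.card (PresentedGroup rels22) := by
    rw [range_eq, h22.2]
    have h1 := Subgroup.card_mul_index
      ((Subgroup.closure {s | s ∈ src}).map (PresentedGroup.mk rels23))
    rw [hidx, hcard23] at h1
    have h3 : (129123503308800 : ℕ) * 31671 = 4089470473293004800 := by norm_num
    rw [Nat.eq_of_mul_eq_mul_right (by norm_num : 0 < 31671) (h1.trans h3.symm)]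
  exact Cover.cover_pres rels22 h22.1 hKcard g0 z z_mem hzc hzz rel22 hcard perfect

/-- the form used in the statement. -/
theorem cover_set (hfin23 : Finite (Grp Fi23.edges Fi23.extra))
    (hcard23 : Nat.card (Grp Fi23.edges Fi23.extra) = 4089470473293004800)
    (hidx : ((Subgroup.closure {s | s ∈ src}).map (PresentedGroup.mk rels23)).index = 31671)
    (hfin22 : Finite (Grp Fi22.edges Fi22.extra))
    (h22 : IsSimpleGroup (Grp Fi22.edges Fi22.extra) ∧
      Nat.card (Grp Fi22.edges Fi22.extra) = 64561751654400)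
    (hzz : z * z = 1) (hzc : ∀ x, g0 x * z = z * g0 x) :
    Cfsg.IsNonsplitDoubleCover (((Subgroup.closure ({Cfsg.Spor.Fi23.a, Cfsg.Spor.Fi23.b,
      Cfsg.Spor.Fi23.c, Cfsg.Spor.Fi23.d, Cfsg.Spor.Fi23.e, Cfsg.Spor.Fi23.f, Cfsg.Spor.Fi23.g,
      Cfsg.Spor.Fi23.h, Cfsg.Spor.Fi23.i} : Set (FreeGroup Cfsg.Spor.Fi23.Gen))).map
      (PresentedGroup.mk (Cfsg.Spor.coxRelators Cfsg.Spor.Fi23.edges ∪
        {r | r ∈ Cfsg.Spor.Fi23.extra})))) Cfsg.Spor.Fi22 := by
  have key : ∀ Hs : Subgroup (Grp Fi23.edges Fi23.extra),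
      Hs = Subgroup.closure (Set.range g0) → Cfsg.IsNonsplitDoubleCover Hs Cfsg.Spor.Fi22 := by
    rintro _ rfl
    exact cover_abs hfin23 hcard23 hidx hfin22 h22 hzz hzc
  apply key
  rw [range_eq]
  congr 2
  ext s
  simp only [src, Set.mem_insert_iff, Set.mem_singleton_iff, Set.mem_ofPred_eq, List.mem_cons,
    List.not_mem_nil, or_false]

end Cfsg.Agent.Lib.Helper28.F23CoverA
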