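import Cfsg.Agent.Lib.Helper28.F23Cover
import Cfsg.Agent.Lib.Helper28.FinalIwa3
import Cfsg.Agent.Lib.Helper28.ThreeTr
import Cfsg.Agent.Lib.Helper28.CoverCongr

/-!
The presented group Fi23 has a class of 31671 3-transpositions (the conjugates of the
generators), and the centraliser of each of them is a non-split double cover of the presented
group Fi22.
-/

set_option autoImplicit false

namespace Cfsg.Agent.Lib.Helper28.F23Tr

open Cfsg.Spor Cfsg.Agent.Lib.Helper28.TCKernel Cfsg.Agent.Lib.Helper28.TCSound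
open Cfsg.Agent.Lib.Helper28.TCPerm Cfsg.Agent.Lib.Helper28.TCPres
open Cfsg.Agent.Lib.Helper28.SGS Cfsg.Agent.Lib.Helper28.F23CoverA

theorem main : ∃ D : Set (Grp Fi23.edges Fi23.extra), Cfsg.IsThreeTranspositionClass D ∧ Nat.card D = 31671 ∧
    ∀ d ∈ D, Cfsg.IsNonsplitDoubleCover
      (Subgroup.centralizer ({d} : Set (Grp Fi23.edges Fi23.extra))) Cfsg.Spor.Fi22 := by
  have hfin : Finite (Grp Fi23.edges Fi23.extra) := F23Main.bound.1
  have hn : 0 < 31671 := by decide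
  obtain ⟨φ, el, hinj, hφ', hel, heq, hH, htr, hc1, hc2, hprim⟩ :=
    FinalIwa3.struct PresFi23.ok (r := 28161) T1689X.permOK hn F23Main.hidx
      (by decide +kernel) F23SX.checks 4089470473293004800 F23SX.prod F23Main.bound.1
      (le_trans F23Main.bound.2 (by decide)) (by decide) (by decide) (by decide) (by decide)
  -- the subgroup
  have hHeq : Subgroup.closure ((wp (ltG Fi23.edges Fi23.extra PresFi23.dec)) '' {w | w ∈ T1689LT.sgW}) =
      Subgroup.closure (Set.range g0) := by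
    rw [range_eq, ← map_closure_eq PresFi23.ok {s | s ∈ T1689X.sgSrc} T1689X.sgSrc rfl
      T1689LT.sgW (by decide +kernel)]
    rfl
  have hz : z = el 50 := F23Cover.z_el el hel heq
  have hz2 : z * z = 1 := F23Cover.z_facts.1
  have hzc0 := F23Cover.z_facts.2
  have hzc : ∀ h ∈ Subgroup.closure ((wp (ltG Fi23.edges Fi23.extra PresFi23.dec)) '' {w | w ∈ T1689LT.sgW}),
      h * z = z * h := by
    intro h hh
    rw [hHeq] at hh
    have h2 : Subgroup.closure (Set.range g0) ≤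
        Subgroup.centralizer ({z} : Set (Grp Fi23.edges Fi23.extra)) := by
      rw [Subgroup.closure_le]
      rintro _ ⟨x, rfl⟩
      exact Subgroup.mem_centralizer_singleton_iff.mpr (hzc0 x)
    exact Subgroup.mem_centralizer_singleton_iff.mp (h2 hh)
  have hzH : z ∈ Subgroup.closure ((wp (ltG Fi23.edges Fi23.extra PresFi23.dec)) '' {w | w ∈ T1689LT.sgW}) := by
    rw [hHeq]
    exact z_mem
  have hz1 : z ≠ 1 := by
    intro h1
    have h2 := scan_eq φ (ltG Fi23.edges Fi23.extra PresFi23.dec) hφ' F23ST.zw (by decide) ⟨1, by decide⟩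
    rw [← F23Cover.z_wp, h1, map_one, inv_one] at h2
    have h3 : scanP T1689LT.tp F23ST.zw 1 ≠ 1 := by decide +kernel
    exact h3 h2.symm
  -- the two representatives
  have h7 : PresFi23.inv 7 = 7 := by decide
  have hj : (ltG Fi23.edges Fi23.extra PresFi23.dec 7) = ((ltG Fi23.edges Fi23.extra PresFi23.dec 7))⁻¹ := by
    have h := ltG_inv PresFi23.ok 7 (by decide)
    rw [h7] at h
    exact h
  have hpt1 : ((φ ((ltG Fi23.edges Fi23.extra PresFi23.dec 7))⁻¹ ⟨0, hn⟩ : Fin 31671) : Nat) = 1 := by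
    rw [map_inv]
    exact (hφ' 7 (by decide) ⟨0, hn⟩).trans (show T1689LT.tp 7 0 = 1 by decide +kernel)
  have hpt2 : ((φ (wp (ltG Fi23.edges Fi23.extra PresFi23.dec) F23ST.tw1)⁻¹ ⟨0, hn⟩ : Fin 31671) : Nat) = 28161 := by
    rw [map_inv]
    exact (scan_eq φ (ltG Fi23.edges Fi23.extra PresFi23.dec) hφ' F23ST.tw1 (by decide) ⟨0, hn⟩).trans
      (show scanP T1689LT.tp F23ST.tw1 0 = 28161 by decide +kernel)
  have hP1 : (z * (((ltG Fi23.edges Fi23.extra PresFi23.dec 7))⁻¹ * z * ((ltG Fi23.edges Fi23.extra PresFi23.dec 7))⁻¹⁻¹)) ^ 3 = 1 := by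
    have h : wp el [50, 7, 50, 7, 50, 7, 50, 7, 50, 7, 50, 7] = wp el [] :=
      heq (_, []) (by decide +kernel)
    simp only [wp_cons, wp_nil, mul_one] at h
    rw [hel 7 (by decide), ← hz] at h
    rw [inv_inv, ← hj, pow_three]
    simp only [mul_assoc]
    exact h
  have hw1 : wp el F23ST.tw1 = wp (ltG Fi23.edges Fi23.extra PresFi23.dec) F23ST.tw1 :=
    wp_congr el _ _ (fun y hy => hel y ((by decide : ∀ y ∈ F23ST.tw1, y < 10) y hy))
  have hw1i : wp el F23ST.tw1i = wp (ltG Fi23.edges Fi23.extra PresFi23.dec) F23ST.tw1i :=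
    wp_congr el _ _ (fun y hy => hel y ((by decide : ∀ y ∈ F23ST.tw1i, y < 10) y hy))
  have hgw : wp (ltG Fi23.edges Fi23.extra PresFi23.dec) F23ST.tw1i = (wp (ltG Fi23.edges Fi23.extra PresFi23.dec) F23ST.tw1)⁻¹ := by
    have h : wp el (F23ST.tw1 ++ F23ST.tw1i) = wp el [] := heq (_, []) (by decide +kernel)
    rw [wp_append, wp_nil, hw1, hw1i] at h
    exact eq_inv_of_mul_eq_one_right h
  have hP2 : (z * ((wp (ltG Fi23.edges Fi23.extra PresFi23.dec) F23ST.tw1)⁻¹ * z * (wp (ltG Fi23.edges Fi23.extra PresFi23.dec) F23ST.tw1)⁻¹⁻¹)) ^ 2 = 1 := by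
    have h : wp el ([50] ++ (F23ST.tw1i ++ ([50] ++ (F23ST.tw1 ++ ([50] ++ (F23ST.tw1i ++
        ([50] ++ F23ST.tw1))))))) = wp el [] := heq (_, []) (by decide +kernel)
    simp only [wp_append, wp_cons, wp_nil, mul_one] at h
    rw [hw1, hw1i, hgw, ← hz] at h
    rw [inv_inv, pow_two]
    simp only [mul_assoc] at h ⊢
    exact h
  -- generation by conjugates
  have hS := genG PresFi23.ok
  have hcj : FinalIwa2.cjOK 10 F23ST.z0 F23ST.cj F23ST.prs := by decide +kernel
  have ez : wp el F23ST.z0 = z := by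
    rw [hz]
    show wp el [50] = el 50
    rw [wp_cons, wp_nil, mul_one]
  have hconj : ∀ x ∈ (ltG Fi23.edges Fi23.extra PresFi23.dec) '' {y | y < 10}, ∃ g : Grp Fi23.edges Fi23.extra, x = g * z * g⁻¹ := by
    rintro x ⟨y, hy, rfl⟩
    obtain ⟨h1, h2⟩ := hcj y hy
    have e1 : wp el [y] = wp el ((nthD ([], []) F23ST.cj y).1 ++
        (F23ST.z0 ++ (nthD ([], []) F23ST.cj y).2)) := heq _ h1
    have e2 : wp el ((nthD ([], []) F23ST.cj y).1 ++ (nthD ([], []) F23ST.cj y).2) =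
        wp el [] := heq _ h2
    rw [wp_cons, wp_nil, mul_one, hel y hy, wp_append, wp_append, ez] at e1
    rw [wp_append, wp_nil] at e2
    refine ⟨wp el (nthD ([], []) F23ST.cj y).1, ?_⟩
    rw [e1, eq_inv_of_mul_eq_one_right e2, mul_assoc]
  obtain ⟨hCeq, hcls, hcard⟩ := ThreeTr.three_transp hn φ hinj
    (Subgroup.closure ((wp (ltG Fi23.edges Fi23.extra PresFi23.dec)) '' {w | w ∈ T1689LT.sgW})) hH htr hprim 28161 hc1 hc2
    z hz1 hz2 hzH hzc ((ltG Fi23.edges Fi23.extra PresFi23.dec 7))⁻¹ (wp (ltG Fi23.edges Fi23.extra PresFi23.dec) F23ST.tw1)⁻¹ ⟨by omega, by omega⟩ (by omega)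
    hP1 hP2 _ hS hconj
  have hcov : Cfsg.IsNonsplitDoubleCover
      (Subgroup.closure ((wp (ltG Fi23.edges Fi23.extra PresFi23.dec)) '' {w | w ∈ T1689LT.sgW})) Cfsg.Spor.Fi22 := by
    rw [hHeq]
    exact cover_abs F23Main.bound.1 F23Main.simple_card.2 T1689X.final.1 F22Main.bound.1
      F22Main.simple_card hz2 hzc0
  exact ⟨conjugatesOf z, hcls, hcard.trans F23Main.hidx,
    CoverCongr.cover_conj z _ hCeq hcov⟩

end Cfsg.Agent.Lib.Helper28.F23Tr
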