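import Cfsg.Agent.Lib.Helper28.TCMain
import Cfsg.Agent.Lib.Helper28.SGS
import Cfsg.Agent.Lib.Helper28.Iwa

/-!
Order and simplicity of a presented group from: an upper bound for the order, a checked
coset table of rank 3 for a subgroup that centralises a generator, and a checked stabiliser
chain of the permutation representation on the cosets.
-/

set_option autoImplicit false

namespace Cfsg.Agent.Lib.Helper28.FinalIwa

open Cfsg.Agent.Lib.Helper28.TCKernel Cfsg.Agent.Lib.Helper28.TCSound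
open Cfsg.Agent.Lib.Helper28.TCPerm Cfsg.Agent.Lib.Helper28.TCPres
open Cfsg.Agent.Lib.Helper28.SGS Cfsg.Agent.Lib.Helper28.Iwa
open Cfsg.Spor

variable {α : Type} [DecidableEq α]
  {edges : List (α × ℕ × α)} {extra : List (FreeGroup α)} {code : α × Bool → Nat}
  {dec : Nat → α × Bool} {inv : Nat → Nat} {L : Nat} {gens : List α} {pairs : List (α × α)}
  {relW : List (List Nat)}

theorem clsOf_two (r x : Nat) :
    clsOf [1, r] x = (if 1 ≤ x then 1 else 0) + ((if r ≤ x then 1 else 0) + 0) := by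
  rw [clsOf_cons, clsOf_cons, clsOf_nil]

/-- the conjugating words of the letters (`z0` is the word of the central element). -/
def cjOK (L : Nat) (z0 : List Nat) (inv : Nat → Nat) (cj : List (List Nat))
    (prs : List (List Nat × List Nat)) : Prop :=
  ∀ y, y < L → ([y], nthD [] cj y ++ (z0 ++ invw inv (nthD [] cj y))) ∈ prs ∧
    (∀ s ∈ nthD [] cj y, s < L)

instance (L : Nat) (z0 : List Nat) (inv : Nat → Nat) (cj : List (List Nat))
    (prs : List (List Nat × List Nat)) : Decidable (cjOK L z0 inv cj prs) := by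
  unfold cjOK; infer_instance

theorem simple_card (O : PresOK edges extra code dec inv L gens pairs relW)
    {n K r : Nat} {tp : Nat → Nat → Nat} {pa pl : Nat → Nat} {sgW tw : List (List Nat)}
    (C : PermChecks n tp inv pa pl relW sgW tw K [1, r] L) (hn : 0 < n)
    (hidx : (Subgroup.closure ((wp (ltG edges extra dec)) '' {w | w ∈ sgW})).index = n)
    (hK : ∀ k, k < K → nthD [] tw k ∈ sgAll inv sgW)
    {X k d : Nat} {xt rk par sy : Nat → Nat → Nat} {lv bs ns : Nat → Nat}
    {defs : List (List Nat)} {prs : List (List Nat × List Nat)}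
    (S : Checks n L X k d tp xt rk par sy lv bs ns defs prs)
    (N : Nat) (hN : prodN ns k = N) (hN2 : 2 ≤ N)
    (hfin : Finite (Grp edges extra)) (hle : Nat.card (Grp edges extra) ≤ N)
    (z0 : List Nat)
    (hcen : ∀ w ∈ sgW, (z0 ++ w, w ++ z0) ∈ prs)
    (hsq : (z0 ++ z0, []) ∈ prs)
    (cj : List (List Nat)) (hcj : cjOK L z0 inv cj prs)
    (wodd : List Nat) (hodd : wodd.length % 2 = 1) (hwodd : wodd ∈ relW)
    (hr1 : 1 < r) (hr2 : r < n) (hd1 : ¬ r ∣ n) (hd2 : ¬ (n - r + 1) ∣ n) :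
    IsSimpleGroup (Grp edges extra) ∧ Nat.card (Grp edges extra) = N := by
  let lt := ltG edges extra dec
  obtain ⟨φ, hφ⟩ := exists_hom O (letterPerm C) (letterPerm_inv C) (letterPerm_rel C)
  have hφ' : ∀ y, y < L → ∀ a : Fin n, (((φ (lt y))⁻¹ a : Fin n) : Nat) = tp y a := by
    intro y hy a
    rw [hφ y hy]; exact letterPerm_inv_apply C y hy a
  obtain ⟨hcard, hinj, el, hel, heq⟩ := SGS.main S φ lt hφ' N hN hle
  have hwl : ∀ w : List Nat, (∀ y ∈ w, y < L) → wp el w = wp lt w := fun w hw =>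
    wp_congr el lt w (fun y hy => hel y (hw y hy))
  have htr0 := transitive C hn lt φ hφ
  have htr : ∀ b : Fin n, ∃ g : Grp edges extra, φ g ⟨0, hn⟩ = b := fun b => htr0 b.1 b.2
  -- the stabiliser of the point 0
  obtain ⟨St, hHSt, hStn, hSt⟩ := index_dvd C hn _ lt φ hφ rfl
  have hStH : St ≤ Subgroup.closure ((wp lt) '' {w | w ∈ sgW}) := by
    have h1 := Subgroup.relIndex_mul_index hHSt
    rw [hStn, hidx] at h1
    have h2 : (Subgroup.closure ((wp lt) '' {w | w ∈ sgW})).relIndex St = 1 := by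
      have : (Subgroup.closure ((wp lt) '' {w | w ∈ sgW})).relIndex St * n = 1 * n := by
        rw [h1, one_mul]
      exact Nat.eq_of_mul_eq_mul_right hn this
    exact Subgroup.relIndex_eq_one.mp h2
  have hI : ∀ y, y < L → lt (inv y) = (lt y)⁻¹ := ltG_inv O
  have hKSt : ∀ k, k < K → wp lt (nthD [] tw k) ∈ St := by
    intro k hk
    apply hHSt
    exact sgAll_mem _ lt inv L sgW hI C.sgL
      (fun w hw => Subgroup.subset_closure (Set.mem_image_of_mem _ hw)) _ (hK k hk)
  -- the central element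
  let a : Grp edges extra := wp el z0
  have ha : ∀ h : Grp edges extra, φ h ⟨0, hn⟩ = ⟨0, hn⟩ → h * a = a * h := by
    intro h hh
    have h1 : h ∈ Subgroup.closure ((wp lt) '' {w | w ∈ sgW}) := hStH ((hSt h).mpr hh)
    have h2 : Subgroup.closure ((wp lt) '' {w | w ∈ sgW}) ≤ Subgroup.centralizer {a} := by
      rw [Subgroup.closure_le]
      rintro _ ⟨w, hw, rfl⟩
      rw [SetLike.mem_coe, Subgroup.mem_centralizer_iff]
      intro x hx
      rw [Set.mem_singleton_iff] at hx
      subst hx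
      have h3 := heq _ (hcen w hw)
      have hwL' : ∀ y ∈ w, y < L := C.sgL w hw
      rw [wp_append, wp_append, hwl w hwL'] at h3
      exact h3
    have h4 := h2 h1
    rw [Subgroup.mem_centralizer_iff] at h4
    exact (h4 a rfl).symm
  -- primitivity
  have hcls : ∀ x : Fin n, ∀ c0 : Nat, c0 = 1 ∨ c0 = r →
      clsOf [1, r] c0 = clsOf [1, r] x.1 →
      ∃ h : Grp edges extra, φ h ⟨0, hn⟩ = ⟨0, hn⟩ ∧ ∃ hc0 : c0 < n, φ h ⟨c0, hc0⟩ = x := by
    intro x c0 hc0 hcl
    obtain ⟨r0, hr0, hr, hc, h, hh, e⟩ := reach C lt φ hφ St hKSt x.1 x.2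
    have : r0 = c0 := by
      rw [← hcl, clsOf_two, clsOf_two] at hc
      have hr' : r0 = 0 ∨ r0 = 1 ∨ r0 = r := by
        rcases hr with h0 | h0
        · exact Or.inl h0
        · simp only [List.mem_cons, List.mem_nil_iff, or_false] at h0
          exact Or.inr h0
      rcases hr' with h0 | h0 | h0 <;> rcases hc0 with h1 | h1 <;> split_ifs at hc <;> omega
    subst this
    exact ⟨h, (hSt h).mp hh, hr0, e⟩
  have hc1 : ∀ x y : Fin n, 1 ≤ x.1 → x.1 < r → 1 ≤ y.1 → y.1 < r →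
      ∃ h : Grp edges extra, φ h ⟨0, hn⟩ = ⟨0, hn⟩ ∧ φ h x = y := by
    intro x y hx1 hx2 hy1 hy2
    have e1 : clsOf [1, r] 1 = clsOf [1, r] x.1 := by
      rw [clsOf_two, clsOf_two]; split_ifs <;> omega
    have e2 : clsOf [1, r] 1 = clsOf [1, r] y.1 := by
      rw [clsOf_two, clsOf_two]; split_ifs <;> omega
    obtain ⟨h1, hh1, hc, ex⟩ := hcls x 1 (Or.inl rfl) e1
    obtain ⟨h2, hh2, _, ey⟩ := hcls y 1 (Or.inl rfl) e2
    refine ⟨h2 * h1⁻¹, ?_, ?_⟩
    · rw [pmul]
      have : φ h1⁻¹ ⟨0, hn⟩ = ⟨0, hn⟩ := by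
        conv_lhs => rw [← hh1]
        exact pinv1 φ h1 _
      rw [this, hh2]
    · rw [pmul, ← ex, pinv1, ey]
  have hc2 : ∀ x y : Fin n, r ≤ x.1 → r ≤ y.1 →
      ∃ h : Grp edges extra, φ h ⟨0, hn⟩ = ⟨0, hn⟩ ∧ φ h x = y := by
    intro x y hx1 hy1
    have e1 : clsOf [1, r] r = clsOf [1, r] x.1 := by
      rw [clsOf_two, clsOf_two]; split_ifs <;> omega
    have e2 : clsOf [1, r] r = clsOf [1, r] y.1 := by
      rw [clsOf_two, clsOf_two]; split_ifs <;> omega
    obtain ⟨h1, hh1, hc, ex⟩ := hcls x r (Or.inr rfl) e1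
    obtain ⟨h2, hh2, _, ey⟩ := hcls y r (Or.inr rfl) e2
    refine ⟨h2 * h1⁻¹, ?_, ?_⟩
    · rw [pmul]
      have : φ h1⁻¹ ⟨0, hn⟩ = ⟨0, hn⟩ := by
        conv_lhs => rw [← hh1]
        exact pinv1 φ h1 _
      rw [this, hh2]
    · rw [pmul, ← ex, pinv1, ey]
  have hprim := prim_rank3 hn φ htr r hr1 hr2 hc1 hc2 hd1 hd2
  -- conjugates
  have hconj : ∀ y, y < L → ∃ g : Grp edges extra, lt y = g * a * g⁻¹ := by
    intro y hy
    obtain ⟨h1, h3⟩ := hcj y hy
    have e1 := heq _ h1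
    have h4 : ∀ s ∈ invw inv (nthD [] cj y), s < L :=
      invw_letters inv L (fun z hz => (O.inv_ok z hz).1) _ h3
    rw [hwl [y] (by intro z hz; rw [List.mem_singleton.mp hz]; exact hy),
      wp_cons, wp_nil, mul_one, wp_append, wp_append, hwl _ h3, hwl _ h4,
      wp_invw lt inv L hI _ h3] at e1
    refine ⟨wp lt (nthD [] cj y), ?_⟩
    rw [e1, mul_assoc]
  have haa : a * a = 1 := by
    have e := heq _ hsq
    rw [wp_append, wp_nil] at e
    exact e
  have hrel : wp lt wodd = 1 := relG O wodd hwodd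
  have hwL : ∀ y ∈ wodd, y < L := O.rel_letters wodd hwodd
  have hperf := perfect_of_odd a haa lt L (genG O) hconj wodd hwL hodd hrel
  have hnt : Nontrivial (Grp edges extra) := by
    apply Finite.one_lt_card_iff_nontrivial.mp
    rw [hcard]; omega
  refine ⟨?_, hcard⟩
  exact simple_of_iwasawa hn φ hinj htr hprim a ha (lt '' {y | y < L}) (genG O)
    (by rintro x ⟨y, hy, rfl⟩; exact hconj y hy) hperf

end Cfsg.Agent.Lib.Helper28.FinalIwa
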