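import Mathlib
import Cfsg.Agent.Lib.Helper59.FxStmt

set_option autoImplicit false

universe u v

namespace Cfsg.Agent.Lib.Helper28.FxFROB

open Cfsg.Agent.Lib.Helper59.FxStmt
open scoped Pointwise

/-- an odd power of an element swapping two points swaps them -/
theorem pow_odd_swap {G : Type u} [Group G] {Ω : Type v} [MulAction G Ω] (g : G) (α β : Ω)
    (h1 : g • α = β) (h2 : g • β = α) (m : ℕ) (hm : Odd m) :
    g ^ m • α = β ∧ g ^ m • β = α := by
  obtain ⟨j, rfl⟩ := hm
  have hsq : ∀ i : ℕ, (g ^ (2 * i)) • α = α ∧ (g ^ (2 * i)) • β = β := by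
    intro i
    induction i with
    | zero => simp
    | succ i ih =>
      have e : g ^ (2 * (i + 1)) = g ^ (2 * i) * g * g := by
        rw [mul_add, pow_add]; simp [pow_two, mul_assoc]
      rw [e]
      constructor
      · rw [mul_smul, mul_smul, h1, h2]; exact ih.1
      · rw [mul_smul, mul_smul, h2, h1]; exact ih.2
  constructor
  · rw [pow_succ, mul_smul, h1]; exact (hsq j).2
  · rw [pow_succ, mul_smul, h2]; exact (hsq j).1

theorem main : Cfsg.Agent.Lib.Helper59.FxStmt.Frob.{u, v} := by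
  intro G _ _ Ω _ _ htr P α β s cfg hidx N hN hTN hPN
  classical
  have hfact : Fact (Nat.Prime 2) := ⟨Nat.prime_two⟩
  obtain ⟨f3, p2, hne, hs, hsα, hsβ, hTne, hTβ⟩ := cfg
  -- a nontrivial element of T
  obtain ⟨t, ht, ht1⟩ : ∃ t ∈ (P : Subgroup G) ⊓ MulAction.stabilizer G α, t ≠ 1 := by
    by_contra hcon
    apply hTne
    rw [Subgroup.eq_bot_iff_forall]
    intro x hx
    by_contra hx1
    exact hcon ⟨x, hx, hx1⟩
  have htα : t • α = α := MulAction.mem_stabilizer_iff.1 ht.2
  have htβ : t • β = β := by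
    have h : t ∈ (P : Subgroup G) ⊓ MulAction.stabilizer G β := by rw [hTβ]; exact ht
    exact MulAction.mem_stabilizer_iff.1 h.2
  have htN : t ∈ N := hTN ht
  -- elements of P fix both points or swap them
  have hPcases : ∀ x ∈ (P : Subgroup G),
      (x • α = α ∧ x • β = β) ∨ (x • α = β ∧ x • β = α) := by
    intro x hx
    by_cases hxT : x ∈ (P : Subgroup G) ⊓ MulAction.stabilizer G α
    · left
      refine ⟨MulAction.mem_stabilizer_iff.1 hxT.2, ?_⟩
      have h : x ∈ (P : Subgroup G) ⊓ MulAction.stabilizer G β := by rw [hTβ]; exact hxT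
      exact MulAction.mem_stabilizer_iff.1 h.2
    · right
      have hsT : s ∉ (P : Subgroup G) ⊓ MulAction.stabilizer G α := by
        intro h
        have h' := MulAction.mem_stabilizer_iff.1 h.2
        rw [hsα] at h'
        exact hne h'.symm
      have key : s⁻¹ * x ∈ (P : Subgroup G) ⊓ MulAction.stabilizer G α := by
        have hidx' : (((P : Subgroup G) ⊓ MulAction.stabilizer G α).subgroupOf
            (P : Subgroup G)).index = 2 := hidx
        have h := Subgroup.mul_mem_iff_of_index_two hidx'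
          (a := (⟨s⁻¹, inv_mem hs⟩ : (P : Subgroup G))) (b := ⟨x, hx⟩)
        simp only [Subgroup.mem_subgroupOf] at h
        apply h.2
        constructor
        · intro h'
          exact absurd (by simpa using inv_mem h') hsT
        · intro h'
          exact absurd h' hxT
      have hfix : (s⁻¹ * x) • α = α := MulAction.mem_stabilizer_iff.1 key.2
      have hfixβ : (s⁻¹ * x) • β = β := by
        have h : s⁻¹ * x ∈ (P : Subgroup G) ⊓ MulAction.stabilizer G β := by
          rw [hTβ]; exact key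
        exact MulAction.mem_stabilizer_iff.1 h.2
      have hx' : x = s * (s⁻¹ * x) := by group
      constructor
      · rw [hx', mul_smul, hfix, hsα]
      · rw [hx', mul_smul, hfixβ, hsβ]
  -- the set stabilizer of {α, β}
  obtain ⟨Y, hYmem, hYpt⟩ : ∃ Y : Subgroup G,
      (∀ x : G, ((x • α = α ∧ x • β = β) ∨ (x • α = β ∧ x • β = α)) → x ∈ Y) ∧
      (∀ y ∈ Y, y • α = α ∨ y • α = β) := by
    refine ⟨MulAction.stabilizer G ({α, β} : Set Ω), ?_, ?_⟩
    · intro x hx
      rw [MulAction.mem_stabilizer_iff]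
      rcases hx with ⟨h1, h2⟩ | ⟨h1, h2⟩
      · rw [Set.smul_set_insert, Set.smul_set_singleton, h1, h2]
      · rw [Set.smul_set_insert, Set.smul_set_singleton, h1, h2, Set.pair_comm]
    · intro y hy
      have h1 : y • α ∈ y • ({α, β} : Set Ω) := Set.smul_mem_smul_set (Set.mem_insert _ _)
      rw [MulAction.mem_stabilizer_iff.1 hy] at h1
      simpa using h1
  have hPY : (P : Subgroup G) ≤ Y := fun x hx => hYmem x (hPcases x hx)
  refine ⟨(MulAction.stabilizer G α ⊓ MulAction.stabilizer G β).subgroupOf N, ?_, ?_, ?_⟩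
  · -- nontrivial
    intro hbot
    have hmem : (⟨t, htN⟩ : N) ∈
        (MulAction.stabilizer G α ⊓ MulAction.stabilizer G β).subgroupOf N := by
      rw [Subgroup.mem_subgroupOf]
      exact ⟨MulAction.mem_stabilizer_iff.2 htα, MulAction.mem_stabilizer_iff.2 htβ⟩
    rw [hbot, Subgroup.mem_bot] at hmem
    exact ht1 (congrArg Subtype.val hmem)
  · -- proper
    intro htop
    have hNα : ∀ n ∈ N, n • α = α := by
      intro n hn
      have h : (⟨n, hn⟩ : N) ∈
          (MulAction.stabilizer G α ⊓ MulAction.stabilizer G β).subgroupOf N := by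
        rw [htop]; exact Subgroup.mem_top _
      rw [Subgroup.mem_subgroupOf] at h
      exact MulAction.mem_stabilizer_iff.1 h.1
    have hNtriv : ∀ n ∈ N, ∀ ω : Ω, n • ω = ω := by
      intro n hn ω
      obtain ⟨g, rfl⟩ := MulAction.exists_smul_eq G α ω
      have h1 : g⁻¹ * n * g ∈ N := by
        have h := hN.conj_mem n hn g⁻¹
        simpa using h
      have h2 := hNα _ h1
      calc n • g • α = g • (g⁻¹ * n * g) • α := by
            rw [← mul_smul, ← mul_smul]; congr 1; group
        _ = g • α := by rw [h2]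
    have h1 : t = 1 := by
      apply FaithfulSMul.eq_of_smul_eq_smul (α := Ω)
      intro ω
      rw [hNtriv t htN ω, one_smul]
    exact ht1 h1
  · -- Frobenius condition
    intro g hg
    rw [Subgroup.eq_bot_iff_forall]
    intro x hx
    by_contra hx1
    obtain ⟨hxH, hxg⟩ := Subgroup.mem_inf.1 hx
    rw [Subgroup.mem_subgroupOf] at hxH
    have hxα : (x : G) • α = α := MulAction.mem_stabilizer_iff.1 hxH.1
    have hxβ : (x : G) • β = β := MulAction.mem_stabilizer_iff.1 hxH.2
    obtain ⟨h, hh, hxe⟩ := (Subgroup.mem_smul_pointwise_iff_exists x (MulAut.conj g) _).1 hxg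
    rw [MulAut.smul_def, MulAut.conj_apply] at hxe
    rw [Subgroup.mem_subgroupOf] at hh
    have hhα : (h : G) • α = α := MulAction.mem_stabilizer_iff.1 hh.1
    have hhβ : (h : G) • β = β := MulAction.mem_stabilizer_iff.1 hh.2
    have hxG : (x : G) = (g : G) * (h : G) * (g : G)⁻¹ := by rw [← hxe]; simp
    have hxgα : (x : G) • ((g : G) • α) = (g : G) • α := by
      rw [hxG, ← mul_smul, inv_mul_cancel_right, mul_smul, hhα]
    have hxgβ : (x : G) • ((g : G) • β) = (g : G) • β := by
      rw [hxG, ← mul_smul, inv_mul_cancel_right, mul_smul, hhβ]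
    have hxne : (x : G) ≠ 1 := fun h => hx1 (Subtype.ext h)
    have hgα : (g : G) • α = α ∨ (g : G) • α = β := by
      rcases f3 (x : G) hxne α β ((g : G) • α) hxα hxβ hxgα with h | h | h
      · exact absurd h hne
      · left; exact h.symm
      · right; exact h.symm
    have hgβ : (g : G) • β = α ∨ (g : G) • β = β := by
      rcases f3 (x : G) hxne α β ((g : G) • β) hxα hxβ hxgβ with h | h | h
      · exact absurd h hne
      · left; exact h.symm
      · right; exact h.symm
    have hginj : (g : G) • α ≠ (g : G) • β := fun h => hne (MulAction.injective (g : G) h)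
    have hgnot : ¬ ((g : G) • α = α ∧ (g : G) • β = β) := by
      intro h
      apply hg
      rw [Subgroup.mem_subgroupOf]
      exact ⟨MulAction.mem_stabilizer_iff.2 h.1, MulAction.mem_stabilizer_iff.2 h.2⟩
    have hswap : (g : G) • α = β ∧ (g : G) • β = α := by
      rcases hgα with h1 | h1
      · rcases hgβ with h2 | h2
        · exact absurd (h1.trans h2.symm) hginj
        · exact absurd ⟨h1, h2⟩ hgnot
      · rcases hgβ with h2 | h2
        · exact ⟨h1, h2⟩
        · exact absurd (h1.trans h2.symm) hginj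
    -- the 2-part of g
    have ho : orderOf (g : G) ≠ 0 := (orderOf_pos (g : G)).ne'
    obtain ⟨k, m, hm, hkm⟩ := Nat.exists_eq_two_pow_mul_odd ho
    have hg2 := pow_odd_swap (g : G) α β hswap.1 hswap.2 m hm
    have hg2N : (g : G) ^ m ∈ N := pow_mem g.2 m
    have hg2Y : (g : G) ^ m ∈ Y := hYmem _ (Or.inr hg2)
    have hg2pow : ((g : G) ^ m) ^ (2 ^ k) = 1 := by
      rw [← pow_mul, mul_comm, ← hkm, pow_orderOf_eq_one]
    -- Sylow's theorem in Y
    have hzpow : (⟨(g : G) ^ m, hg2Y⟩ : Y) ^ (2 ^ k) = 1 := Subtype.ext (by simpa using hg2pow)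
    have hZ : IsPGroup 2 (Subgroup.zpowers (⟨(g : G) ^ m, hg2Y⟩ : Y)) := by
      intro ⟨w, hw⟩
      obtain ⟨i, rfl⟩ := Subgroup.mem_zpowers_iff.1 hw
      refine ⟨k, ?_⟩
      apply Subtype.ext
      simp only [Subgroup.coe_pow, Subgroup.coe_one]
      rw [← zpow_natCast, ← zpow_mul, mul_comm, zpow_mul, zpow_natCast, hzpow, one_zpow]
    obtain ⟨Q', hQ'⟩ := hZ.exists_le_sylow
    obtain ⟨y, hy⟩ := MulAction.exists_smul_eq Y Q' (P.subtype hPY)
    have hzQ' : (⟨(g : G) ^ m, hg2Y⟩ : Y) ∈ (Q' : Subgroup Y) := hQ' (Subgroup.mem_zpowers _)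
    have hconj : y * (⟨(g : G) ^ m, hg2Y⟩ : Y) * y⁻¹ ∈ ((P.subtype hPY : Sylow 2 Y) : Subgroup Y) := by
      rw [← hy, Sylow.coe_subgroup_smul]
      have h := Subgroup.smul_mem_pointwise_smul _ (MulAut.conj y) (Q' : Subgroup Y) hzQ'
      simpa [MulAut.smul_def] using h
    have hconjP : (y : G) * (g : G) ^ m * (y : G)⁻¹ ∈ (P : Subgroup G) := by
      rw [Sylow.coe_subtype, Subgroup.mem_subgroupOf] at hconj
      simpa using hconj
    have hconjN : (y : G) * (g : G) ^ m * (y : G)⁻¹ ∈ N := hN.conj_mem _ hg2N _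
    have hfix := MulAction.mem_stabilizer_iff.1 (hPN _ hconjP hconjN)
    have hyinv : (y : G)⁻¹ ∈ Y := inv_mem y.2
    have h3 : ((g : G) ^ m) • ((y : G)⁻¹ • α) = (y : G)⁻¹ • α := by
      have e : (y : G)⁻¹ • (((y : G) * (g : G) ^ m * (y : G)⁻¹) • α) = (y : G)⁻¹ • α := by
        rw [hfix]
      rw [← mul_smul, ← mul_assoc, ← mul_assoc, inv_mul_cancel, one_mul, mul_smul] at e
      exact e
    rcases hYpt _ hyinv with h4 | h4
    · rw [h4, hg2.1] at h3; exact hne h3.symm
    · rw [h4, hg2.2] at h3; exact hne h3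

end Cfsg.Agent.Lib.Helper28.FxFROB
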