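import Mathlib
import Cfsg.Agent.Lib.Helper40.GFStmt

set_option autoImplicit false

universe u

namespace Cfsg.Agent.Lib.Helper28.GFDETSURJ

open Cfsg.Agent.Lib.Helper40.GFStmt

theorem main : DetSurj.{u} := by
  intro F L _ _ _ _ k hk s hs
  obtain ⟨a, ha⟩ := FiniteField.norm_surjective F L s
  have ha0 : a ≠ 0 := by
    rintro rfl
    rw [Algebra.norm_zero] at ha
    exact hs ha.symm
  let i0 : Fin k := ⟨0, hk⟩
  let φ : Module.Dual L (V k L) := (a - 1) • (LinearMap.proj i0 : V k L →ₗ[L] L)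
  let w : V k L := Pi.single i0 1
  have hφw : 1 + φ w = a := by
    simp [φ, w]
  have hunit : IsUnit (1 + φ w) := by
    rw [hφw]
    exact isUnit_iff_ne_zero.mpr ha0
  refine ⟨LinearEquiv.dilatransvection hunit, ?_⟩
  have hcoe : ((LinearEquiv.dilatransvection hunit).restrictScalars F : V k L →ₗ[F] V k L)
      = ((LinearEquiv.dilatransvection hunit : V k L ≃ₗ[L] V k L) : V k L →ₗ[L] V k L).restrictScalars F := rfl
  rw [hcoe, LinearMap.det_restrictScalars, LinearEquiv.dilatransvection.coe_toLinearMap,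
    LinearMap.transvection.det, hφw, ha]

end Cfsg.Agent.Lib.Helper28.GFDETSURJ
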