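import Mathlib
import Cfsg.Agent.Lib.Helper40.GFStmt

set_option autoImplicit false

universe u

namespace Cfsg.Agent.Lib.Helper28.GFSPAN

open Cfsg.Agent.Lib.Helper40.GFStmt

theorem arith (q r : ℕ) (hq : 2 ≤ q) (hr : 2 ≤ r) : ¬ (q ^ r - 1 ∣ (q - 1) * (q - 1)) := by
  intro hdvd
  have hpos : 0 < (q - 1) * (q - 1) := Nat.mul_pos (by omega) (by omega)
  have hle := Nat.le_of_dvd hpos hdvd
  have hqr : q ^ 2 ≤ q ^ r := Nat.pow_le_pow_right (by omega) hr
  obtain ⟨q', rfl⟩ : ∃ q', q = q' + 2 := ⟨q - 2, by omega⟩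
  have e1 : q' + 2 - 1 = q' + 1 := by omega
  rw [e1] at hle
  have h3 : (q' + 2) ^ 2 ≤ (q' + 1) * (q' + 1) + 1 := by omega
  nlinarith

theorem main : SpanNorm.{u} := by
  intro F L _ _ _ _ hr
  classical
  have hSM : {d : L | Algebra.norm F d = 1} = ((MonoidHom.mker (Algebra.norm F) : Submonoid L) : Set L) := by
    ext d
    simp [MonoidHom.mem_mker]
  have h1 : Submodule.span F {d : L | Algebra.norm F d = 1}
      = Subalgebra.toSubmodule (Algebra.adjoin F {d : L | Algebra.norm F d = 1}) := by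
    rw [Algebra.adjoin_eq_span, hSM, Submonoid.closure_eq]
  rw [h1]
  haveI : IsSimpleOrder (Subalgebra F L) := Subalgebra.isSimpleOrder_of_finrank_prime F L hr
  rcases eq_bot_or_eq_top (Algebra.adjoin F {d : L | Algebra.norm F d = 1}) with hbot | htop
  · exfalso
    haveI : Finite F := Finite.of_injective (algebraMap F L) (algebraMap F L).injective
    haveI : Fintype F := Fintype.ofFinite F
    obtain ⟨g, hg⟩ := IsCyclic.exists_generator (α := Lˣ)
    have hord : orderOf g = Nat.card Lˣ := orderOf_eq_card_of_forall_mem_zpowers hg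
    have hcardL : Nat.card L = Nat.card F ^ Module.finrank F L :=
      Module.natCard_eq_pow_finrank (K := F) (V := L)
    have hq : 2 ≤ Nat.card F := Finite.one_lt_card
    have hr2 : 2 ≤ Module.finrank F L := hr.two_le
    have hng : Algebra.norm F (g : L) ≠ 0 := by
      rw [Ne, Algebra.norm_eq_zero_iff]
      exact g.ne_zero
    have hn1 : Algebra.norm F ((g : L) ^ (Nat.card F - 1)) = 1 := by
      rw [map_pow]
      have h := FiniteField.pow_card_sub_one_eq_one (Algebra.norm F (g : L)) hng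
      rwa [← Nat.card_eq_fintype_card] at h
    have hmem : (g : L) ^ (Nat.card F - 1) ∈ Algebra.adjoin F {d : L | Algebra.norm F d = 1} :=
      Algebra.subset_adjoin hn1
    rw [hbot, Algebra.mem_bot] at hmem
    obtain ⟨c, hc⟩ := hmem
    have hc0 : c ≠ 0 := by
      rintro rfl
      rw [map_zero] at hc
      exact (pow_ne_zero _ g.ne_zero) hc.symm
    have hc1 : c ^ (Nat.card F - 1) = 1 := by
      have h := FiniteField.pow_card_sub_one_eq_one c hc0
      rwa [← Nat.card_eq_fintype_card] at h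
    have hg1 : (g : L) ^ ((Nat.card F - 1) * (Nat.card F - 1)) = 1 := by
      rw [pow_mul, ← hc, ← map_pow, hc1, map_one]
    have hg2 : g ^ ((Nat.card F - 1) * (Nat.card F - 1)) = 1 := by
      apply Units.ext
      rw [Units.val_pow_eq_pow_val, hg1, Units.val_one]
    have hdvd : orderOf g ∣ (Nat.card F - 1) * (Nat.card F - 1) := orderOf_dvd_of_pow_eq_one hg2
    rw [hord, Nat.card_units, hcardL] at hdvd
    exact arith _ _ hq hr2 hdvd
  · rw [htop, Algebra.top_toSubmodule]

end Cfsg.Agent.Lib.Helper28.GFSPAN
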