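import Cfsg.Agent.Lib.Helper28.TCMain
import Cfsg.Agent.Lib.Helper28.PresHea
import Cfsg.Agent.Lib.Helper28.THeaUC0
import Cfsg.Agent.Lib.Helper28.THeaLC0

set_option autoImplicit false

namespace Cfsg.Agent.Lib.Helper28.THeaX

open Cfsg.Spor Cfsg.Agent.Lib.Helper28.TCKernel Cfsg.Agent.Lib.Helper28.TCSound Cfsg.Agent.Lib.Helper28.TCPerm Cfsg.Agent.Lib.Helper28.TCPres Cfsg.Agent.Lib.Helper28.TCMain

/-- the subgroup generators -/
def sgSrc : List (FreeGroup Hea.Gen) := [Hea.a, Hea.b, Hea.c]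

theorem chunkU : ∀ k, k < 1 → allTree THeaUT.chkName 9 (k * 2 ^ 9) = true
  | 0, _ => THeaUC0.chk
  | (k + 1), h => absurd h (by omega)

theorem chkU (v : Nat) : THeaUT.chkName v = true := by
  rcases Nat.lt_or_ge v (2 ^ 9) with h | h
  · exact allTree_chunks THeaUT.chkName 9 1 chunkU v h
  · exact chk_of_zero _ _ _ _ _ _ _ _ _ _ _ _ _ _ v
      (fun y => fld3_eq_zero _ _ _ _ _ _ _ _ y v 1 (by decide)
        (le_trans (by decide : 1 * 2 ^ (8 + 1) ≤ 2 ^ 9) h))
      (fld1_eq_zero _ _ _ _ _ _ _ _ v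
        (le_trans (by decide : THeaUT.dtop.length * 2 ^ (8 + 1) ≤ 2 ^ 9) h))
      (le_trans (by decide : 316 ≤ 2 ^ 9) h)

theorem chunkL : ∀ k, k < 1 → allTree THeaLT.chkPoint 9 (k * 2 ^ 9) = true
  | 0, _ => THeaLC0.chk
  | (k + 1), h => absurd h (by omega)

theorem chkL (a : Nat) (ha : a < 315) : THeaLT.chkPoint a = true :=
  allTree_chunks THeaLT.chkPoint 9 1 chunkL a (lt_of_lt_of_le ha (by decide))

theorem permOK : PermChecks 315 THeaLT.tp PresHea.inv THeaLT.pa THeaLT.pl PresHea.relW THeaLT.sgW THeaLT.tw 6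
    THeaLT.roots 5 where
  point := fun a ha => chkL a ha
  invL := by decide +kernel
  wsL := by decide +kernel
  sgL := by decide +kernel
  twL := by decide +kernel
  root1 := by decide +kernel
  rootpos := by decide +kernel

/-- index and orbit structure of the subgroup -/
theorem final :
    ((Subgroup.closure {s | s ∈ sgSrc}).map (PresentedGroup.mk (coxRelators Hea.edges ∪ {r | r ∈ Hea.extra}))).index = 315 ∧
    ∃ ψ : (PresentedGroup (coxRelators Hea.edges ∪ {r | r ∈ Hea.extra})) ⧸ ((Subgroup.closure {s | s ∈ sgSrc}).map (PresentedGroup.mk (coxRelators Hea.edges ∪ {r | r ∈ Hea.extra}))) → Fin 315,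
      Function.Injective ψ ∧
      ∀ r, r < 315 → (∀ r' ∈ (0 :: THeaLT.roots), clsOf THeaLT.roots r' = clsOf THeaLT.roots r → r' = r) →
        ∃ q, ψ '' (MulAction.orbit ((Subgroup.closure {s | s ∈ sgSrc}).map (PresentedGroup.mk (coxRelators Hea.edges ∪ {r | r ∈ Hea.extra}))) q) = {b : Fin 315 | clsOf THeaLT.roots b.1 = clsOf THeaLT.roots r} :=
  main PresHea.ok {s | s ∈ sgSrc} sgSrc rfl THeaLT.sgW (by decide +kernel)
    316 315 9 1 2047 THeaUT.tgt THeaUT.sig THeaUT.crt THeaUT.hnt THeaUT.dsig THeaUT.mu THeaUT.dcrt THeaUT.dst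
    THeaUT.par THeaUT.plet THeaUT.certs THeaUT.hints (by decide +kernel)
    (fun y v => fld3_le _ _ _ _ _ _ _ _ y v) (fun v => fld1_le _ _ _ _ _ _ _ _ v) chkU
    (by decide +kernel) (by decide) THeaUC0.cnt
    THeaLT.tp THeaLT.pa THeaLT.pl THeaLT.tw 6 THeaLT.roots permOK (by decide) (by decide +kernel)

end Cfsg.Agent.Lib.Helper28.THeaX
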