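import Cfsg.Agent.Lib.Helper28.TCMain
import Cfsg.Agent.Lib.Helper28.PresHeb
import Cfsg.Agent.Lib.Helper28.THebUC0
import Cfsg.Agent.Lib.Helper28.THebLC0

set_option autoImplicit false

namespace Cfsg.Agent.Lib.Helper28.THebX

open Cfsg.Spor Cfsg.Agent.Lib.Helper28.TCKernel Cfsg.Agent.Lib.Helper28.TCSound Cfsg.Agent.Lib.Helper28.TCPerm Cfsg.Agent.Lib.Helper28.TCPres Cfsg.Agent.Lib.Helper28.TCMain

/-- the subgroup generators -/
def sgSrc : List (FreeGroup Heb.Gen) := [Heb.a, Heb.b]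

theorem chunkU : ∀ k, k < 1 → allTree THebUT.chkName 3 (k * 2 ^ 3) = true
  | 0, _ => THebUC0.chk
  | (k + 1), h => absurd h (by omega)

theorem chkU (v : Nat) : THebUT.chkName v = true := by
  rcases Nat.lt_or_ge v (2 ^ 3) with h | h
  · exact allTree_chunks THebUT.chkName 3 1 chunkU v h
  · exact chk_of_zero _ _ _ _ _ _ _ _ _ _ _ _ _ _ v
      (fun y => fld3_eq_zero _ _ _ _ _ _ _ _ y v 1 (by decide)
        (le_trans (by decide : 1 * 2 ^ (3 + 0) ≤ 2 ^ 3) h))
      (fld1_eq_zero _ _ _ _ _ _ _ _ v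
        (le_trans (by decide : THebUT.dtop.length * 2 ^ (3 + 0) ≤ 2 ^ 3) h))
      (le_trans (by decide : 6 ≤ 2 ^ 3) h)

theorem chunkL : ∀ k, k < 1 → allTree THebLT.chkPoint 3 (k * 2 ^ 3) = true
  | 0, _ => THebLC0.chk
  | (k + 1), h => absurd h (by omega)

theorem chkL (a : Nat) (ha : a < 6) : THebLT.chkPoint a = true :=
  allTree_chunks THebLT.chkPoint 3 1 chunkL a (lt_of_lt_of_le ha (by decide))

theorem permOK : PermChecks 6 THebLT.tp PresHeb.inv THebLT.pa THebLT.pl PresHeb.relW THebLT.sgW THebLT.tw 4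
    THebLT.roots 3 where
  point := fun a ha => chkL a ha
  invL := by decide +kernel
  wsL := by decide +kernel
  sgL := by decide +kernel
  twL := by decide +kernel
  root1 := by decide +kernel
  rootpos := by decide +kernel

/-- index and orbit structure of the subgroup -/
theorem final :
    ((Subgroup.closure {s | s ∈ sgSrc}).map (PresentedGroup.mk (coxRelators Heb.edges ∪ {r | r ∈ Heb.extra}))).index = 6 ∧
    ∃ ψ : (PresentedGroup (coxRelators Heb.edges ∪ {r | r ∈ Heb.extra})) ⧸ ((Subgroup.closure {s | s ∈ sgSrc}).map (PresentedGroup.mk (coxRelators Heb.edges ∪ {r | r ∈ Heb.extra}))) → Fin 6,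
      Function.Injective ψ ∧
      ∀ r, r < 6 → (∀ r' ∈ (0 :: THebLT.roots), clsOf THebLT.roots r' = clsOf THebLT.roots r → r' = r) →
        ∃ q, ψ '' (MulAction.orbit ((Subgroup.closure {s | s ∈ sgSrc}).map (PresentedGroup.mk (coxRelators Heb.edges ∪ {r | r ∈ Heb.extra}))) q) = {b : Fin 6 | clsOf THebLT.roots b.1 = clsOf THebLT.roots r} :=
  main PresHeb.ok {s | s ∈ sgSrc} sgSrc rfl THebLT.sgW (by decide +kernel)
    6 6 3 0 31 THebUT.tgt THebUT.sig THebUT.crt THebUT.hnt THebUT.dsig THebUT.mu THebUT.dcrt THebUT.dst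
    THebUT.par THebUT.plet THebUT.certs THebUT.hints (by decide +kernel)
    (fun y v => fld3_le _ _ _ _ _ _ _ _ y v) (fun v => fld1_le _ _ _ _ _ _ _ _ v) chkU
    (by decide +kernel) (by decide) THebUC0.cnt
    THebLT.tp THebLT.pa THebLT.pl THebLT.tw 4 THebLT.roots permOK (by decide) (by decide +kernel)

end Cfsg.Agent.Lib.Helper28.THebX
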