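import Cfsg.Agent.Lib.Helper28.TCPres
import Cfsg.Agent.Lib.Helper28.DefHec

set_option autoImplicit false

namespace Cfsg.Agent.Lib.Helper28.PresHec

open Cfsg.Spor Cfsg.Agent.Lib.Helper28.TCKernel Cfsg.Agent.Lib.Helper28.TCPres

/-- letter of a generator or of its inverse -/
def code : Hec.Gen × Bool → Nat
  | (.a, _) => 0
  | (.b, _) => 1
def decl : List (Hec.Gen × Bool) := [(.a, true), (.b, true)]
/-- generator and sign of a letter -/
def dec (y : Nat) : Hec.Gen × Bool := decl.getD y (.a, true)
def invL : List Nat := [0, 1]
def inv : Nat → Nat := nthD 0 invL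
def gens : List Hec.Gen := [.a, .b]
def pairs : List (Hec.Gen × Hec.Gen) := [(.a, .b)]
def relW : List (List Nat) := [[0, 1, 0, 1, 0, 1, 0, 1]]
theorem ok : PresOK Hec.edges Hec.extra code dec inv 2 gens pairs relW where
  gens_all := by intro x; cases x <;> decide
  code_true := by decide +kernel
  code_false := by decide +kernel
  dec_code := by decide +kernel
  inv_ok := by decide +kernel
  node_inv := by decide +kernel
  pairs_nodes := by decide +kernel
  pairs_all := by decide +kernel
  label_symm := by decide +kernel
  rel_words := by decide +kernel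
  rel_letters := by decide +kernel

end Cfsg.Agent.Lib.Helper28.PresHec
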