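import Cfsg.Agent.Lib.Helper28.THecLT
import Cfsg.Agent.Lib.Helper28.TCJoin

set_option autoImplicit false
set_option Elab.async false

namespace Cfsg.Agent.Lib.Helper28.THecLC0

open Cfsg.Agent.Lib.Helper28.TCKernel Cfsg.Agent.Lib.Helper28.TCJoin Cfsg.Agent.Lib.Helper28.THecLT

theorem chk0 : allTree chkPoint 0 0 = true := by decide +kernel
theorem chk1 : allTree chkPoint 0 1 = true := by decide +kernel
theorem chk2 : allTree chkPoint 0 2 = true := by decide +kernel
theorem chk3 : allTree chkPoint 0 3 = true := by decide +kernel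
theorem chk : allTree chkPoint 2 0 = true :=
  (join chkPoint 1 0 (join chkPoint 0 0 chk0 chk1) (join chkPoint 0 2 chk2 chk3))

end Cfsg.Agent.Lib.Helper28.THecLC0
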