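import Cfsg.Agent.Lib.Helper28.THecUT
import Cfsg.Agent.Lib.Helper28.TCJoin

set_option autoImplicit false
set_option Elab.async false

namespace Cfsg.Agent.Lib.Helper28.THecUC0

open Cfsg.Agent.Lib.Helper28.TCKernel Cfsg.Agent.Lib.Helper28.TCJoin Cfsg.Agent.Lib.Helper28.THecUT

theorem chk0 : allTree chkName 0 0 = true := by decide +kernel
theorem chk1 : allTree chkName 0 1 = true := by decide +kernel
theorem chk2 : allTree chkName 0 2 = true := by decide +kernel
theorem chk3 : allTree chkName 0 3 = true := by decide +kernel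
theorem chk : allTree chkName 2 0 = true :=
  (join chkName 1 0 (join chkName 0 0 chk0 chk1) (join chkName 0 2 chk2 chk3))
theorem cnt : cntTree (aliveB dsig 4) 2 0 = 4 := by decide +kernel

end Cfsg.Agent.Lib.Helper28.THecUC0
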