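import Cfsg.Agent.Lib.Helper28.TCMain
import Cfsg.Agent.Lib.Helper28.PresHec
import Cfsg.Agent.Lib.Helper28.THecUC0
import Cfsg.Agent.Lib.Helper28.THecLC0

set_option autoImplicit false

namespace Cfsg.Agent.Lib.Helper28.THecX

open Cfsg.Spor Cfsg.Agent.Lib.Helper28.TCKernel Cfsg.Agent.Lib.Helper28.TCSound Cfsg.Agent.Lib.Helper28.TCPerm Cfsg.Agent.Lib.Helper28.TCPres Cfsg.Agent.Lib.Helper28.TCMain

/-- the subgroup generators -/
def sgSrc : List (FreeGroup Hec.Gen) := [Hec.a]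

theorem chunkU : ∀ k, k < 1 → allTree THecUT.chkName 2 (k * 2 ^ 2) = true
  | 0, _ => THecUC0.chk
  | (k + 1), h => absurd h (by omega)

theorem chkU (v : Nat) : THecUT.chkName v = true := by
  rcases Nat.lt_or_ge v (2 ^ 2) with h | h
  · exact allTree_chunks THecUT.chkName 2 1 chunkU v h
  · exact chk_of_zero _ _ _ _ _ _ _ _ _ _ _ _ _ _ v
      (fun y => fld3_eq_zero _ _ _ _ _ _ _ _ y v 1 (by decide)
        (le_trans (by decide : 1 * 2 ^ (2 + 0) ≤ 2 ^ 2) h))
      (fld1_eq_zero _ _ _ _ _ _ _ _ v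
        (le_trans (by decide : THecUT.dtop.length * 2 ^ (2 + 0) ≤ 2 ^ 2) h))
      (le_trans (by decide : 4 ≤ 2 ^ 2) h)

theorem chunkL : ∀ k, k < 1 → allTree THecLT.chkPoint 2 (k * 2 ^ 2) = true
  | 0, _ => THecLC0.chk
  | (k + 1), h => absurd h (by omega)

theorem chkL (a : Nat) (ha : a < 4) : THecLT.chkPoint a = true :=
  allTree_chunks THecLT.chkPoint 2 1 chunkL a (lt_of_lt_of_le ha (by decide))

theorem permOK : PermChecks 4 THecLT.tp PresHec.inv THecLT.pa THecLT.pl PresHec.relW THecLT.sgW THecLT.tw 2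
    THecLT.roots 2 where
  point := fun a ha => chkL a ha
  invL := by decide +kernel
  wsL := by decide +kernel
  sgL := by decide +kernel
  twL := by decide +kernel
  root1 := by decide +kernel
  rootpos := by decide +kernel

/-- index and orbit structure of the subgroup -/
theorem final :
    ((Subgroup.closure {s | s ∈ sgSrc}).map (PresentedGroup.mk (coxRelators Hec.edges ∪ {r | r ∈ Hec.extra}))).index = 4 ∧
    ∃ ψ : (PresentedGroup (coxRelators Hec.edges ∪ {r | r ∈ Hec.extra})) ⧸ ((Subgroup.closure {s | s ∈ sgSrc}).map (PresentedGroup.mk (coxRelators Hec.edges ∪ {r | r ∈ Hec.extra}))) → Fin 4,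
      Function.Injective ψ ∧
      ∀ r, r < 4 → (∀ r' ∈ (0 :: THecLT.roots), clsOf THecLT.roots r' = clsOf THecLT.roots r → r' = r) →
        ∃ q, ψ '' (MulAction.orbit ((Subgroup.closure {s | s ∈ sgSrc}).map (PresentedGroup.mk (coxRelators Hec.edges ∪ {r | r ∈ Hec.extra}))) q) = {b : Fin 4 | clsOf THecLT.roots b.1 = clsOf THecLT.roots r} :=
  main PresHec.ok {s | s ∈ sgSrc} sgSrc rfl THecLT.sgW (by decide +kernel)
    4 4 2 0 15 THecUT.tgt THecUT.sig THecUT.crt THecUT.hnt THecUT.dsig THecUT.mu THecUT.dcrt THecUT.dst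
    THecUT.par THecUT.plet THecUT.certs THecUT.hints (by decide +kernel)
    (fun y v => fld3_le _ _ _ _ _ _ _ _ y v) (fun v => fld1_le _ _ _ _ _ _ _ _ v) chkU
    (by decide +kernel) (by decide) THecUC0.cnt
    THecLT.tp THecLT.pa THecLT.pl THecLT.tw 2 THecLT.roots permOK (by decide) (by decide +kernel)

end Cfsg.Agent.Lib.Helper28.THecX
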