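import Cfsg.Agent.Lib.Helper28.ChainStep
import Cfsg.Agent.Lib.Helper28.TCMainLe
import Cfsg.Agent.Lib.Helper28.THeTX
import Cfsg.Agent.Lib.Helper28.THeaX
import Cfsg.Agent.Lib.Helper28.THebX
import Cfsg.Agent.Lib.Helper28.THecX

/-!
The presented Held group has order at most 4030387200: the chain
He > <a,b,c,d,e> > <a,b,c> > <a,b> > <a> with indices at most 266560, 315, 6, 4 found by
coset enumeration in the groups presented by the relators involving only the generators of
the subgroups.
-/

set_option autoImplicit false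

namespace Cfsg.Agent.Lib.Helper28.HeBound

open Cfsg.Spor Cfsg.Agent.Lib.Helper28.TCKernel Cfsg.Agent.Lib.Helper28.TCSound
open Cfsg.Agent.Lib.Helper28.TCPres Cfsg.Agent.Lib.Helper28.ChainStep
open Cfsg.Agent.Lib.Helper28.TCMainLe

theorem c_bound : Finite (Grp Hec.edges Hec.extra) ∧
    Nat.card (Grp Hec.edges Hec.extra) ≤ 4 * 2 := by
  have h := THecX.final.1
  have e : THecX.sgSrc = [FreeGroup.of Hec.Gen.a] := rfl
  rw [e, map_single] at h
  exact chain_bottom _ 4 h (by decide) _
    (invol_G Hec.edges Hec.extra Hec.Gen.a (by decide)) rfl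

theorem b_bound : Finite (Grp Heb.edges Heb.extra) ∧
    Nat.card (Grp Heb.edges Heb.extra) ≤ 6 * (4 * 2) := by
  obtain ⟨F, hF⟩ := Hec.hom
  exact chain_step _ 6 _ THebX.final.1 (by decide) F hF c_bound

theorem a_bound : Finite (Grp Hea.edges Hea.extra) ∧
    Nat.card (Grp Hea.edges Hea.extra) ≤ 315 * (6 * (4 * 2)) := by
  obtain ⟨F, hF⟩ := Heb.hom
  exact chain_step _ 315 _ THeaX.final.1 (by decide) F hF b_bound

theorem bound : Finite (Grp He.edges He.extra) ∧
    Nat.card (Grp He.edges He.extra) ≤ 4030387200 := by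
  obtain ⟨F, hF⟩ := Hea.hom
  have h := chain_step_le _ 266560 _ THeTX.final_le F hF a_bound
  exact ⟨h.1, le_trans h.2 (by decide)⟩

end Cfsg.Agent.Lib.Helper28.HeBound
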