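import Mathlib

set_option autoImplicit false

namespace Cfsg.Agent.Lib.Helper28.HeData

def aW : List Nat := [0]
def vW : List Nat := [2, 3, 2, 3, 2, 5, 3, 2, 3, 2, 5, 3, 2, 3, 5]
def tws : List (List Nat) := [aW, vW]
def els : List (List Nat) := [aW, vW, aW ++ vW]
def drv : List (Nat × List Nat × List Nat) := [(1, [2, 3, 5, 2, 3, 2, 3, 5, 3, 2, 3, 2, 1, 1, 2, 3, 4, 5, 3, 2, 1, 3, 2, 3, 4, 2, 3, 1, 2, 3, 5, 4, 3, 2, 1], [0]),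
  (2, [3, 5, 1, 2, 3, 2, 3, 5, 3, 2, 3, 2, 1, 1, 2, 3, 4, 5, 3, 2, 1, 3, 2, 3, 4, 2, 3, 1, 2, 3, 5, 4, 3, 2, 1], [0]),
  (4, [], [0, 1, 2, 0, 1, 2, 0, 1, 2]),
  (3, [4, 3], [4]),
  (5, [3, 5], [3]),
  (6, [3, 6], [3])]
def pcerts : List (List (List Nat × Nat)) := [[],
  [([1], 3), ([1], 24), ([1], 27), ([1], 150), ([1], 205)],
  [([1, 2, 3, 2, 1], 723), ([1, 2, 3, 2, 1], 760), ([1, 2, 3, 2, 1], 804), ([1, 2, 3, 2, 1], 861), ([1, 2, 3, 2, 1], 974)],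
  [([1, 2, 3, 2, 5, 3, 2, 1], 2065), ([1, 2, 3, 2, 1], 2067), ([1, 2, 3, 2, 1], 2068), ([1, 2, 3, 2, 1], 2069), ([1, 2, 3, 2, 1], 2100)],
  [([1, 2, 3, 4, 5, 3, 2, 1], 6545), ([1, 2, 3, 4, 5, 3, 2, 1], 6546), ([1, 2, 3, 2, 1], 6545), ([1, 2, 3, 2, 1], 6550), ([1, 2, 3, 2, 1], 7524)],
  [([1, 2, 3, 5, 6, 3, 2, 1], 6650), ([1], 6651), ([1], 6655), ([1], 6664), ([1], 6776)],
  [([1, 2, 3, 6, 5, 3, 2, 1], 7490), ([1, 2, 3, 2, 5, 3, 2, 1], 7490), ([1, 2, 3, 2, 1], 7490), ([1, 2, 3, 2, 1], 7524), ([1], 7678)]]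
def wss : List (List (List Nat)) := [[[1, 2, 1, 2, 1, 2], [4, 6, 5, 6, 5], [4, 2, 1, 0, 2, 1, 0, 2, 1, 0]],
  [[3, 4, 3, 4, 3, 4], [4, 2, 1, 0, 2, 1, 0, 2, 1, 0], [0, 3, 2, 3, 2, 3, 2, 3, 2, 3, 2]],
  [[1, 2, 1, 2, 1, 2], [3, 4, 3, 4, 3, 4], [4, 2, 1, 0, 2, 1, 0, 2, 1, 0], [0, 3, 2, 3, 2, 3, 2, 3, 2, 3, 2]],
  [[3, 4, 3, 4, 3, 4], [4, 6, 5, 6, 5]],
  [[4, 6, 5, 6, 5]],
  [[3, 4, 3, 4, 3, 4], [3, 5, 3, 5, 3, 5], [4, 6, 5, 6, 5]],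
  [[3, 4, 3, 4, 3, 4], [3, 6, 3, 6, 3, 6], [4, 6, 5, 6, 5]]]
def ds : List (List Nat) := [[0, 1, 1, 1, 2, 2, 2, 4, 5, 6],
  [0, 0, 1, 2, 2, 2, 2, 3, 3, 3, 3, 4, 4],
  [0, 0, 1, 1, 1, 2, 2, 2, 2, 2, 3, 3, 3, 3, 4, 4],
  [3, 4, 4, 5, 6],
  [5, 6],
  [3, 3, 3, 4, 4, 5, 5, 6],
  [3, 3, 3, 4, 4, 5, 6, 6]]

end Cfsg.Agent.Lib.Helper28.HeData
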