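import Cfsg.Agent.Lib.Helper28.HeSC0
import Cfsg.Agent.Lib.Helper28.HeSC1
import Cfsg.Agent.Lib.Helper28.HeSC2
import Cfsg.Agent.Lib.Helper28.HeSC3

set_option autoImplicit false

namespace Cfsg.Agent.Lib.Helper28.HeSX

open Cfsg.Agent.Lib.Helper28.TCKernel Cfsg.Agent.Lib.Helper28.SGS

theorem chunk : ∀ k, k < 4 → allTree HeST.chkPt 12 (k * 2 ^ 12) = true
  | 0, _ => HeSC0.chk
  | 1, _ => HeSC1.chk
  | 2, _ => HeSC2.chk
  | 3, _ => HeSC3.chk
  | (k + 4), h => absurd h (by omega)

theorem checks : Checks 8330 7 23 3 14 THeNLT.tp HeST.xt HeST.rk HeST.par HeST.sy HeST.lv HeST.bs HeST.ns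
    HeST.defs HeST.prs where
  point := fun p hp => allTree_chunks HeST.chkPt 12 4 chunk p (lt_of_lt_of_le hp (by decide))
  hX := by decide
  bd := by decide +kernel
  pbd := by decide +kernel
  fix := by decide +kernel
  lvX := fun s hs => nthD_of_length_le 0 HeST.lvl s (le_trans (by decide) hs)
  bsn := by decide +kernel
  cnt := by decide +kernel
  hd := by decide

theorem prod : prodN HeST.ns 3 = 4030387200 := by decide +kernel

end Cfsg.Agent.Lib.Helper28.HeSX
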