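import Cfsg.Agent.Lib.Helper28.IwaAb
import Cfsg.Agent.Lib.Helper28.TCPres

/-!
Certificates for the hypotheses of Iwasawa's criterion with an abelian subgroup, from checked
word identities: the subgroup is normalised by the generators of a point stabiliser, its
normal closure contains all generators, and the group is perfect.
-/

set_option autoImplicit false

namespace Cfsg.Agent.Lib.Helper28.IwaGen

open Cfsg.Agent.Lib.Helper28.TCKernel Cfsg.Agent.Lib.Helper28.TCSound
open Cfsg.Agent.Lib.Helper28.TCPres Cfsg.Agent.Lib.Helper28.IwaAb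

variable {G : Type*} [Group G]

theorem wp_mem (N : Subgroup G) (lt : Nat → G) (w : List Nat) (h : ∀ x ∈ w, lt x ∈ N) :
    wp lt w ∈ N := by
  induction w with
  | nil => rw [wp_nil]; exact N.one_mem
  | cons y w ih =>
    rw [wp_cons]
    exact N.mul_mem (h y List.mem_cons_self) (ih (fun x hx => h x (List.mem_cons_of_mem _ hx)))

theorem wp_flatten_one (lt : Nat → G) (rs : List (List Nat)) (h : ∀ r ∈ rs, wp lt r = 1) :
    wp lt rs.flatten = 1 := by
  induction rs with
  | nil => rw [List.flatten_nil, wp_nil]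
  | cons r rs ih =>
    rw [List.flatten_cons, wp_append, h r List.mem_cons_self,
      ih (fun r' hr' => h r' (List.mem_cons_of_mem _ hr')), one_mul]

/-- derivations `(y, g, m)`: the letter `y` is the conjugate by the word `g` of the word `m`
in letters known to lie in a normal subgroup; at the end all letters are known. -/
def drvOK (L : Nat) (inv : Nat → Nat) (prs : List (List Nat × List Nat)) :
    List Nat → List (Nat × List Nat × List Nat) → Bool
  | known, [] => allLt (fun y => memB known y) L
  | known, t :: rest =>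
    t.2.2.all (fun x => memB known x) && t.2.1.all (fun x => Nat.blt x L) &&
      decide ((t.2.1 ++ t.2.2 ++ invw inv t.2.1, [t.1]) ∈ prs) &&
      drvOK L inv prs (t.1 :: known) rest

theorem nc_of_drv (N : Subgroup G) (hN : N.Normal) (lt : Nat → G) (inv : Nat → Nat) (L : Nat)
    (hI : ∀ y, y < L → lt (inv y) = (lt y)⁻¹)
    (prs : List (List Nat × List Nat)) (hq : ∀ uv ∈ prs, wp lt uv.1 = wp lt uv.2)
    (drv : List (Nat × List Nat × List Nat)) (known : List Nat) (hk : ∀ y ∈ known, lt y ∈ N)
    (h : drvOK L inv prs known drv = true) : ∀ y, y < L → lt y ∈ N := by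
  induction drv generalizing known with
  | nil =>
    intro y hy
    unfold drvOK at h
    rw [allLt_spec] at h
    exact hk y ((memB_spec known y).mp (h y hy))
  | cons t rest ih =>
    unfold drvOK at h
    rw [Bool.and_eq_true, Bool.and_eq_true, Bool.and_eq_true, List.all_eq_true,
      List.all_eq_true, decide_eq_true_eq] at h
    obtain ⟨⟨⟨h1, h2⟩, h3⟩, h4⟩ := h
    refine ih (t.1 :: known) ?_ h4
    intro y hy
    rcases List.mem_cons.mp hy with e | e
    · rw [e]
      have e1 := hq _ h3
      have e2 : wp lt [t.1] = lt t.1 := by rw [wp_cons, wp_nil, mul_one]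
      have e3 : wp lt (t.2.1 ++ t.2.2 ++ invw inv t.2.1) =
          wp lt t.2.1 * wp lt t.2.2 * (wp lt t.2.1)⁻¹ := by
        rw [wp_append, wp_append,
          wp_invw lt inv L hI _ (fun x hx => Nat.le_of_ble_eq_true (h2 x hx))]
      have e4 : lt t.1 = wp lt t.2.1 * wp lt t.2.2 * (wp lt t.2.1)⁻¹ := by
        rw [← e3, ← e2]; exact e1.symm
      rw [e4]
      exact hN.conj_mem _
        (wp_mem N lt _ (fun x hx => hk x ((memB_spec known x).mp (h1 x hx)))) _
    · exact hk y e

/-- the subgroup generated by the words `tws` is normalised by the subgroup generated by the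
words `sgW`: the conjugates of the words of `tws` by the words of `sgW` and their inverses
are words of the list `els` of elements of the subgroup. -/
theorem norm_of_prs (lt : Nat → G) (inv : Nat → Nat) (L : Nat)
    (hI : ∀ y, y < L → lt (inv y) = (lt y)⁻¹)
    (prs : List (List Nat × List Nat)) (hq : ∀ uv ∈ prs, wp lt uv.1 = wp lt uv.2)
    (sgW tws els : List (List Nat)) (hsgL : ∀ w ∈ sgW, ∀ y ∈ w, y < L)
    (hels : ∀ t ∈ els, wp lt t ∈ Subgroup.closure ((wp lt) '' {t | t ∈ tws}))
    (hdec : ∀ w ∈ sgW, ∀ t ∈ tws, (∃ t1 ∈ els, (w ++ t ++ invw inv w, t1) ∈ prs) ∧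
      (∃ t2 ∈ els, (invw inv w ++ t ++ w, t2) ∈ prs)) :
    ∀ g ∈ Subgroup.closure ((wp lt) '' {w | w ∈ sgW}),
      ∀ x ∈ Subgroup.closure ((wp lt) '' {t | t ∈ tws}),
        g * x * g⁻¹ ∈ Subgroup.closure ((wp lt) '' {t | t ∈ tws}) := by
  apply conj_mem_of_gens
  rintro s ⟨w, hw, rfl⟩ x ⟨t, ht, rfl⟩
  obtain ⟨⟨t1, ht1, hp1⟩, ⟨t2, ht2, hp2⟩⟩ := hdec w hw t ht
  have hwi := wp_invw lt inv L hI w (hsgL w hw)
  constructor
  · have e1 := hq _ hp1
    have e : wp lt w * wp lt t * (wp lt w)⁻¹ = wp lt t1 := by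
      rw [← e1]
      show _ = wp lt (w ++ t ++ invw inv w)
      rw [wp_append, wp_append, hwi]
    rw [e]
    exact hels t1 ht1
  · have e1 := hq _ hp2
    have e : (wp lt w)⁻¹ * wp lt t * wp lt w = wp lt t2 := by
      rw [← e1]
      show _ = wp lt (invw inv w ++ t ++ w)
      rw [wp_append, wp_append, hwi]
    rw [e]
    exact hels t2 ht2

/-- perfectness from products of relator words. -/
theorem perfect_of_rels (lt : Nat → G) (L : Nat)
    (hgen : Subgroup.closure (lt '' {y | y < L}) = ⊤)
    (hinv : ∀ y, y < L → lt y * lt y = 1)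
    (relW : List (List Nat)) (hrel : ∀ w ∈ relW, wp lt w = 1)
    (hrelL : ∀ w ∈ relW, ∀ y ∈ w, y < L)
    (wss : List (List (List Nat))) (ds : List (List Nat))
    (hws : ∀ y, y < L → ∀ r ∈ nthD [] wss y, r ∈ relW)
    (hperm : ∀ y, y < L →
      List.Perm (nthD [] wss y).flatten (y :: (nthD [] ds y ++ nthD [] ds y))) :
    commutator G = ⊤ := by
  refine perfect_of_perm lt L hgen hinv (fun y => (nthD [] wss y).flatten) (nthD [] ds)
    ?_ ?_ hperm
  · intro y hy
    exact wp_flatten_one lt _ (fun r hr => hrel r (hws y hy r hr))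
  · intro y hy x hx
    obtain ⟨r, hr, hxr⟩ := List.mem_flatten.mp hx
    exact hrelL r (hws y hy r hr) x hxr

/-- a subgroup generated by pairwise commuting elements is commutative. -/
theorem comm_closure (T : Set G) (h : ∀ x ∈ T, ∀ y ∈ T, x * y = y * x) :
    ∀ x ∈ Subgroup.closure T, ∀ y ∈ Subgroup.closure T, x * y = y * x := by
  have h1 : Subgroup.closure T ≤ Subgroup.centralizer T := by
    rw [Subgroup.closure_le]
    intro a ha
    rw [SetLike.mem_coe, Subgroup.mem_centralizer_iff]
    intro b hb
    exact h b hb a ha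
  have h2 : Subgroup.closure T ≤ Subgroup.centralizer (Subgroup.closure T : Set G) := by
    rw [Subgroup.closure_le]
    intro a ha
    rw [SetLike.mem_coe, Subgroup.mem_centralizer_iff]
    intro b hb
    exact ((Subgroup.mem_centralizer_iff.mp (h1 hb)) a ha).symm
  intro x hx y hy
  exact (Subgroup.mem_centralizer_iff.mp (h2 hy)) x hx

end Cfsg.Agent.Lib.Helper28.IwaGen
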