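import Cfsg.Agent.Lib.Helper28.Iwa

/-!
Primitivity of a transitive permutation representation from a certificate: a block through
the point `0` is a union of orbits of the stabiliser of `0` (the classes of points); if it
contains the class `i`, then every element moving `0` into a class known to lie in the block
maps the block to itself, which puts further classes into the block, until all are there.
-/

set_option autoImplicit false

namespace Cfsg.Agent.Lib.Helper28.PrimCert

open Cfsg.Agent.Lib.Helper28.TCKernel Cfsg.Agent.Lib.Helper28.TCSound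
open Cfsg.Agent.Lib.Helper28.TCPerm Cfsg.Agent.Lib.Helper28.Iwa

/-- a step `(w, x)` is admissible when the word `w` moves `0` into a known class and the
point `x` lies in a known class. -/
def stepOK (tp : Nat → Nat → Nat) (roots : List Nat) (n L : Nat) (known : List Nat)
    (s : List Nat × Nat) : Bool :=
  memB known (clsOf roots (scanP tp s.1 0)) && memB known (clsOf roots s.2) &&
    Nat.blt s.2 n && s.1.all (fun y => Nat.blt y L)

/-- the classes known to lie in the block after the steps. -/
def run (tp : Nat → Nat → Nat) (roots : List Nat) (n L : Nat) :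
    List Nat → List (List Nat × Nat) → List Nat
  | known, [] => known
  | known, s :: t =>
    bif stepOK tp roots n L known s then
      run tp roots n L (clsOf roots (scanP tp s.1 s.2) :: known) t
    else run tp roots n L known t

/-- for every class `i` other than the class of `0`, the steps of the `i`-th certificate
reach all classes. -/
def primOK (tp : Nat → Nat → Nat) (roots : List Nat) (n L : Nat)
    (certs : List (List (List Nat × Nat))) : Bool :=
  allLt (fun i => Nat.beq i (clsOf roots 0) ||
    allLt (fun c => memB (run tp roots n L [clsOf roots 0, i] (nthD [] certs i)) c)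
      (roots.length + 1)) (roots.length + 1)

theorem clsOf_le_length (roots : List Nat) (a : Nat) : clsOf roots a ≤ roots.length := by
  induction roots with
  | nil => rw [clsOf_nil]; exact Nat.le_refl _
  | cons r t ih =>
    rw [clsOf_cons, List.length_cons]
    split_ifs <;> omega

variable {G : Type*} [Group G] {n : Nat}

theorem prim_of_certs (hn : 0 < n) (φ : G →* Equiv.Perm (Fin n)) (lt : Nat → G) (L : Nat)
    (tp : Nat → Nat → Nat)
    (hφ : ∀ y, y < L → ∀ a : Fin n, (((φ (lt y))⁻¹ a : Fin n) : Nat) = tp y a)
    (roots : List Nat)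
    (hcls : ∀ x y : Fin n, clsOf roots x.1 = clsOf roots y.1 →
      ∃ h : G, φ h ⟨0, hn⟩ = ⟨0, hn⟩ ∧ φ h x = y)
    (certs : List (List (List Nat × Nat)))
    (hcert : primOK tp roots n L certs = true)
    (B : Set (Fin n)) (h0 : (⟨0, hn⟩ : Fin n) ∈ B)
    (hB : ∀ g : G, φ g '' B = B ∨ Disjoint (φ g '' B) B) :
    B = {⟨0, hn⟩} ∨ B = Set.univ := by
  -- an element moving 0 into the block maps the block to itself
  have hstab : ∀ g : G, φ g ⟨0, hn⟩ ∈ B → φ g '' B = B := by
    intro g hg
    rcases hB g with h | h
    · exact h
    · exact absurd h (Set.not_disjoint_iff.mpr ⟨_, ⟨_, h0, rfl⟩, hg⟩)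
  -- the block is a union of classes
  have hunion : ∀ z y : Fin n, z ∈ B → clsOf roots z.1 = clsOf roots y.1 → y ∈ B := by
    intro z y hz hzy
    obtain ⟨h, hh0, hhz⟩ := hcls z y hzy
    have e := hstab h (by rw [hh0]; exact h0)
    rw [← e, ← hhz]
    exact ⟨z, hz, rfl⟩
  by_cases hex : ∃ x ∈ B, x ≠ (⟨0, hn⟩ : Fin n)
  · right
    obtain ⟨x, hxB, hx0⟩ := hex
    let P : Nat → Prop := fun c => ∀ y : Fin n, clsOf roots y.1 = c → y ∈ B
    have hP0 : P (clsOf roots 0) := fun y hy => hunion ⟨0, hn⟩ y h0 hy.symm
    have hPi : P (clsOf roots x.1) := fun y hy => hunion x y hxB hy.symm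
    have hi0 : clsOf roots x.1 ≠ clsOf roots 0 := by
      intro e
      obtain ⟨h, hh0, hhz⟩ := hcls ⟨0, hn⟩ x e.symm
      rw [hh0] at hhz
      exact hx0 hhz.symm
    have hstep : ∀ (known : List Nat) (s : List Nat × Nat), (∀ c ∈ known, P c) →
        stepOK tp roots n L known s = true → P (clsOf roots (scanP tp s.1 s.2)) := by
      intro known s hk hs
      unfold stepOK at hs
      rw [Bool.and_eq_true, Bool.and_eq_true, Bool.and_eq_true, memB_spec, memB_spec,
        List.all_eq_true] at hs
      obtain ⟨⟨⟨h1, h2⟩, h3⟩, h4⟩ := hs
      have hs2 : s.2 < n := Nat.le_of_ble_eq_true h3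
      have hw : ∀ y ∈ s.1, y < L := fun y hy => Nat.le_of_ble_eq_true (h4 y hy)
      have hsc : ∀ a : Fin n, ((φ (wp lt s.1)⁻¹ a : Fin n) : Nat) = scanP tp s.1 a := by
        intro a
        rw [map_inv]
        exact scan_eq φ lt hφ s.1 hw a
      have hg0 : φ (wp lt s.1)⁻¹ ⟨0, hn⟩ ∈ B := hk _ h1 _ (by rw [hsc])
      have e := hstab _ hg0
      have hx : (⟨s.2, hs2⟩ : Fin n) ∈ B := hk _ h2 _ rfl
      have hz : φ (wp lt s.1)⁻¹ ⟨s.2, hs2⟩ ∈ B := by
        rw [← e]
        exact ⟨_, hx, rfl⟩
      intro y hy
      exact hunion _ y hz (by rw [hsc, hy])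
    have hrun : ∀ (steps : List (List Nat × Nat)) (known : List Nat), (∀ c ∈ known, P c) →
        ∀ c ∈ run tp roots n L known steps, P c := by
      intro steps
      induction steps with
      | nil => intro known hk c hc; exact hk c hc
      | cons s t ih =>
        intro known hk c hc
        unfold run at hc
        cases hs : stepOK tp roots n L known s
        · rw [hs, cond_false] at hc
          exact ih known hk c hc
        · rw [hs, cond_true] at hc
          refine ih _ ?_ c hc
          intro c' hc'
          rcases List.mem_cons.mp hc' with e | e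
          · rw [e]; exact hstep known s hk hs
          · exact hk c' e
    unfold primOK at hcert
    rw [allLt_spec] at hcert
    have h1 := hcert (clsOf roots x.1) (Nat.lt_succ_of_le (clsOf_le_length roots x.1))
    rw [Bool.or_eq_true] at h1
    rcases h1 with h1 | h1
    · exact absurd (Nat.eq_of_beq_eq_true h1) hi0
    · rw [allLt_spec] at h1
      ext y
      simp only [Set.mem_univ, iff_true]
      have h2 := h1 (clsOf roots y.1) (Nat.lt_succ_of_le (clsOf_le_length roots y.1))
      rw [memB_spec] at h2
      refine hrun _ _ ?_ _ h2 y rfl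
      intro c hc
      rcases List.mem_cons.mp hc with e | e
      · rw [e]; exact hP0
      · rw [List.mem_singleton.mp e]; exact hPi
  · left
    ext y
    rw [Set.mem_singleton_iff]
    constructor
    · intro hy
      by_contra hne
      exact hex ⟨y, hy, hne⟩
    · intro hy
      rw [hy]; exact h0

end Cfsg.Agent.Lib.Helper28.PrimCert
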