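import Cfsg.Agent.Lib.Helper28.TCMain
import Cfsg.Agent.Lib.Helper28.PresHe
import Cfsg.Agent.Lib.Helper28.THeNUC0
import Cfsg.Agent.Lib.Helper28.THeNLC0
import Cfsg.Agent.Lib.Helper28.THeNLC1

set_option autoImplicit false

namespace Cfsg.Agent.Lib.Helper28.THeNX

open Cfsg.Spor Cfsg.Agent.Lib.Helper28.TCKernel Cfsg.Agent.Lib.Helper28.TCSound Cfsg.Agent.Lib.Helper28.TCPerm Cfsg.Agent.Lib.Helper28.TCPres Cfsg.Agent.Lib.Helper28.TCMain

/-- the subgroup generators -/
def sgSrc : List (FreeGroup He.Gen) := [He.c, He.d, He.f, He.g, He.b * He.a * He.b, He.b * He.c * He.d * He.e * He.f * He.d * He.c * He.b * He.d * He.c * He.e * He.d * He.c * He.d * He.b * He.c * He.d * He.f * He.e * He.d * He.c * He.b]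

theorem chunkU : ∀ k, k < 1 → allTree THeNUT.chkName 14 (k * 2 ^ 14) = true
  | 0, _ => THeNUC0.chk
  | (k + 1), h => absurd h (by omega)

theorem chkU (v : Nat) : THeNUT.chkName v = true := by
  rcases Nat.lt_or_ge v (2 ^ 14) with h | h
  · exact allTree_chunks THeNUT.chkName 14 1 chunkU v h
  · exact chk_of_zero _ _ _ _ _ _ _ _ _ _ _ _ _ _ v
      (fun y => fld3_eq_zero _ _ _ _ _ _ _ _ y v 2 (by decide)
        (le_trans (by decide : 2 * 2 ^ (8 + 5) ≤ 2 ^ 14) h))
      (fld1_eq_zero _ _ _ _ _ _ _ _ v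
        (le_trans (by decide : THeNUT.dtop.length * 2 ^ (7 + 5) ≤ 2 ^ 14) h))
      (le_trans (by decide : 8527 ≤ 2 ^ 14) h)

theorem chunkL : ∀ k, k < 2 → allTree THeNLT.chkPoint 13 (k * 2 ^ 13) = true
  | 0, _ => THeNLC0.chk
  | 1, _ => THeNLC1.chk
  | (k + 2), h => absurd h (by omega)

theorem chkL (a : Nat) (ha : a < 8330) : THeNLT.chkPoint a = true :=
  allTree_chunks THeNLT.chkPoint 13 2 chunkL a (lt_of_lt_of_le ha (by decide))

theorem permOK : PermChecks 8330 THeNLT.tp PresHe.inv THeNLT.pa THeNLT.pl PresHe.relW THeNLT.sgW THeNLT.tw 12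
    THeNLT.roots 7 where
  point := fun a ha => chkL a ha
  invL := by decide +kernel
  wsL := by decide +kernel
  sgL := by decide +kernel
  twL := by decide +kernel
  root1 := by decide +kernel
  rootpos := by decide +kernel

/-- index and orbit structure of the subgroup -/
theorem final :
    ((Subgroup.closure {s | s ∈ sgSrc}).map (PresentedGroup.mk (coxRelators He.edges ∪ {r | r ∈ He.extra}))).index = 8330 ∧
    ∃ ψ : (PresentedGroup (coxRelators He.edges ∪ {r | r ∈ He.extra})) ⧸ ((Subgroup.closure {s | s ∈ sgSrc}).map (PresentedGroup.mk (coxRelators He.edges ∪ {r | r ∈ He.extra}))) → Fin 8330,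
      Function.Injective ψ ∧
      ∀ r, r < 8330 → (∀ r' ∈ (0 :: THeNLT.roots), clsOf THeNLT.roots r' = clsOf THeNLT.roots r → r' = r) →
        ∃ q, ψ '' (MulAction.orbit ((Subgroup.closure {s | s ∈ sgSrc}).map (PresentedGroup.mk (coxRelators He.edges ∪ {r | r ∈ He.extra}))) q) = {b : Fin 8330 | clsOf THeNLT.roots b.1 = clsOf THeNLT.roots r} :=
  main PresHe.ok {s | s ∈ sgSrc} sgSrc rfl THeNLT.sgW (by decide +kernel)
    8527 8330 14 3 65535 THeNUT.tgt THeNUT.sig THeNUT.crt THeNUT.hnt THeNUT.dsig THeNUT.mu THeNUT.dcrt THeNUT.dst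
    THeNUT.par THeNUT.plet THeNUT.certs THeNUT.hints (by decide +kernel)
    (fun y v => fld3_le _ _ _ _ _ _ _ _ y v) (fun v => fld1_le _ _ _ _ _ _ _ _ v) chkU
    (by decide +kernel) (by decide) THeNUC0.cnt
    THeNLT.tp THeNLT.pa THeNLT.pl THeNLT.tw 12 THeNLT.roots permOK (by decide) (by decide +kernel)

end Cfsg.Agent.Lib.Helper28.THeNX
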