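import Cfsg.Agent.Lib.Helper28.StructN
import Cfsg.Agent.Lib.Helper28.PrimCert
import Cfsg.Agent.Lib.Helper28.IwaGen
import Cfsg.Agent.Lib.Helper28.THeNX
import Cfsg.Agent.Lib.Helper28.HeSX
import Cfsg.Agent.Lib.Helper28.HeData

/-!
The presented Held group is simple of order 4030387200, given the bound 4030387200 for its
order.

The group acts on the 8330 cosets of the subgroup `<c, d, f, g, bab, s>` (the normaliser of a
four-group `V = <a, v>`), faithfully by a stabiliser chain of that order, primitively by a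
certificate on the seven orbits of the subgroup; `V` is normalised by the subgroup, the
generators lie in the normal closure of `V`, and the group is perfect: Iwasawa's criterion.
-/

set_option autoImplicit false

namespace Cfsg.Agent.Lib.Helper28.HeIwa

open Cfsg.Spor Cfsg.Agent.Lib.Helper28.TCKernel Cfsg.Agent.Lib.Helper28.TCSound
open Cfsg.Agent.Lib.Helper28.TCPerm Cfsg.Agent.Lib.Helper28.TCPres

theorem hidx : (Subgroup.closure ((wp (ltG He.edges He.extra PresHe.dec)) ''
    {w | w ∈ THeNLT.sgW})).index = 8330 := by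
  rw [← map_closure_eq PresHe.ok {s | s ∈ THeNX.sgSrc} THeNX.sgSrc rfl THeNLT.sgW
    (by decide +kernel)]
  exact THeNX.final.1

theorem simple_card (hb : Finite (Grp He.edges He.extra) ∧
    Nat.card (Grp He.edges He.extra) ≤ 4030387200) :
    IsSimpleGroup (Grp He.edges He.extra) ∧ Nat.card (Grp He.edges He.extra) = 4030387200 := by
  have hfin := hb.1
  obtain ⟨φ, el, hcard, hinj, hφ', hel, heq, hSt, htr, hcls⟩ :=
    StructN.structN PresHe.ok THeNX.permOK (by decide) hidx (by decide +kernel)
      (by decide +kernel) HeSX.checks 4030387200 HeSX.prod hb.1 hb.2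
  have hI : ∀ y, y < 7 → ltG He.edges He.extra PresHe.dec (PresHe.inv y) =
      (ltG He.edges He.extra PresHe.dec y)⁻¹ := ltG_inv PresHe.ok
  have hpb : ∀ uv ∈ HeST.prs, (∀ y ∈ uv.1, y < 7) ∧ (∀ y ∈ uv.2, y < 7) := by decide +kernel
  have hq : ∀ uv ∈ HeST.prs, wp (ltG He.edges He.extra PresHe.dec) uv.1 =
      wp (ltG He.edges He.extra PresHe.dec) uv.2 := by
    intro uv huv
    rw [← wp_congr el _ uv.1 (fun y hy => hel y ((hpb uv huv).1 y hy)),
      ← wp_congr el _ uv.2 (fun y hy => hel y ((hpb uv huv).2 y hy))]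
    exact heq uv huv
  have hprim := PrimCert.prim_of_certs (by decide : 0 < 8330) φ
    (ltG He.edges He.extra PresHe.dec) 7 THeNLT.tp hφ' THeNLT.roots hcls HeData.pcerts
    (by decide +kernel)
  -- the four-group
  have hTc : ∀ x ∈ (wp (ltG He.edges He.extra PresHe.dec)) '' {t | t ∈ HeData.tws},
      ∀ y ∈ (wp (ltG He.edges He.extra PresHe.dec)) '' {t | t ∈ HeData.tws},
        x * y = y * x := by
    have e := hq (HeData.aW ++ HeData.vW, HeData.vW ++ HeData.aW) (by decide +kernel)
    rw [wp_append, wp_append] at e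
    rintro _ ⟨t1, ht1, rfl⟩ _ ⟨t2, ht2, rfl⟩
    have h1 : t1 = HeData.aW ∨ t1 = HeData.vW := by
      simpa [HeData.tws] using ht1
    have h2 : t2 = HeData.aW ∨ t2 = HeData.vW := by
      simpa [HeData.tws] using ht2
    rcases h1 with h1 | h1 <;> rcases h2 with h2 | h2 <;> subst h1 <;> subst h2
    · rfl
    · exact e
    · exact e.symm
    · rfl
  have hAc := IwaGen.comm_closure _ hTc
  have hels : ∀ t ∈ HeData.els, wp (ltG He.edges He.extra PresHe.dec) t ∈
      Subgroup.closure ((wp (ltG He.edges He.extra PresHe.dec)) '' {t | t ∈ HeData.tws}) := by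
    have ha : wp (ltG He.edges He.extra PresHe.dec) HeData.aW ∈
        Subgroup.closure ((wp (ltG He.edges He.extra PresHe.dec)) '' {t | t ∈ HeData.tws}) :=
      Subgroup.subset_closure ⟨HeData.aW, by decide, rfl⟩
    have hv : wp (ltG He.edges He.extra PresHe.dec) HeData.vW ∈
        Subgroup.closure ((wp (ltG He.edges He.extra PresHe.dec)) '' {t | t ∈ HeData.tws}) :=
      Subgroup.subset_closure ⟨HeData.vW, by decide, rfl⟩
    intro t ht
    have h1 : t = HeData.aW ∨ t = HeData.vW ∨ t = HeData.aW ++ HeData.vW := by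
      simpa [HeData.els] using ht
    rcases h1 with h1 | h1 | h1 <;> subst h1
    · exact ha
    · exact hv
    · rw [wp_append]
      exact Subgroup.mul_mem _ ha hv
  have hnorm := IwaGen.norm_of_prs (ltG He.edges He.extra PresHe.dec) PresHe.inv 7 hI
    HeST.prs hq THeNLT.sgW HeData.tws HeData.els THeNX.permOK.sgL hels (by decide +kernel)
  have hA : ∀ h : Grp He.edges He.extra, φ h ⟨0, by decide⟩ = ⟨0, by decide⟩ →
      ∀ x ∈ Subgroup.closure ((wp (ltG He.edges He.extra PresHe.dec)) '' {t | t ∈ HeData.tws}),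
        h * x * h⁻¹ ∈
          Subgroup.closure ((wp (ltG He.edges He.extra PresHe.dec)) '' {t | t ∈ HeData.tws}) :=
    fun h hh x hx => hnorm h ((hSt h).mpr hh) x hx
  -- the normal closure
  have hgen : Subgroup.normalClosure ((Subgroup.closure
      ((wp (ltG He.edges He.extra PresHe.dec)) '' {t | t ∈ HeData.tws}) :
        Subgroup (Grp He.edges He.extra)) : Set (Grp He.edges He.extra)) = ⊤ := by
    have h0 : ∀ y ∈ [0], ltG He.edges He.extra PresHe.dec y ∈ Subgroup.normalClosure
        ((Subgroup.closure ((wp (ltG He.edges He.extra PresHe.dec)) '' {t | t ∈ HeData.tws}) :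
          Subgroup (Grp He.edges He.extra)) : Set (Grp He.edges He.extra)) := by
      intro y hy
      rw [List.mem_singleton.mp hy]
      apply Subgroup.subset_normalClosure
      have e : wp (ltG He.edges He.extra PresHe.dec) HeData.aW =
          ltG He.edges He.extra PresHe.dec 0 := by
        show wp _ [0] = _
        rw [wp_cons, wp_nil, mul_one]
      rw [← e]
      exact Subgroup.subset_closure ⟨HeData.aW, by decide, rfl⟩
    have hall := IwaGen.nc_of_drv _ Subgroup.normalClosure_normal
      (ltG He.edges He.extra PresHe.dec) PresHe.inv 7 hI HeST.prs hq HeData.drv [0] h0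
      (by decide +kernel)
    rw [eq_top_iff, ← genG PresHe.ok, Subgroup.closure_le]
    rintro _ ⟨y, hy, rfl⟩
    exact hall y hy
  -- perfectness
  have hinvy : ∀ y, y < 7 → PresHe.inv y = y := by decide +kernel
  have hinv : ∀ y, y < 7 → ltG He.edges He.extra PresHe.dec y *
      ltG He.edges He.extra PresHe.dec y = 1 := by
    intro y hy
    have e := hI y hy
    rw [hinvy y hy] at e
    nth_rewrite 2 [e]
    exact mul_inv_cancel _
  have hperf := IwaGen.perfect_of_rels (ltG He.edges He.extra PresHe.dec) 7 (genG PresHe.ok)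
    hinv PresHe.relW (relG PresHe.ok) PresHe.ok.rel_letters HeData.wss HeData.ds
    (by decide +kernel) (by decide +kernel)
  have hnt : Nontrivial (Grp He.edges He.extra) :=
    Finite.one_lt_card_iff_nontrivial.mp (by rw [hcard]; decide)
  exact ⟨IwaAb.simple_of_iwasawa_ab (by decide) φ hinj htr hprim _ hAc hA hgen hperf, hcard⟩

end Cfsg.Agent.Lib.Helper28.HeIwa
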