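import Cfsg.Agent.Lib.Helper28.HeBound
import Cfsg.Agent.Lib.Helper28.HeIwa

/-!
The presented Held group is simple of order 4030387200.
-/

set_option autoImplicit false

namespace Cfsg.Agent.Lib.Helper28.HeMain

open Cfsg.Spor Cfsg.Agent.Lib.Helper28.TCPres

theorem simple_card : IsSimpleGroup (Grp He.edges He.extra) ∧
    Nat.card (Grp He.edges He.extra) = 4030387200 :=
  HeIwa.simple_card HeBound.bound

end Cfsg.Agent.Lib.Helper28.HeMain
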