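import Cfsg.Agent.Lib.Helper28.Iwa

/-!
Iwasawa's criterion with an abelian subgroup normalised by a point stabiliser, perfectness of
a group generated by involutions from the relators modulo 2, and normalisation of a subgroup
checked on generators.
-/

set_option autoImplicit false

namespace Cfsg.Agent.Lib.Helper28.IwaAb

open Cfsg.Agent.Lib.Helper28.TCKernel Cfsg.Agent.Lib.Helper28.TCSound
open Cfsg.Agent.Lib.Helper28.TCPerm Cfsg.Agent.Lib.Helper28.Iwa

variable {G : Type*} [Group G] {n : Nat}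

/-- Iwasawa's criterion for a faithful primitive representation: a point stabiliser normalises
the abelian subgroup `A`, the conjugates of `A` generate `G`, and `G` is perfect. -/
theorem simple_of_iwasawa_ab [Nontrivial G] (hn : 0 < n) (φ : G →* Equiv.Perm (Fin n))
    (hinj : Function.Injective φ)
    (htr : ∀ b : Fin n, ∃ g : G, φ g ⟨0, hn⟩ = b)
    (hprim : ∀ B : Set (Fin n), (⟨0, hn⟩ : Fin n) ∈ B →
      (∀ g : G, φ g '' B = B ∨ Disjoint (φ g '' B) B) → B = {⟨0, hn⟩} ∨ B = Set.univ)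
    (A : Subgroup G) (hAc : ∀ x ∈ A, ∀ y ∈ A, x * y = y * x)
    (hA : ∀ h : G, φ h ⟨0, hn⟩ = ⟨0, hn⟩ → ∀ x ∈ A, h * x * h⁻¹ ∈ A)
    (hgen : Subgroup.normalClosure (A : Set G) = ⊤)
    (hperf : commutator G = ⊤) : IsSimpleGroup G := by
  refine ⟨fun N hN => ?_⟩
  by_cases hbot : N = ⊥
  · exact Or.inl hbot
  right
  let B : Set (Fin n) := {b | ∃ m ∈ N, φ m ⟨0, hn⟩ = b}
  have h0 : (⟨0, hn⟩ : Fin n) ∈ B := ⟨1, N.one_mem, by rw [map_one]; rfl⟩
  have hB : ∀ g : G, φ g '' B = B ∨ Disjoint (φ g '' B) B := by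
    intro g
    by_cases hd : Disjoint (φ g '' B) B
    · exact Or.inr hd
    · left
      rw [Set.not_disjoint_iff] at hd
      obtain ⟨x, ⟨b, ⟨m, hm, rfl⟩, rfl⟩, ⟨m', hm', e⟩⟩ := hd
      have hg0 : ∃ m0 ∈ N, φ m0 ⟨0, hn⟩ = φ g ⟨0, hn⟩ := by
        refine ⟨g * m⁻¹ * g⁻¹ * m', N.mul_mem (hN.conj_mem _ (N.inv_mem hm) g) hm', ?_⟩
        rw [pmul, e, pmul, pmul, pinv1, pinv1]
      obtain ⟨m0, hm0, e0⟩ := hg0
      ext y
      constructor
      · rintro ⟨b, ⟨m1, hm1, rfl⟩, rfl⟩
        refine ⟨g * m1 * g⁻¹ * m0, N.mul_mem (hN.conj_mem _ hm1 g) hm0, ?_⟩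
        rw [pmul, e0, pmul, pmul, pinv1]
      · rintro ⟨m1, hm1, rfl⟩
        refine ⟨φ (g⁻¹ * m1 * m0⁻¹ * g) ⟨0, hn⟩, ⟨g⁻¹ * (m1 * m0⁻¹) * g⁻¹⁻¹, ?_, ?_⟩, ?_⟩
        · exact hN.conj_mem _ (N.mul_mem hm1 (N.inv_mem hm0)) g⁻¹
        · rw [inv_inv, mul_assoc g⁻¹ m1 m0⁻¹]
        · rw [pmul, pmul, pmul, ← e0, pinv1, pinv2]
  rcases hprim B h0 hB with hB1 | hB2
  · exfalso
    apply hbot
    rw [Subgroup.eq_bot_iff_forall]
    intro m hm
    apply hinj
    rw [map_one]
    ext b
    obtain ⟨g, rfl⟩ := htr b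
    have h1 : φ (g⁻¹ * m * g⁻¹⁻¹) ⟨0, hn⟩ ∈ B := ⟨_, hN.conj_mem _ hm g⁻¹, rfl⟩
    rw [hB1, Set.mem_singleton_iff, inv_inv, pmul, pmul] at h1
    have h2 := congrArg (φ g) h1
    rw [pinv2] at h2
    rw [h2]; rfl
  · have hQ : N ⊔ A = ⊤ := by
      rw [eq_top_iff, ← hgen, Subgroup.normalClosure, Subgroup.closure_le]
      intro x hx
      obtain ⟨a, ha, hconj⟩ := Group.mem_conjugatesOfSet_iff.mp hx
      obtain ⟨g, rfl⟩ := isConj_iff.mp hconj
      have hgB : φ g ⟨0, hn⟩ ∈ B := by rw [hB2]; trivial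
      obtain ⟨m, hm, e⟩ := hgB
      have hfix : φ (m⁻¹ * g) ⟨0, hn⟩ = ⟨0, hn⟩ := by
        rw [pmul, ← e, pinv1]
      have ha' := hA _ hfix a ha
      have e2 : g * a * g⁻¹ =
          m * (((m⁻¹ * g) * a * (m⁻¹ * g)⁻¹) * m⁻¹ * ((m⁻¹ * g) * a * (m⁻¹ * g)⁻¹)⁻¹) *
            ((m⁻¹ * g) * a * (m⁻¹ * g)⁻¹) := by group
      rw [SetLike.mem_coe, e2]
      exact Subgroup.mul_mem _
        (Subgroup.mem_sup_left (N.mul_mem hm (hN.conj_mem _ (N.inv_mem hm) _)))
        (Subgroup.mem_sup_right ha')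
    have hAcomm : IsMulCommutative A := ⟨⟨fun x y => Subtype.ext (hAc x x.2 y y.2)⟩⟩
    have hcomm : commutator G ≤ N :=
      hN.commutator_le_of_self_sup_commutative_eq_top hQ hAcomm
    rw [hperf] at hcomm
    exact top_le_iff.mp hcomm

/-- a group generated by involutions `lt y` is perfect if for every letter `y` there is a
trivial word in which `y` occurs an odd number of times and every other letter an even number
of times. -/
theorem perfect_of_perm (lt : Nat → G) (L : Nat)
    (hgen : Subgroup.closure (lt '' {y | y < L}) = ⊤)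
    (hinv : ∀ y, y < L → lt y * lt y = 1)
    (W D : Nat → List Nat)
    (hW : ∀ y, y < L → wp lt (W y) = 1)
    (hWL : ∀ y, y < L → ∀ x ∈ W y, x < L)
    (hperm : ∀ y, y < L → List.Perm (W y) (y :: (D y ++ D y))) :
    commutator G = ⊤ := by
  let π : G →* Abelianization G := Abelianization.of
  have h1 : ∀ u : List Nat, π (wp lt u) = (u.map (fun x => π (lt x))).prod := by
    intro u
    unfold wp
    rw [map_list_prod, List.map_map]
    rfl
  have h2 : ∀ u : List Nat, (∀ x ∈ u, x < L) →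
      ((u ++ u).map (fun x => π (lt x))).prod = 1 := by
    intro u hu
    rw [List.map_append, List.prod_append, ← pow_two]
    induction u with
    | nil => rw [List.map_nil, List.prod_nil, one_pow]
    | cons x u ih =>
      rw [List.map_cons, List.prod_cons, mul_pow,
        ih (fun z hz => hu z (List.mem_cons_of_mem _ hz)), mul_one, pow_two, ← map_mul,
        hinv x (hu x List.mem_cons_self), map_one]
  have h3 : ∀ y, y < L → π (lt y) = 1 := by
    intro y hy
    have e := h1 (W y)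
    rw [hW y hy, map_one] at e
    have hD : ∀ x ∈ D y, x < L := by
      intro x hx
      apply hWL y hy
      rw [(hperm y hy).mem_iff]
      exact List.mem_cons_of_mem _ (List.mem_append_left _ hx)
    have e2 : ((W y).map (fun x => π (lt x))).prod =
        ((y :: (D y ++ D y)).map (fun x => π (lt x))).prod :=
      List.Perm.prod_eq ((hperm y hy).map _)
    rw [e2, List.map_cons, List.prod_cons, h2 (D y) hD, mul_one] at e
    exact e.symm
  rw [eq_top_iff, ← hgen, Subgroup.closure_le]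
  rintro x ⟨y, hy, rfl⟩
  have h6 : lt y ∈ (Abelianization.of : G →* Abelianization G).ker := h3 y hy
  rw [Abelianization.ker_of] at h6
  exact h6

/-- conjugation by `s` maps the subgroup generated by `T` into itself if it does so on `T`. -/
theorem conj_closure (s : G) (T : Set G) (h : ∀ t ∈ T, s * t * s⁻¹ ∈ Subgroup.closure T) :
    ∀ x ∈ Subgroup.closure T, s * x * s⁻¹ ∈ Subgroup.closure T := by
  intro x hx
  induction hx using Subgroup.closure_induction with
  | mem t ht => exact h t ht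
  | one => rw [mul_one, mul_inv_cancel]; exact Subgroup.one_mem _
  | mul a b _ _ iha ihb =>
    have e : s * (a * b) * s⁻¹ = (s * a * s⁻¹) * (s * b * s⁻¹) := by group
    rw [e]
    exact Subgroup.mul_mem _ iha ihb
  | inv a _ iha =>
    have e : s * a⁻¹ * s⁻¹ = (s * a * s⁻¹)⁻¹ := by group
    rw [e]
    exact Subgroup.inv_mem _ iha

/-- the subgroup generated by `T` is normalised by the subgroup generated by `S` if the
conjugates of the elements of `T` by the elements of `S` and by their inverses lie in it. -/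
theorem conj_mem_of_gens (S T : Set G)
    (h : ∀ s ∈ S, ∀ t ∈ T, s * t * s⁻¹ ∈ Subgroup.closure T ∧
      s⁻¹ * t * s ∈ Subgroup.closure T) :
    ∀ g ∈ Subgroup.closure S, ∀ x ∈ Subgroup.closure T, g * x * g⁻¹ ∈ Subgroup.closure T := by
  have hle : Subgroup.closure S ≤ Subgroup.normalizer (Subgroup.closure T : Set G) := by
    rw [Subgroup.closure_le]
    intro s hs
    rw [SetLike.mem_coe, Subgroup.mem_normalizer_iff]
    intro x
    constructor
    · intro hx
      exact conj_closure s T (fun t ht => (h s hs t ht).1) x hx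
    · intro hx
      have h2 := conj_closure s⁻¹ T (fun t ht => by rw [inv_inv]; exact (h s hs t ht).2) _ hx
      have e : s⁻¹ * (s * x * s⁻¹) * s⁻¹⁻¹ = x := by group
      rw [e] at h2
      exact h2
  intro g hg x hx
  exact (Subgroup.mem_normalizer_iff.mp (hle hg) x).mp hx

end Cfsg.Agent.Lib.Helper28.IwaAb
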