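import Cfsg.Agent.Lib.Helper26.J3Stmt

/-!
# S3366 piece T1 (helper26's call; second seat): the involution `t`, central mod `R`, not
centralizing `R`
-/

set_option autoImplicit false

namespace Cfsg.Agent.Lib.Helper28.J3T1

universe u

open Cfsg Cfsg.Agent.Lib.Helper26

/-- the central involution of `SL(2,3)` -/
def m : J3Stmt.SL := ⟨!![2, 0; 0, 2], by decide⟩

theorem m_ne : m ≠ 1 := by decide

theorem m_sq : m * m = 1 := by decide

theorem m_comm : ∀ g : J3Stmt.SL, g * m = m * g := by decide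

theorem main : J3Stmt.T1.{u} := by
  intro X _ hH
  obtain ⟨hfin, hES, hcard, hexp, ⟨e⟩, hO2, _⟩ := hH
  obtain ⟨t0, ht0⟩ := QuotientGroup.mk_surjective (s := pCore 3 X) (e.symm m)
  have hq1 : (e.symm m) ≠ 1 := by
    intro h
    apply m_ne
    have := congrArg e h
    simpa using this
  have hq2 : (e.symm m) * (e.symm m) = 1 := by
    rw [← map_mul, m_sq, map_one]
  have hqc : ∀ q : X ⧸ pCore 3 X, q * e.symm m = e.symm m * q := by
    intro q
    apply e.injective
    simp only [map_mul, MulEquiv.apply_symm_apply]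
    exact m_comm (e q)
  have hmk : (QuotientGroup.mk (t0 ^ 3) : X ⧸ pCore 3 X) = e.symm m := by
    rw [QuotientGroup.mk_pow, ht0, pow_succ, pow_two, hq2, one_mul]
  have hsqR : t0 * t0 ∈ pCore 3 X := by
    rw [← QuotientGroup.eq_one_iff, QuotientGroup.mk_mul, ht0, hq2]
  have htt : t0 ^ 3 * t0 ^ 3 = 1 := by
    have h1 := hexp _ hsqR
    have h2 : t0 ^ 3 * t0 ^ 3 = (t0 * t0) ^ 3 := by
      simp only [pow_succ, pow_zero, one_mul, mul_assoc]
    rw [h2, h1]
  have htR : t0 ^ 3 ∉ pCore 3 X := by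
    intro h
    rw [← QuotientGroup.eq_one_iff, hmk] at h
    exact hq1 h
  have hcomm : ∀ x : X, x * t0 ^ 3 * x⁻¹ * (t0 ^ 3)⁻¹ ∈ pCore 3 X := by
    intro x
    rw [← QuotientGroup.eq_one_iff, QuotientGroup.mk_mul, QuotientGroup.mk_mul,
      QuotientGroup.mk_mul, QuotientGroup.mk_inv, QuotientGroup.mk_inv, hmk, hqc]
    group
  refine ⟨t0 ^ 3, htt, htR, hcomm, ?_⟩
  intro hc
  obtain ⟨t, ht⟩ : ∃ t : X, t = t0 ^ 3 := ⟨_, rfl⟩
  rw [← ht] at htt htR hcomm hc
  have hcen : ∀ x : X, x * t = t * x := by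
    intro x
    have hr := hcomm x
    have hrt := hc _ hr
    have h3 := hexp _ hr
    obtain ⟨r, hrdef⟩ : ∃ r : X, r = x * t * x⁻¹ * t⁻¹ := ⟨_, rfl⟩
    rw [← hrdef] at hr hrt h3
    have h1 : r * t = x * t * x⁻¹ := by rw [hrdef]; group
    have h2 : (r * t) * (r * t) = 1 := by
      rw [h1]
      calc x * t * x⁻¹ * (x * t * x⁻¹) = x * (t * t) * x⁻¹ := by group
        _ = 1 := by rw [htt]; group
    have h4 : r * r = 1 := by
      calc r * r = r * r * (t * t) := by rw [htt, mul_one]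
        _ = r * (r * t) * t := by group
        _ = r * (t * r) * t := by rw [hrt]
        _ = (r * t) * (r * t) := by group
        _ = 1 := h2
    have h5 : r = 1 := by
      calc r = r ^ 3 * (r * r)⁻¹ := by group
        _ = 1 := by rw [h3, h4]; group
    rw [h5] at hrdef
    calc x * t = (x * t * x⁻¹ * t⁻¹) * t * x := by group
      _ = t * x := by rw [← hrdef, one_mul]
  have ht1 : t ≠ 1 := by
    intro h
    apply htR
    rw [h]
    exact one_mem _
  haveI : Fact (Nat.Prime 2) := ⟨Nat.prime_two⟩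
  have hot : orderOf t = 2 := orderOf_eq_prime (by rw [pow_two]; exact htt) ht1
  have hle : Subgroup.zpowers t ≤ Subgroup.center X := by
    rw [Subgroup.zpowers_le, Subgroup.mem_center_iff]
    exact hcen
  have hnormal : (Subgroup.zpowers t).Normal := by
    refine ⟨fun n hn g => ?_⟩
    have := Subgroup.mem_center_iff.1 (hle hn) g
    rw [this, mul_inv_cancel_right]
    exact hn
  have hp : IsPGroup 2 (Subgroup.zpowers t) := by
    apply IsPGroup.of_card (n := 1)
    rw [Nat.card_zpowers, hot, pow_one]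
  have hle2 : Subgroup.zpowers t ≤ pCore 2 X := le_sSup ⟨hnormal, hp⟩
  rw [hO2] at hle2
  exact ht1 (Subgroup.mem_bot.1 (hle2 (Subgroup.mem_zpowers t)))

end Cfsg.Agent.Lib.Helper28.J3T1
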