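import Mathlib
import Cfsg.Agent.Lib.Helper96.SylAltBasic

/-!
# S2221 piece OSC: an odd number of transpositions forces a central one
-/

set_option autoImplicit false
set_option linter.style.haveILetI false

namespace Cfsg.Agent.Lib.Helper28.SAOSC

open Equiv Cfsg.Agent.Lib.Lead.SylTwoSym Cfsg.Agent.Lib.Helper96.SylAltStmt
  Cfsg.Agent.Lib.Helper96.SylAltBasic

/-- the conjugation action of `S` on its transpositions, as a homomorphism -/
noncomputable def actHom {Ω : Type} [DecidableEq Ω] [Fintype Ω] (S : Subgroup (Perm Ω)) :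
    ↥S →* Perm ↥(swapsIn S) :=
  (conjHom (swapsIn S)).comp (Subgroup.inclusion (le_normalizer_swapsIn S))

theorem actHom_apply {Ω : Type} [DecidableEq Ω] [Fintype Ω] (S : Subgroup (Perm Ω))
    (s : ↥S) (τ : ↥(swapsIn S)) :
    ((actHom S s τ : ↥(swapsIn S)) : Perm Ω) = (s : Perm Ω) * τ * (s : Perm Ω)⁻¹ := rfl

theorem main : Cfsg.Agent.Lib.Helper96.SylAltStmt.OSC' := by
  intro hCARD Ω _ _ S hS hodd
  classical
  have hcard := (hCARD Ω S hS).1
  letI : MulAction ↥S ↥(swapsIn S) := MulAction.compHom ↥(swapsIn S) (actHom S)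
  haveI : Fact (Nat.Prime 2) := ⟨Nat.prime_two⟩
  have hnd : ¬ 2 ∣ Nat.card ↥(swapsIn S) := by
    rw [hcard]
    exact fun h => (Nat.not_even_iff_odd.mpr hodd) (even_iff_two_dvd.mpr h)
  obtain ⟨τ, hτ⟩ := IsPGroup.nonempty_fixed_point_of_prime_not_dvd_card (p := 2) hS.1
    ↥(swapsIn S) hnd
  refine ⟨τ.1, τ.2, ?_⟩
  intro s hs
  have h1 : (⟨s, hs⟩ : ↥S) • τ = τ := hτ ⟨s, hs⟩
  have h2 : s * (τ : Perm Ω) * s⁻¹ = τ := by
    have := congrArg (fun t : ↥(swapsIn S) => (t : Perm Ω)) h1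
    exact this
  calc (τ : Perm Ω) * s = (s * (τ : Perm Ω) * s⁻¹) * s := by rw [h2]
    _ = s * τ := by group

end Cfsg.Agent.Lib.Helper28.SAOSC
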