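import Mathlib
import Cfsg.Agent.Lib.Helper96.SylAltBasic

/-!
# S2221 piece OSN: an even number of transpositions leaves no central one
-/

set_option autoImplicit false
set_option linter.style.haveILetI false

namespace Cfsg.Agent.Lib.Helper28.SAOSN

open Equiv Cfsg.Agent.Lib.Lead.SylTwoSym Cfsg.Agent.Lib.Helper96.SylAltStmt
  Cfsg.Agent.Lib.Helper96.SylAltBasic

theorem main : Cfsg.Agent.Lib.Helper96.SylAltStmt.OSN' := by
  intro hCARD Ω _ _ S hS hev τ hτ hcen
  classical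
  have hcard := (hCARD Ω S hS).1
  have hmax : Max2 ((S.subgroupOf (Subgroup.normalizer (swapsIn S))).map (conjHom (swapsIn S))) :=
    max2_image hS
  letI : Fintype ↥(swapsIn S) := Fintype.ofFinite _
  have hC := (hCARD ↥(swapsIn S) _ hmax).2
  have hevT : Even (Fintype.card ↥(swapsIn S)) := by
    rw [← Nat.card_eq_fintype_card, hcard]
    exact hev
  obtain ⟨σ, hσ, hmv⟩ := hC hevT ⟨τ, hτ⟩
  apply hmv
  obtain ⟨x, hx, rfl⟩ := hσ.1
  apply Subtype.ext
  rw [conjHom_apply]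
  have hxS : (x : Perm Ω) ∈ S := Subgroup.mem_subgroupOf.mp hx
  have h1 := hcen (x : Perm Ω) hxS
  calc (x : Perm Ω) * τ * (x : Perm Ω)⁻¹ = (τ * x) * (x : Perm Ω)⁻¹ := by rw [h1]
    _ = τ := by group

end Cfsg.Agent.Lib.Helper28.SAOSN
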