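import Mathlib
import Cfsg.Agent.Lib.Helper96.SylAltBasic
import Cfsg.Agent.Lib.Helper28.SAOSC

/-!
# S2221 piece OSTWO: if the number of transpositions is not a power of two there are two orbits
-/

set_option autoImplicit false
set_option linter.style.haveILetI false

namespace Cfsg.Agent.Lib.Helper28.SAOSTWO

open Equiv Cfsg.Agent.Lib.Lead.SylTwoSym Cfsg.Agent.Lib.Helper96.SylAltStmt
  Cfsg.Agent.Lib.Helper96.SylAltBasic

theorem main : Cfsg.Agent.Lib.Helper96.SylAltStmt.OSTWO' := by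
  intro hCARD Ω _ _ S hS h2 hnp
  classical
  have hcard := (hCARD Ω S hS).1
  have hpos : 0 < Nat.card ↥(swapsIn S) := by
    rw [hcard]
    omega
  obtain ⟨τ₁⟩ : Nonempty ↥(swapsIn S) := (Nat.card_pos_iff.mp hpos).1
  by_contra hcon
  have hall : ∀ τ₂ ∈ swapsIn S, ∃ s ∈ S, s * τ₁.1 * s⁻¹ = τ₂ := by
    intro τ₂ hτ₂
    by_contra h
    push_neg at h
    exact hcon ⟨τ₁.1, τ₁.2, τ₂, hτ₂, h⟩
  letI : MulAction ↥S ↥(swapsIn S) :=
    MulAction.compHom ↥(swapsIn S) (Cfsg.Agent.Lib.Helper28.SAOSC.actHom S)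
  haveI : Fact (Nat.Prime 2) := ⟨Nat.prime_two⟩
  have horb : MulAction.orbit ↥S τ₁ = Set.univ := by
    ext τ₂
    simp only [Set.mem_univ, iff_true]
    obtain ⟨s, hs, he⟩ := hall τ₂.1 τ₂.2
    refine ⟨⟨s, hs⟩, ?_⟩
    apply Subtype.ext
    exact he
  obtain ⟨r, hr⟩ := IsPGroup.card_orbit (p := 2) hS.1 τ₁
  rw [horb, Nat.card_congr (Equiv.Set.univ _), hcard] at hr
  exact hnp r hr

end Cfsg.Agent.Lib.Helper28.SAOSTWO
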