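import Cfsg.Agent.Lib.Helper28.TCMain
import Cfsg.Agent.Lib.Helper28.SGS
import Cfsg.Agent.Lib.Helper28.Iwa

/-!
The permutation representation of a presented group on the cosets of a subgroup, from a
checked coset table of any rank and a checked stabiliser chain: the order of the group, the
representation is faithful and transitive, the subgroup is the stabiliser of the point `0`,
and the points of a class form an orbit of the stabiliser.
-/

set_option autoImplicit false

namespace Cfsg.Agent.Lib.Helper28.StructN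

open Cfsg.Agent.Lib.Helper28.TCKernel Cfsg.Agent.Lib.Helper28.TCSound
open Cfsg.Agent.Lib.Helper28.TCPerm Cfsg.Agent.Lib.Helper28.TCPres
open Cfsg.Agent.Lib.Helper28.SGS Cfsg.Agent.Lib.Helper28.Iwa
open Cfsg.Spor

variable {α : Type} [DecidableEq α]
  {edges : List (α × ℕ × α)} {extra : List (FreeGroup α)} {code : α × Bool → Nat}
  {dec : Nat → α × Bool} {inv : Nat → Nat} {L : Nat} {gens : List α} {pairs : List (α × α)}
  {relW : List (List Nat)}

theorem structN (O : PresOK edges extra code dec inv L gens pairs relW)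
    {n K : Nat} {roots : List Nat} {tp : Nat → Nat → Nat} {pa pl : Nat → Nat}
    {sgW tw : List (List Nat)}
    (C : PermChecks n tp inv pa pl relW sgW tw K roots L) (hn : 0 < n)
    (hidx : (Subgroup.closure ((wp (ltG edges extra dec)) '' {w | w ∈ sgW})).index = n)
    (hK : ∀ k, k < K → nthD [] tw k ∈ sgAll inv sgW)
    (hroots : ∀ r ∈ (0 :: roots), ∀ r' ∈ (0 :: roots),
      clsOf roots r = clsOf roots r' → r = r')
    {X k d : Nat} {xt rk par sy : Nat → Nat → Nat} {lv bs ns : Nat → Nat}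
    {defs : List (List Nat)} {prs : List (List Nat × List Nat)}
    (S : Checks n L X k d tp xt rk par sy lv bs ns defs prs)
    (N : Nat) (hN : prodN ns k = N)
    (hfin : Finite (Grp edges extra)) (hle : Nat.card (Grp edges extra) ≤ N) :
    ∃ (φ : Grp edges extra →* Equiv.Perm (Fin n)) (el : Nat → Grp edges extra),
      Nat.card (Grp edges extra) = N ∧
      Function.Injective φ ∧
      (∀ y, y < L → ∀ a : Fin n,
        (((φ (ltG edges extra dec y))⁻¹ a : Fin n) : Nat) = tp y a) ∧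
      (∀ y, y < L → el y = ltG edges extra dec y) ∧
      (∀ uv ∈ prs, wp el uv.1 = wp el uv.2) ∧
      (∀ g, g ∈ Subgroup.closure ((wp (ltG edges extra dec)) '' {w | w ∈ sgW}) ↔
        φ g ⟨0, hn⟩ = ⟨0, hn⟩) ∧
      (∀ b : Fin n, ∃ g : Grp edges extra, φ g ⟨0, hn⟩ = b) ∧
      (∀ x y : Fin n, clsOf roots x.1 = clsOf roots y.1 →
        ∃ h : Grp edges extra, φ h ⟨0, hn⟩ = ⟨0, hn⟩ ∧ φ h x = y) := by
  let lt := ltG edges extra dec
  obtain ⟨φ, hφ⟩ := exists_hom O (letterPerm C) (letterPerm_inv C) (letterPerm_rel C)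
  have hφ' : ∀ y, y < L → ∀ a : Fin n, (((φ (lt y))⁻¹ a : Fin n) : Nat) = tp y a := by
    intro y hy a
    rw [hφ y hy]; exact letterPerm_inv_apply C y hy a
  obtain ⟨hcard, hinj, el, hel, heq⟩ := SGS.main S φ lt hφ' N hN hle
  have htr0 := transitive C hn lt φ hφ
  have htr : ∀ b : Fin n, ∃ g : Grp edges extra, φ g ⟨0, hn⟩ = b := fun b => htr0 b.1 b.2
  -- the stabiliser of the point 0
  obtain ⟨St, hHSt, hStn, hSt⟩ := index_dvd C hn _ lt φ hφ rfl
  have hStH : St ≤ Subgroup.closure ((wp lt) '' {w | w ∈ sgW}) := by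
    have h1 := Subgroup.relIndex_mul_index hHSt
    rw [hStn, hidx] at h1
    have h2 : (Subgroup.closure ((wp lt) '' {w | w ∈ sgW})).relIndex St = 1 := by
      have : (Subgroup.closure ((wp lt) '' {w | w ∈ sgW})).relIndex St * n = 1 * n := by
        rw [h1, one_mul]
      exact Nat.eq_of_mul_eq_mul_right hn this
    exact Subgroup.relIndex_eq_one.mp h2
  have hI : ∀ y, y < L → lt (inv y) = (lt y)⁻¹ := ltG_inv O
  have hKSt : ∀ k, k < K → wp lt (nthD [] tw k) ∈ St := by
    intro k hk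
    apply hHSt
    exact sgAll_mem _ lt inv L sgW hI C.sgL
      (fun w hw => Subgroup.subset_closure (Set.mem_image_of_mem _ hw)) _ (hK k hk)
  have hcls : ∀ x y : Fin n, clsOf roots x.1 = clsOf roots y.1 →
      ∃ h : Grp edges extra, φ h ⟨0, hn⟩ = ⟨0, hn⟩ ∧ φ h x = y := by
    intro x y hxy
    obtain ⟨r1, hr1, hm1, hc1, h1, hh1, e1⟩ := reach C lt φ hφ St hKSt x.1 x.2
    obtain ⟨r2, hr2, hm2, hc2, h2, hh2, e2⟩ := reach C lt φ hφ St hKSt y.1 y.2
    have hm1' : r1 ∈ (0 :: roots) := by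
      rcases hm1 with h | h
      · rw [h]; exact List.mem_cons_self
      · exact List.mem_cons_of_mem _ h
    have hm2' : r2 ∈ (0 :: roots) := by
      rcases hm2 with h | h
      · rw [h]; exact List.mem_cons_self
      · exact List.mem_cons_of_mem _ h
    have hr : r1 = r2 := hroots r1 hm1' r2 hm2' (by rw [hc1, hc2, hxy])
    subst hr
    have f1 : φ h1 ⟨0, hn⟩ = ⟨0, hn⟩ := (hSt h1).mp hh1
    have f2 : φ h2 ⟨0, hn⟩ = ⟨0, hn⟩ := (hSt h2).mp hh2
    refine ⟨h2 * h1⁻¹, ?_, ?_⟩
    · rw [pmul]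
      have : φ h1⁻¹ ⟨0, hn⟩ = ⟨0, hn⟩ := by
        conv_lhs => rw [← f1]
        exact pinv1 φ h1 _
      rw [this, f2]
    · have ex : φ h1 ⟨r1, hr1⟩ = x := e1
      have ey : φ h2 ⟨r1, hr1⟩ = y := e2
      rw [pmul, ← ex, pinv1, ey]
  refine ⟨φ, el, hcard, hinj, hφ', hel, heq, ?_, htr, hcls⟩
  intro g
  constructor
  · intro hg
    exact (hSt g).mp (hHSt hg)
  · intro hg
    exact hStH ((hSt g).mpr hg)

end Cfsg.Agent.Lib.Helper28.StructN
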