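import Cfsg.Agent.Lib.Helper28.T1689UT
import Cfsg.Agent.Lib.Helper28.TCJoin

set_option autoImplicit false
set_option Elab.async false

namespace Cfsg.Agent.Lib.Helper28.T1689UC6

open Cfsg.Agent.Lib.Helper28.TCKernel Cfsg.Agent.Lib.Helper28.TCJoin Cfsg.Agent.Lib.Helper28.T1689UT

theorem chk0 : allTree chkName 10 49152 = true := by decide +kernel
theorem chk1 : allTree chkName 10 50176 = true := by decide +kernel
theorem chk2 : allTree chkName 10 51200 = true := by decide +kernel
theorem chk3 : allTree chkName 10 52224 = true := by decide +kernel
theorem chk4 : allTree chkName 10 53248 = true := by decide +kernel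
theorem chk5 : allTree chkName 10 54272 = true := by decide +kernel
theorem chk6 : allTree chkName 10 55296 = true := by decide +kernel
theorem chk7 : allTree chkName 10 56320 = true := by decide +kernel
theorem chk : allTree chkName 13 49152 = true :=
  (join chkName 12 49152 (join chkName 11 49152 (join chkName 10 49152 chk0 chk1) (join chkName 10 51200 chk2 chk3)) (join chkName 11 53248 (join chkName 10 53248 chk4 chk5) (join chkName 10 55296 chk6 chk7)))

end Cfsg.Agent.Lib.Helper28.T1689UC6
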