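import Cfsg.Agent.Lib.Helper28.TF23cLT
import Cfsg.Agent.Lib.Helper28.TCJoin

set_option autoImplicit false
set_option Elab.async false

namespace Cfsg.Agent.Lib.Helper28.TF23cLC2

open Cfsg.Agent.Lib.Helper28.TCKernel Cfsg.Agent.Lib.Helper28.TCJoin Cfsg.Agent.Lib.Helper28.TF23cLT

theorem chk0 : allTree chkPoint 10 16384 = true := by decide +kernel
theorem chk1 : allTree chkPoint 10 17408 = true := by decide +kernel
theorem chk2 : allTree chkPoint 10 18432 = true := by decide +kernel
theorem chk3 : allTree chkPoint 10 19456 = true := by decide +kernel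
theorem chk4 : allTree chkPoint 10 20480 = true := by decide +kernel
theorem chk5 : allTree chkPoint 10 21504 = true := by decide +kernel
theorem chk6 : allTree chkPoint 10 22528 = true := by decide +kernel
theorem chk7 : allTree chkPoint 10 23552 = true := by decide +kernel
theorem chk : allTree chkPoint 13 16384 = true :=
  (join chkPoint 12 16384 (join chkPoint 11 16384 (join chkPoint 10 16384 chk0 chk1) (join chkPoint 10 18432 chk2 chk3)) (join chkPoint 11 20480 (join chkPoint 10 20480 chk4 chk5) (join chkPoint 10 22528 chk6 chk7)))

end Cfsg.Agent.Lib.Helper28.TF23cLC2
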