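import Cfsg.Agent.Lib.Helper28.TF23cLT
import Cfsg.Agent.Lib.Helper28.TCJoin

set_option autoImplicit false
set_option Elab.async false

namespace Cfsg.Agent.Lib.Helper28.TF23cLC3

open Cfsg.Agent.Lib.Helper28.TCKernel Cfsg.Agent.Lib.Helper28.TCJoin Cfsg.Agent.Lib.Helper28.TF23cLT

theorem chk0 : allTree chkPoint 10 24576 = true := by decide +kernel
theorem chk1 : allTree chkPoint 10 25600 = true := by decide +kernel
theorem chk2 : allTree chkPoint 10 26624 = true := by decide +kernel
theorem chk3 : allTree chkPoint 10 27648 = true := by decide +kernel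
theorem chk4 : allTree chkPoint 10 28672 = true := by decide +kernel
theorem chk5 : allTree chkPoint 10 29696 = true := by decide +kernel
theorem chk6 : allTree chkPoint 10 30720 = true := by decide +kernel
theorem chk7 : allTree chkPoint 10 31744 = true := by decide +kernel
theorem chk : allTree chkPoint 13 24576 = true :=
  (join chkPoint 12 24576 (join chkPoint 11 24576 (join chkPoint 10 24576 chk0 chk1) (join chkPoint 10 26624 chk2 chk3)) (join chkPoint 11 28672 (join chkPoint 10 28672 chk4 chk5) (join chkPoint 10 30720 chk6 chk7)))

end Cfsg.Agent.Lib.Helper28.TF23cLC3
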