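import Cfsg.Agent.Lib.Helper28.THeTUT
import Cfsg.Agent.Lib.Helper28.TCJoin

set_option autoImplicit false
set_option Elab.async false

namespace Cfsg.Agent.Lib.Helper28.THeTUC1

open Cfsg.Agent.Lib.Helper28.TCKernel Cfsg.Agent.Lib.Helper28.TCJoin Cfsg.Agent.Lib.Helper28.THeTUT

theorem chk0 : allTree chkName 11 16384 = true := by decide +kernel
theorem chk1 : allTree chkName 11 18432 = true := by decide +kernel
theorem chk2 : allTree chkName 11 20480 = true := by decide +kernel
theorem chk3 : allTree chkName 11 22528 = true := by decide +kernel
theorem chk4 : allTree chkName 11 24576 = true := by decide +kernel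
theorem chk5 : allTree chkName 11 26624 = true := by decide +kernel
theorem chk6 : allTree chkName 11 28672 = true := by decide +kernel
theorem chk7 : allTree chkName 11 30720 = true := by decide +kernel
theorem chk : allTree chkName 14 16384 = true :=
  (join chkName 13 16384 (join chkName 12 16384 (join chkName 11 16384 chk0 chk1) (join chkName 11 20480 chk2 chk3)) (join chkName 12 24576 (join chkName 11 24576 chk4 chk5) (join chkName 11 28672 chk6 chk7)))

end Cfsg.Agent.Lib.Helper28.THeTUC1
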