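import Cfsg.Agent.Lib.Helper28.THeTUT
import Cfsg.Agent.Lib.Helper28.TCJoin

set_option autoImplicit false
set_option Elab.async false

namespace Cfsg.Agent.Lib.Helper28.THeTUC10

open Cfsg.Agent.Lib.Helper28.TCKernel Cfsg.Agent.Lib.Helper28.TCJoin Cfsg.Agent.Lib.Helper28.THeTUT

theorem chk0 : allTree chkName 11 163840 = true := by decide +kernel
theorem chk1 : allTree chkName 11 165888 = true := by decide +kernel
theorem chk2 : allTree chkName 11 167936 = true := by decide +kernel
theorem chk3 : allTree chkName 11 169984 = true := by decide +kernel
theorem chk4 : allTree chkName 11 172032 = true := by decide +kernel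
theorem chk5 : allTree chkName 11 174080 = true := by decide +kernel
theorem chk6 : allTree chkName 11 176128 = true := by decide +kernel
theorem chk7 : allTree chkName 11 178176 = true := by decide +kernel
theorem chk : allTree chkName 14 163840 = true :=
  (join chkName 13 163840 (join chkName 12 163840 (join chkName 11 163840 chk0 chk1) (join chkName 11 167936 chk2 chk3)) (join chkName 12 172032 (join chkName 11 172032 chk4 chk5) (join chkName 11 176128 chk6 chk7)))

end Cfsg.Agent.Lib.Helper28.THeTUC10
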