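import Cfsg.Agent.Lib.Helper28.THeTUT
import Cfsg.Agent.Lib.Helper28.TCJoin

set_option autoImplicit false
set_option Elab.async false

namespace Cfsg.Agent.Lib.Helper28.THeTUC11

open Cfsg.Agent.Lib.Helper28.TCKernel Cfsg.Agent.Lib.Helper28.TCJoin Cfsg.Agent.Lib.Helper28.THeTUT

theorem chk0 : allTree chkName 11 180224 = true := by decide +kernel
theorem chk1 : allTree chkName 11 182272 = true := by decide +kernel
theorem chk2 : allTree chkName 11 184320 = true := by decide +kernel
theorem chk3 : allTree chkName 11 186368 = true := by decide +kernel
theorem chk4 : allTree chkName 11 188416 = true := by decide +kernel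
theorem chk5 : allTree chkName 11 190464 = true := by decide +kernel
theorem chk6 : allTree chkName 11 192512 = true := by decide +kernel
theorem chk7 : allTree chkName 11 194560 = true := by decide +kernel
theorem chk : allTree chkName 14 180224 = true :=
  (join chkName 13 180224 (join chkName 12 180224 (join chkName 11 180224 chk0 chk1) (join chkName 11 184320 chk2 chk3)) (join chkName 12 188416 (join chkName 11 188416 chk4 chk5) (join chkName 11 192512 chk6 chk7)))

end Cfsg.Agent.Lib.Helper28.THeTUC11
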