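import Cfsg.Agent.Lib.Helper28.THeTUT
import Cfsg.Agent.Lib.Helper28.TCJoin

set_option autoImplicit false
set_option Elab.async false

namespace Cfsg.Agent.Lib.Helper28.THeTUC12

open Cfsg.Agent.Lib.Helper28.TCKernel Cfsg.Agent.Lib.Helper28.TCJoin Cfsg.Agent.Lib.Helper28.THeTUT

theorem chk0 : allTree chkName 11 196608 = true := by decide +kernel
theorem chk1 : allTree chkName 11 198656 = true := by decide +kernel
theorem chk2 : allTree chkName 11 200704 = true := by decide +kernel
theorem chk3 : allTree chkName 11 202752 = true := by decide +kernel
theorem chk4 : allTree chkName 11 204800 = true := by decide +kernel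
theorem chk5 : allTree chkName 11 206848 = true := by decide +kernel
theorem chk6 : allTree chkName 11 208896 = true := by decide +kernel
theorem chk7 : allTree chkName 11 210944 = true := by decide +kernel
theorem chk : allTree chkName 14 196608 = true :=
  (join chkName 13 196608 (join chkName 12 196608 (join chkName 11 196608 chk0 chk1) (join chkName 11 200704 chk2 chk3)) (join chkName 12 204800 (join chkName 11 204800 chk4 chk5) (join chkName 11 208896 chk6 chk7)))

end Cfsg.Agent.Lib.Helper28.THeTUC12
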