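import Cfsg.Agent.Lib.Helper28.THeTUT
import Cfsg.Agent.Lib.Helper28.TCJoin

set_option autoImplicit false
set_option Elab.async false

namespace Cfsg.Agent.Lib.Helper28.THeTUC13

open Cfsg.Agent.Lib.Helper28.TCKernel Cfsg.Agent.Lib.Helper28.TCJoin Cfsg.Agent.Lib.Helper28.THeTUT

theorem chk0 : allTree chkName 11 212992 = true := by decide +kernel
theorem chk1 : allTree chkName 11 215040 = true := by decide +kernel
theorem chk2 : allTree chkName 11 217088 = true := by decide +kernel
theorem chk3 : allTree chkName 11 219136 = true := by decide +kernel
theorem chk4 : allTree chkName 11 221184 = true := by decide +kernel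
theorem chk5 : allTree chkName 11 223232 = true := by decide +kernel
theorem chk6 : allTree chkName 11 225280 = true := by decide +kernel
theorem chk7 : allTree chkName 11 227328 = true := by decide +kernel
theorem chk : allTree chkName 14 212992 = true :=
  (join chkName 13 212992 (join chkName 12 212992 (join chkName 11 212992 chk0 chk1) (join chkName 11 217088 chk2 chk3)) (join chkName 12 221184 (join chkName 11 221184 chk4 chk5) (join chkName 11 225280 chk6 chk7)))

end Cfsg.Agent.Lib.Helper28.THeTUC13
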