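import Cfsg.Agent.Lib.Helper28.THeTUT
import Cfsg.Agent.Lib.Helper28.TCJoin

set_option autoImplicit false
set_option Elab.async false

namespace Cfsg.Agent.Lib.Helper28.THeTUC14

open Cfsg.Agent.Lib.Helper28.TCKernel Cfsg.Agent.Lib.Helper28.TCJoin Cfsg.Agent.Lib.Helper28.THeTUT

theorem chk0 : allTree chkName 11 229376 = true := by decide +kernel
theorem chk1 : allTree chkName 11 231424 = true := by decide +kernel
theorem chk2 : allTree chkName 11 233472 = true := by decide +kernel
theorem chk3 : allTree chkName 11 235520 = true := by decide +kernel
theorem chk4 : allTree chkName 11 237568 = true := by decide +kernel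
theorem chk5 : allTree chkName 11 239616 = true := by decide +kernel
theorem chk6 : allTree chkName 11 241664 = true := by decide +kernel
theorem chk7 : allTree chkName 11 243712 = true := by decide +kernel
theorem chk : allTree chkName 14 229376 = true :=
  (join chkName 13 229376 (join chkName 12 229376 (join chkName 11 229376 chk0 chk1) (join chkName 11 233472 chk2 chk3)) (join chkName 12 237568 (join chkName 11 237568 chk4 chk5) (join chkName 11 241664 chk6 chk7)))

end Cfsg.Agent.Lib.Helper28.THeTUC14
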