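import Cfsg.Agent.Lib.Helper28.THeTUT
import Cfsg.Agent.Lib.Helper28.TCJoin

set_option autoImplicit false
set_option Elab.async false

namespace Cfsg.Agent.Lib.Helper28.THeTUC15

open Cfsg.Agent.Lib.Helper28.TCKernel Cfsg.Agent.Lib.Helper28.TCJoin Cfsg.Agent.Lib.Helper28.THeTUT

theorem chk0 : allTree chkName 11 245760 = true := by decide +kernel
theorem chk1 : allTree chkName 11 247808 = true := by decide +kernel
theorem chk2 : allTree chkName 11 249856 = true := by decide +kernel
theorem chk3 : allTree chkName 11 251904 = true := by decide +kernel
theorem chk4 : allTree chkName 11 253952 = true := by decide +kernel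
theorem chk5 : allTree chkName 11 256000 = true := by decide +kernel
theorem chk6 : allTree chkName 11 258048 = true := by decide +kernel
theorem chk7 : allTree chkName 11 260096 = true := by decide +kernel
theorem chk : allTree chkName 14 245760 = true :=
  (join chkName 13 245760 (join chkName 12 245760 (join chkName 11 245760 chk0 chk1) (join chkName 11 249856 chk2 chk3)) (join chkName 12 253952 (join chkName 11 253952 chk4 chk5) (join chkName 11 258048 chk6 chk7)))

end Cfsg.Agent.Lib.Helper28.THeTUC15
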