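import Cfsg.Agent.Lib.Helper28.THeTUT
import Cfsg.Agent.Lib.Helper28.TCJoin

set_option autoImplicit false
set_option Elab.async false

namespace Cfsg.Agent.Lib.Helper28.THeTUC16

open Cfsg.Agent.Lib.Helper28.TCKernel Cfsg.Agent.Lib.Helper28.TCJoin Cfsg.Agent.Lib.Helper28.THeTUT

theorem chk0 : allTree chkName 11 262144 = true := by decide +kernel
theorem chk1 : allTree chkName 11 264192 = true := by decide +kernel
theorem chk2 : allTree chkName 11 266240 = true := by decide +kernel
theorem chk3 : allTree chkName 11 268288 = true := by decide +kernel
theorem chk4 : allTree chkName 11 270336 = true := by decide +kernel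
theorem chk5 : allTree chkName 11 272384 = true := by decide +kernel
theorem chk6 : allTree chkName 11 274432 = true := by decide +kernel
theorem chk7 : allTree chkName 11 276480 = true := by decide +kernel
theorem chk : allTree chkName 14 262144 = true :=
  (join chkName 13 262144 (join chkName 12 262144 (join chkName 11 262144 chk0 chk1) (join chkName 11 266240 chk2 chk3)) (join chkName 12 270336 (join chkName 11 270336 chk4 chk5) (join chkName 11 274432 chk6 chk7)))

end Cfsg.Agent.Lib.Helper28.THeTUC16
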