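import Cfsg.Agent.Lib.Helper28.THeTUT
import Cfsg.Agent.Lib.Helper28.TCJoin

set_option autoImplicit false
set_option Elab.async false

namespace Cfsg.Agent.Lib.Helper28.THeTUC17

open Cfsg.Agent.Lib.Helper28.TCKernel Cfsg.Agent.Lib.Helper28.TCJoin Cfsg.Agent.Lib.Helper28.THeTUT

theorem chk0 : allTree chkName 11 278528 = true := by decide +kernel
theorem chk1 : allTree chkName 11 280576 = true := by decide +kernel
theorem chk2 : allTree chkName 11 282624 = true := by decide +kernel
theorem chk3 : allTree chkName 11 284672 = true := by decide +kernel
theorem chk4 : allTree chkName 11 286720 = true := by decide +kernel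
theorem chk5 : allTree chkName 11 288768 = true := by decide +kernel
theorem chk6 : allTree chkName 11 290816 = true := by decide +kernel
theorem chk7 : allTree chkName 11 292864 = true := by decide +kernel
theorem chk : allTree chkName 14 278528 = true :=
  (join chkName 13 278528 (join chkName 12 278528 (join chkName 11 278528 chk0 chk1) (join chkName 11 282624 chk2 chk3)) (join chkName 12 286720 (join chkName 11 286720 chk4 chk5) (join chkName 11 290816 chk6 chk7)))

end Cfsg.Agent.Lib.Helper28.THeTUC17
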