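import Cfsg.Agent.Lib.Helper28.THeTUT
import Cfsg.Agent.Lib.Helper28.TCJoin

set_option autoImplicit false
set_option Elab.async false

namespace Cfsg.Agent.Lib.Helper28.THeTUC18

open Cfsg.Agent.Lib.Helper28.TCKernel Cfsg.Agent.Lib.Helper28.TCJoin Cfsg.Agent.Lib.Helper28.THeTUT

theorem chk0 : allTree chkName 11 294912 = true := by decide +kernel
theorem chk1 : allTree chkName 11 296960 = true := by decide +kernel
theorem chk2 : allTree chkName 11 299008 = true := by decide +kernel
theorem chk3 : allTree chkName 11 301056 = true := by decide +kernel
theorem chk4 : allTree chkName 11 303104 = true := by decide +kernel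
theorem chk5 : allTree chkName 11 305152 = true := by decide +kernel
theorem chk6 : allTree chkName 11 307200 = true := by decide +kernel
theorem chk7 : allTree chkName 11 309248 = true := by decide +kernel
theorem chk : allTree chkName 14 294912 = true :=
  (join chkName 13 294912 (join chkName 12 294912 (join chkName 11 294912 chk0 chk1) (join chkName 11 299008 chk2 chk3)) (join chkName 12 303104 (join chkName 11 303104 chk4 chk5) (join chkName 11 307200 chk6 chk7)))

end Cfsg.Agent.Lib.Helper28.THeTUC18
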