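import Cfsg.Agent.Lib.Helper28.THeTUT
import Cfsg.Agent.Lib.Helper28.TCJoin

set_option autoImplicit false
set_option Elab.async false

namespace Cfsg.Agent.Lib.Helper28.THeTUC19

open Cfsg.Agent.Lib.Helper28.TCKernel Cfsg.Agent.Lib.Helper28.TCJoin Cfsg.Agent.Lib.Helper28.THeTUT

theorem chk0 : allTree chkName 11 311296 = true := by decide +kernel
theorem chk1 : allTree chkName 11 313344 = true := by decide +kernel
theorem chk2 : allTree chkName 11 315392 = true := by decide +kernel
theorem chk3 : allTree chkName 11 317440 = true := by decide +kernel
theorem chk4 : allTree chkName 11 319488 = true := by decide +kernel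
theorem chk5 : allTree chkName 11 321536 = true := by decide +kernel
theorem chk6 : allTree chkName 11 323584 = true := by decide +kernel
theorem chk7 : allTree chkName 11 325632 = true := by decide +kernel
theorem chk : allTree chkName 14 311296 = true :=
  (join chkName 13 311296 (join chkName 12 311296 (join chkName 11 311296 chk0 chk1) (join chkName 11 315392 chk2 chk3)) (join chkName 12 319488 (join chkName 11 319488 chk4 chk5) (join chkName 11 323584 chk6 chk7)))

end Cfsg.Agent.Lib.Helper28.THeTUC19
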