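import Cfsg.Agent.Lib.Helper28.THeTUT
import Cfsg.Agent.Lib.Helper28.TCJoin

set_option autoImplicit false
set_option Elab.async false

namespace Cfsg.Agent.Lib.Helper28.THeTUC2

open Cfsg.Agent.Lib.Helper28.TCKernel Cfsg.Agent.Lib.Helper28.TCJoin Cfsg.Agent.Lib.Helper28.THeTUT

theorem chk0 : allTree chkName 11 32768 = true := by decide +kernel
theorem chk1 : allTree chkName 11 34816 = true := by decide +kernel
theorem chk2 : allTree chkName 11 36864 = true := by decide +kernel
theorem chk3 : allTree chkName 11 38912 = true := by decide +kernel
theorem chk4 : allTree chkName 11 40960 = true := by decide +kernel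
theorem chk5 : allTree chkName 11 43008 = true := by decide +kernel
theorem chk6 : allTree chkName 11 45056 = true := by decide +kernel
theorem chk7 : allTree chkName 11 47104 = true := by decide +kernel
theorem chk : allTree chkName 14 32768 = true :=
  (join chkName 13 32768 (join chkName 12 32768 (join chkName 11 32768 chk0 chk1) (join chkName 11 36864 chk2 chk3)) (join chkName 12 40960 (join chkName 11 40960 chk4 chk5) (join chkName 11 45056 chk6 chk7)))

end Cfsg.Agent.Lib.Helper28.THeTUC2
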