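import Cfsg.Agent.Lib.Helper28.THeTUT
import Cfsg.Agent.Lib.Helper28.TCJoin

set_option autoImplicit false
set_option Elab.async false

namespace Cfsg.Agent.Lib.Helper28.THeTUC20

open Cfsg.Agent.Lib.Helper28.TCKernel Cfsg.Agent.Lib.Helper28.TCJoin Cfsg.Agent.Lib.Helper28.THeTUT

theorem chk0 : allTree chkName 11 327680 = true := by decide +kernel
theorem chk1 : allTree chkName 11 329728 = true := by decide +kernel
theorem chk2 : allTree chkName 11 331776 = true := by decide +kernel
theorem chk3 : allTree chkName 11 333824 = true := by decide +kernel
theorem chk4 : allTree chkName 11 335872 = true := by decide +kernel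
theorem chk5 : allTree chkName 11 337920 = true := by decide +kernel
theorem chk6 : allTree chkName 11 339968 = true := by decide +kernel
theorem chk7 : allTree chkName 11 342016 = true := by decide +kernel
theorem chk : allTree chkName 14 327680 = true :=
  (join chkName 13 327680 (join chkName 12 327680 (join chkName 11 327680 chk0 chk1) (join chkName 11 331776 chk2 chk3)) (join chkName 12 335872 (join chkName 11 335872 chk4 chk5) (join chkName 11 339968 chk6 chk7)))

end Cfsg.Agent.Lib.Helper28.THeTUC20
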