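import Cfsg.Agent.Lib.Helper28.THeTUT
import Cfsg.Agent.Lib.Helper28.TCJoin

set_option autoImplicit false
set_option Elab.async false

namespace Cfsg.Agent.Lib.Helper28.THeTUC21

open Cfsg.Agent.Lib.Helper28.TCKernel Cfsg.Agent.Lib.Helper28.TCJoin Cfsg.Agent.Lib.Helper28.THeTUT

theorem chk0 : allTree chkName 11 344064 = true := by decide +kernel
theorem chk1 : allTree chkName 11 346112 = true := by decide +kernel
theorem chk2 : allTree chkName 11 348160 = true := by decide +kernel
theorem chk3 : allTree chkName 11 350208 = true := by decide +kernel
theorem chk4 : allTree chkName 11 352256 = true := by decide +kernel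
theorem chk5 : allTree chkName 11 354304 = true := by decide +kernel
theorem chk6 : allTree chkName 11 356352 = true := by decide +kernel
theorem chk7 : allTree chkName 11 358400 = true := by decide +kernel
theorem chk : allTree chkName 14 344064 = true :=
  (join chkName 13 344064 (join chkName 12 344064 (join chkName 11 344064 chk0 chk1) (join chkName 11 348160 chk2 chk3)) (join chkName 12 352256 (join chkName 11 352256 chk4 chk5) (join chkName 11 356352 chk6 chk7)))

end Cfsg.Agent.Lib.Helper28.THeTUC21
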