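import Cfsg.Agent.Lib.Helper28.THeTUT
import Cfsg.Agent.Lib.Helper28.TCJoin

set_option autoImplicit false
set_option Elab.async false

namespace Cfsg.Agent.Lib.Helper28.THeTUC22

open Cfsg.Agent.Lib.Helper28.TCKernel Cfsg.Agent.Lib.Helper28.TCJoin Cfsg.Agent.Lib.Helper28.THeTUT

theorem chk0 : allTree chkName 11 360448 = true := by decide +kernel
theorem chk1 : allTree chkName 11 362496 = true := by decide +kernel
theorem chk2 : allTree chkName 11 364544 = true := by decide +kernel
theorem chk3 : allTree chkName 11 366592 = true := by decide +kernel
theorem chk4 : allTree chkName 11 368640 = true := by decide +kernel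
theorem chk5 : allTree chkName 11 370688 = true := by decide +kernel
theorem chk6 : allTree chkName 11 372736 = true := by decide +kernel
theorem chk7 : allTree chkName 11 374784 = true := by decide +kernel
theorem chk : allTree chkName 14 360448 = true :=
  (join chkName 13 360448 (join chkName 12 360448 (join chkName 11 360448 chk0 chk1) (join chkName 11 364544 chk2 chk3)) (join chkName 12 368640 (join chkName 11 368640 chk4 chk5) (join chkName 11 372736 chk6 chk7)))

end Cfsg.Agent.Lib.Helper28.THeTUC22
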