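import Cfsg.Agent.Lib.Helper28.THeTUT
import Cfsg.Agent.Lib.Helper28.TCJoin

set_option autoImplicit false
set_option Elab.async false

namespace Cfsg.Agent.Lib.Helper28.THeTUC23

open Cfsg.Agent.Lib.Helper28.TCKernel Cfsg.Agent.Lib.Helper28.TCJoin Cfsg.Agent.Lib.Helper28.THeTUT

theorem chk0 : allTree chkName 11 376832 = true := by decide +kernel
theorem chk1 : allTree chkName 11 378880 = true := by decide +kernel
theorem chk2 : allTree chkName 11 380928 = true := by decide +kernel
theorem chk3 : allTree chkName 11 382976 = true := by decide +kernel
theorem chk4 : allTree chkName 11 385024 = true := by decide +kernel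
theorem chk5 : allTree chkName 11 387072 = true := by decide +kernel
theorem chk6 : allTree chkName 11 389120 = true := by decide +kernel
theorem chk7 : allTree chkName 11 391168 = true := by decide +kernel
theorem chk : allTree chkName 14 376832 = true :=
  (join chkName 13 376832 (join chkName 12 376832 (join chkName 11 376832 chk0 chk1) (join chkName 11 380928 chk2 chk3)) (join chkName 12 385024 (join chkName 11 385024 chk4 chk5) (join chkName 11 389120 chk6 chk7)))

end Cfsg.Agent.Lib.Helper28.THeTUC23
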