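import Cfsg.Agent.Lib.Helper28.THeTUT
import Cfsg.Agent.Lib.Helper28.TCJoin

set_option autoImplicit false
set_option Elab.async false

namespace Cfsg.Agent.Lib.Helper28.THeTUC24

open Cfsg.Agent.Lib.Helper28.TCKernel Cfsg.Agent.Lib.Helper28.TCJoin Cfsg.Agent.Lib.Helper28.THeTUT

theorem chk0 : allTree chkName 11 393216 = true := by decide +kernel
theorem chk1 : allTree chkName 11 395264 = true := by decide +kernel
theorem chk2 : allTree chkName 11 397312 = true := by decide +kernel
theorem chk3 : allTree chkName 11 399360 = true := by decide +kernel
theorem chk4 : allTree chkName 11 401408 = true := by decide +kernel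
theorem chk5 : allTree chkName 11 403456 = true := by decide +kernel
theorem chk6 : allTree chkName 11 405504 = true := by decide +kernel
theorem chk7 : allTree chkName 11 407552 = true := by decide +kernel
theorem chk : allTree chkName 14 393216 = true :=
  (join chkName 13 393216 (join chkName 12 393216 (join chkName 11 393216 chk0 chk1) (join chkName 11 397312 chk2 chk3)) (join chkName 12 401408 (join chkName 11 401408 chk4 chk5) (join chkName 11 405504 chk6 chk7)))

end Cfsg.Agent.Lib.Helper28.THeTUC24
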