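import Cfsg.Agent.Lib.Helper28.THeTUT
import Cfsg.Agent.Lib.Helper28.TCJoin

set_option autoImplicit false
set_option Elab.async false

namespace Cfsg.Agent.Lib.Helper28.THeTUC25

open Cfsg.Agent.Lib.Helper28.TCKernel Cfsg.Agent.Lib.Helper28.TCJoin Cfsg.Agent.Lib.Helper28.THeTUT

theorem chk0 : allTree chkName 11 409600 = true := by decide +kernel
theorem chk1 : allTree chkName 11 411648 = true := by decide +kernel
theorem chk2 : allTree chkName 11 413696 = true := by decide +kernel
theorem chk3 : allTree chkName 11 415744 = true := by decide +kernel
theorem chk4 : allTree chkName 11 417792 = true := by decide +kernel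
theorem chk5 : allTree chkName 11 419840 = true := by decide +kernel
theorem chk6 : allTree chkName 11 421888 = true := by decide +kernel
theorem chk7 : allTree chkName 11 423936 = true := by decide +kernel
theorem chk : allTree chkName 14 409600 = true :=
  (join chkName 13 409600 (join chkName 12 409600 (join chkName 11 409600 chk0 chk1) (join chkName 11 413696 chk2 chk3)) (join chkName 12 417792 (join chkName 11 417792 chk4 chk5) (join chkName 11 421888 chk6 chk7)))

end Cfsg.Agent.Lib.Helper28.THeTUC25
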