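import Cfsg.Agent.Lib.Helper28.THeTUT
import Cfsg.Agent.Lib.Helper28.TCJoin

set_option autoImplicit false
set_option Elab.async false

namespace Cfsg.Agent.Lib.Helper28.THeTUC26

open Cfsg.Agent.Lib.Helper28.TCKernel Cfsg.Agent.Lib.Helper28.TCJoin Cfsg.Agent.Lib.Helper28.THeTUT

theorem chk0 : allTree chkName 11 425984 = true := by decide +kernel
theorem chk1 : allTree chkName 11 428032 = true := by decide +kernel
theorem chk2 : allTree chkName 11 430080 = true := by decide +kernel
theorem chk3 : allTree chkName 11 432128 = true := by decide +kernel
theorem chk4 : allTree chkName 11 434176 = true := by decide +kernel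
theorem chk5 : allTree chkName 11 436224 = true := by decide +kernel
theorem chk6 : allTree chkName 11 438272 = true := by decide +kernel
theorem chk7 : allTree chkName 11 440320 = true := by decide +kernel
theorem chk : allTree chkName 14 425984 = true :=
  (join chkName 13 425984 (join chkName 12 425984 (join chkName 11 425984 chk0 chk1) (join chkName 11 430080 chk2 chk3)) (join chkName 12 434176 (join chkName 11 434176 chk4 chk5) (join chkName 11 438272 chk6 chk7)))

end Cfsg.Agent.Lib.Helper28.THeTUC26
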