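import Cfsg.Agent.Lib.Helper28.THeTUT
import Cfsg.Agent.Lib.Helper28.TCJoin

set_option autoImplicit false
set_option Elab.async false

namespace Cfsg.Agent.Lib.Helper28.THeTUC27

open Cfsg.Agent.Lib.Helper28.TCKernel Cfsg.Agent.Lib.Helper28.TCJoin Cfsg.Agent.Lib.Helper28.THeTUT

theorem chk0 : allTree chkName 11 442368 = true := by decide +kernel
theorem chk1 : allTree chkName 11 444416 = true := by decide +kernel
theorem chk2 : allTree chkName 11 446464 = true := by decide +kernel
theorem chk3 : allTree chkName 11 448512 = true := by decide +kernel
theorem chk4 : allTree chkName 11 450560 = true := by decide +kernel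
theorem chk5 : allTree chkName 11 452608 = true := by decide +kernel
theorem chk6 : allTree chkName 11 454656 = true := by decide +kernel
theorem chk7 : allTree chkName 11 456704 = true := by decide +kernel
theorem chk : allTree chkName 14 442368 = true :=
  (join chkName 13 442368 (join chkName 12 442368 (join chkName 11 442368 chk0 chk1) (join chkName 11 446464 chk2 chk3)) (join chkName 12 450560 (join chkName 11 450560 chk4 chk5) (join chkName 11 454656 chk6 chk7)))

end Cfsg.Agent.Lib.Helper28.THeTUC27
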