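import Cfsg.Agent.Lib.Helper28.THeTUT
import Cfsg.Agent.Lib.Helper28.TCJoin

set_option autoImplicit false
set_option Elab.async false

namespace Cfsg.Agent.Lib.Helper28.THeTUC28

open Cfsg.Agent.Lib.Helper28.TCKernel Cfsg.Agent.Lib.Helper28.TCJoin Cfsg.Agent.Lib.Helper28.THeTUT

theorem chk0 : allTree chkName 11 458752 = true := by decide +kernel
theorem chk1 : allTree chkName 11 460800 = true := by decide +kernel
theorem chk2 : allTree chkName 11 462848 = true := by decide +kernel
theorem chk3 : allTree chkName 11 464896 = true := by decide +kernel
theorem chk4 : allTree chkName 11 466944 = true := by decide +kernel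
theorem chk5 : allTree chkName 11 468992 = true := by decide +kernel
theorem chk6 : allTree chkName 11 471040 = true := by decide +kernel
theorem chk7 : allTree chkName 11 473088 = true := by decide +kernel
theorem chk : allTree chkName 14 458752 = true :=
  (join chkName 13 458752 (join chkName 12 458752 (join chkName 11 458752 chk0 chk1) (join chkName 11 462848 chk2 chk3)) (join chkName 12 466944 (join chkName 11 466944 chk4 chk5) (join chkName 11 471040 chk6 chk7)))

end Cfsg.Agent.Lib.Helper28.THeTUC28
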