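import Cfsg.Agent.Lib.Helper28.THeTUT
import Cfsg.Agent.Lib.Helper28.TCJoin

set_option autoImplicit false
set_option Elab.async false

namespace Cfsg.Agent.Lib.Helper28.THeTUC29

open Cfsg.Agent.Lib.Helper28.TCKernel Cfsg.Agent.Lib.Helper28.TCJoin Cfsg.Agent.Lib.Helper28.THeTUT

theorem chk0 : allTree chkName 11 475136 = true := by decide +kernel
theorem chk1 : allTree chkName 11 477184 = true := by decide +kernel
theorem chk2 : allTree chkName 11 479232 = true := by decide +kernel
theorem chk3 : allTree chkName 11 481280 = true := by decide +kernel
theorem chk4 : allTree chkName 11 483328 = true := by decide +kernel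
theorem chk5 : allTree chkName 11 485376 = true := by decide +kernel
theorem chk6 : allTree chkName 11 487424 = true := by decide +kernel
theorem chk7 : allTree chkName 11 489472 = true := by decide +kernel
theorem chk : allTree chkName 14 475136 = true :=
  (join chkName 13 475136 (join chkName 12 475136 (join chkName 11 475136 chk0 chk1) (join chkName 11 479232 chk2 chk3)) (join chkName 12 483328 (join chkName 11 483328 chk4 chk5) (join chkName 11 487424 chk6 chk7)))

end Cfsg.Agent.Lib.Helper28.THeTUC29
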