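import Cfsg.Agent.Lib.Helper28.THeTUT
import Cfsg.Agent.Lib.Helper28.TCJoin

set_option autoImplicit false
set_option Elab.async false

namespace Cfsg.Agent.Lib.Helper28.THeTUC3

open Cfsg.Agent.Lib.Helper28.TCKernel Cfsg.Agent.Lib.Helper28.TCJoin Cfsg.Agent.Lib.Helper28.THeTUT

theorem chk0 : allTree chkName 11 49152 = true := by decide +kernel
theorem chk1 : allTree chkName 11 51200 = true := by decide +kernel
theorem chk2 : allTree chkName 11 53248 = true := by decide +kernel
theorem chk3 : allTree chkName 11 55296 = true := by decide +kernel
theorem chk4 : allTree chkName 11 57344 = true := by decide +kernel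
theorem chk5 : allTree chkName 11 59392 = true := by decide +kernel
theorem chk6 : allTree chkName 11 61440 = true := by decide +kernel
theorem chk7 : allTree chkName 11 63488 = true := by decide +kernel
theorem chk : allTree chkName 14 49152 = true :=
  (join chkName 13 49152 (join chkName 12 49152 (join chkName 11 49152 chk0 chk1) (join chkName 11 53248 chk2 chk3)) (join chkName 12 57344 (join chkName 11 57344 chk4 chk5) (join chkName 11 61440 chk6 chk7)))

end Cfsg.Agent.Lib.Helper28.THeTUC3
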