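import Cfsg.Agent.Lib.Helper28.THeTUT
import Cfsg.Agent.Lib.Helper28.TCJoin

set_option autoImplicit false
set_option Elab.async false

namespace Cfsg.Agent.Lib.Helper28.THeTUC30

open Cfsg.Agent.Lib.Helper28.TCKernel Cfsg.Agent.Lib.Helper28.TCJoin Cfsg.Agent.Lib.Helper28.THeTUT

theorem chk0 : allTree chkName 11 491520 = true := by decide +kernel
theorem chk1 : allTree chkName 11 493568 = true := by decide +kernel
theorem chk2 : allTree chkName 11 495616 = true := by decide +kernel
theorem chk3 : allTree chkName 11 497664 = true := by decide +kernel
theorem chk4 : allTree chkName 11 499712 = true := by decide +kernel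
theorem chk5 : allTree chkName 11 501760 = true := by decide +kernel
theorem chk6 : allTree chkName 11 503808 = true := by decide +kernel
theorem chk7 : allTree chkName 11 505856 = true := by decide +kernel
theorem chk : allTree chkName 14 491520 = true :=
  (join chkName 13 491520 (join chkName 12 491520 (join chkName 11 491520 chk0 chk1) (join chkName 11 495616 chk2 chk3)) (join chkName 12 499712 (join chkName 11 499712 chk4 chk5) (join chkName 11 503808 chk6 chk7)))

end Cfsg.Agent.Lib.Helper28.THeTUC30
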