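import Cfsg.Agent.Lib.Helper28.THeTUT
import Cfsg.Agent.Lib.Helper28.TCJoin

set_option autoImplicit false
set_option Elab.async false

namespace Cfsg.Agent.Lib.Helper28.THeTUC31

open Cfsg.Agent.Lib.Helper28.TCKernel Cfsg.Agent.Lib.Helper28.TCJoin Cfsg.Agent.Lib.Helper28.THeTUT

theorem chk0 : allTree chkName 11 507904 = true := by decide +kernel
theorem chk1 : allTree chkName 11 509952 = true := by decide +kernel
theorem chk2 : allTree chkName 11 512000 = true := by decide +kernel
theorem chk3 : allTree chkName 11 514048 = true := by decide +kernel
theorem chk4 : allTree chkName 11 516096 = true := by decide +kernel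
theorem chk5 : allTree chkName 11 518144 = true := by decide +kernel
theorem chk6 : allTree chkName 11 520192 = true := by decide +kernel
theorem chk7 : allTree chkName 11 522240 = true := by decide +kernel
theorem chk : allTree chkName 14 507904 = true :=
  (join chkName 13 507904 (join chkName 12 507904 (join chkName 11 507904 chk0 chk1) (join chkName 11 512000 chk2 chk3)) (join chkName 12 516096 (join chkName 11 516096 chk4 chk5) (join chkName 11 520192 chk6 chk7)))

end Cfsg.Agent.Lib.Helper28.THeTUC31
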