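import Cfsg.Agent.Lib.Helper28.THeTUT
import Cfsg.Agent.Lib.Helper28.TCJoin

set_option autoImplicit false
set_option Elab.async false

namespace Cfsg.Agent.Lib.Helper28.THeTUC4

open Cfsg.Agent.Lib.Helper28.TCKernel Cfsg.Agent.Lib.Helper28.TCJoin Cfsg.Agent.Lib.Helper28.THeTUT

theorem chk0 : allTree chkName 11 65536 = true := by decide +kernel
theorem chk1 : allTree chkName 11 67584 = true := by decide +kernel
theorem chk2 : allTree chkName 11 69632 = true := by decide +kernel
theorem chk3 : allTree chkName 11 71680 = true := by decide +kernel
theorem chk4 : allTree chkName 11 73728 = true := by decide +kernel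
theorem chk5 : allTree chkName 11 75776 = true := by decide +kernel
theorem chk6 : allTree chkName 11 77824 = true := by decide +kernel
theorem chk7 : allTree chkName 11 79872 = true := by decide +kernel
theorem chk : allTree chkName 14 65536 = true :=
  (join chkName 13 65536 (join chkName 12 65536 (join chkName 11 65536 chk0 chk1) (join chkName 11 69632 chk2 chk3)) (join chkName 12 73728 (join chkName 11 73728 chk4 chk5) (join chkName 11 77824 chk6 chk7)))

end Cfsg.Agent.Lib.Helper28.THeTUC4
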