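import Cfsg.Agent.Lib.Helper28.THeTUT
import Cfsg.Agent.Lib.Helper28.TCJoin

set_option autoImplicit false
set_option Elab.async false

namespace Cfsg.Agent.Lib.Helper28.THeTUC5

open Cfsg.Agent.Lib.Helper28.TCKernel Cfsg.Agent.Lib.Helper28.TCJoin Cfsg.Agent.Lib.Helper28.THeTUT

theorem chk0 : allTree chkName 11 81920 = true := by decide +kernel
theorem chk1 : allTree chkName 11 83968 = true := by decide +kernel
theorem chk2 : allTree chkName 11 86016 = true := by decide +kernel
theorem chk3 : allTree chkName 11 88064 = true := by decide +kernel
theorem chk4 : allTree chkName 11 90112 = true := by decide +kernel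
theorem chk5 : allTree chkName 11 92160 = true := by decide +kernel
theorem chk6 : allTree chkName 11 94208 = true := by decide +kernel
theorem chk7 : allTree chkName 11 96256 = true := by decide +kernel
theorem chk : allTree chkName 14 81920 = true :=
  (join chkName 13 81920 (join chkName 12 81920 (join chkName 11 81920 chk0 chk1) (join chkName 11 86016 chk2 chk3)) (join chkName 12 90112 (join chkName 11 90112 chk4 chk5) (join chkName 11 94208 chk6 chk7)))

end Cfsg.Agent.Lib.Helper28.THeTUC5
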