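import Cfsg.Agent.Lib.Helper28.THeTUT
import Cfsg.Agent.Lib.Helper28.TCJoin

set_option autoImplicit false
set_option Elab.async false

namespace Cfsg.Agent.Lib.Helper28.THeTUC6

open Cfsg.Agent.Lib.Helper28.TCKernel Cfsg.Agent.Lib.Helper28.TCJoin Cfsg.Agent.Lib.Helper28.THeTUT

theorem chk0 : allTree chkName 11 98304 = true := by decide +kernel
theorem chk1 : allTree chkName 11 100352 = true := by decide +kernel
theorem chk2 : allTree chkName 11 102400 = true := by decide +kernel
theorem chk3 : allTree chkName 11 104448 = true := by decide +kernel
theorem chk4 : allTree chkName 11 106496 = true := by decide +kernel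
theorem chk5 : allTree chkName 11 108544 = true := by decide +kernel
theorem chk6 : allTree chkName 11 110592 = true := by decide +kernel
theorem chk7 : allTree chkName 11 112640 = true := by decide +kernel
theorem chk : allTree chkName 14 98304 = true :=
  (join chkName 13 98304 (join chkName 12 98304 (join chkName 11 98304 chk0 chk1) (join chkName 11 102400 chk2 chk3)) (join chkName 12 106496 (join chkName 11 106496 chk4 chk5) (join chkName 11 110592 chk6 chk7)))

end Cfsg.Agent.Lib.Helper28.THeTUC6
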