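import Cfsg.Agent.Lib.Helper28.THeTUT
import Cfsg.Agent.Lib.Helper28.TCJoin

set_option autoImplicit false
set_option Elab.async false

namespace Cfsg.Agent.Lib.Helper28.THeTUC7

open Cfsg.Agent.Lib.Helper28.TCKernel Cfsg.Agent.Lib.Helper28.TCJoin Cfsg.Agent.Lib.Helper28.THeTUT

theorem chk0 : allTree chkName 11 114688 = true := by decide +kernel
theorem chk1 : allTree chkName 11 116736 = true := by decide +kernel
theorem chk2 : allTree chkName 11 118784 = true := by decide +kernel
theorem chk3 : allTree chkName 11 120832 = true := by decide +kernel
theorem chk4 : allTree chkName 11 122880 = true := by decide +kernel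
theorem chk5 : allTree chkName 11 124928 = true := by decide +kernel
theorem chk6 : allTree chkName 11 126976 = true := by decide +kernel
theorem chk7 : allTree chkName 11 129024 = true := by decide +kernel
theorem chk : allTree chkName 14 114688 = true :=
  (join chkName 13 114688 (join chkName 12 114688 (join chkName 11 114688 chk0 chk1) (join chkName 11 118784 chk2 chk3)) (join chkName 12 122880 (join chkName 11 122880 chk4 chk5) (join chkName 11 126976 chk6 chk7)))

end Cfsg.Agent.Lib.Helper28.THeTUC7
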