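import Cfsg.Agent.Lib.Helper28.THeTUT
import Cfsg.Agent.Lib.Helper28.TCJoin

set_option autoImplicit false
set_option Elab.async false

namespace Cfsg.Agent.Lib.Helper28.THeTUC8

open Cfsg.Agent.Lib.Helper28.TCKernel Cfsg.Agent.Lib.Helper28.TCJoin Cfsg.Agent.Lib.Helper28.THeTUT

theorem chk0 : allTree chkName 11 131072 = true := by decide +kernel
theorem chk1 : allTree chkName 11 133120 = true := by decide +kernel
theorem chk2 : allTree chkName 11 135168 = true := by decide +kernel
theorem chk3 : allTree chkName 11 137216 = true := by decide +kernel
theorem chk4 : allTree chkName 11 139264 = true := by decide +kernel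
theorem chk5 : allTree chkName 11 141312 = true := by decide +kernel
theorem chk6 : allTree chkName 11 143360 = true := by decide +kernel
theorem chk7 : allTree chkName 11 145408 = true := by decide +kernel
theorem chk : allTree chkName 14 131072 = true :=
  (join chkName 13 131072 (join chkName 12 131072 (join chkName 11 131072 chk0 chk1) (join chkName 11 135168 chk2 chk3)) (join chkName 12 139264 (join chkName 11 139264 chk4 chk5) (join chkName 11 143360 chk6 chk7)))

end Cfsg.Agent.Lib.Helper28.THeTUC8
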