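import Cfsg.Agent.Lib.Helper28.THeTUT
import Cfsg.Agent.Lib.Helper28.TCJoin

set_option autoImplicit false
set_option Elab.async false

namespace Cfsg.Agent.Lib.Helper28.THeTUC9

open Cfsg.Agent.Lib.Helper28.TCKernel Cfsg.Agent.Lib.Helper28.TCJoin Cfsg.Agent.Lib.Helper28.THeTUT

theorem chk0 : allTree chkName 11 147456 = true := by decide +kernel
theorem chk1 : allTree chkName 11 149504 = true := by decide +kernel
theorem chk2 : allTree chkName 11 151552 = true := by decide +kernel
theorem chk3 : allTree chkName 11 153600 = true := by decide +kernel
theorem chk4 : allTree chkName 11 155648 = true := by decide +kernel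
theorem chk5 : allTree chkName 11 157696 = true := by decide +kernel
theorem chk6 : allTree chkName 11 159744 = true := by decide +kernel
theorem chk7 : allTree chkName 11 161792 = true := by decide +kernel
theorem chk : allTree chkName 14 147456 = true :=
  (join chkName 13 147456 (join chkName 12 147456 (join chkName 11 147456 chk0 chk1) (join chkName 11 151552 chk2 chk3)) (join chkName 12 155648 (join chkName 11 155648 chk4 chk5) (join chkName 11 159744 chk6 chk7)))

end Cfsg.Agent.Lib.Helper28.THeTUC9
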