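import Cfsg.Agent.Lib.Helper28.TCKernel
import Cfsg.Agent.Lib.Helper28.THeaLD0

set_option autoImplicit false

namespace Cfsg.Agent.Lib.Helper28.THeaLT

open Cfsg.Agent.Lib.Helper28.TCKernel

def p0top : List (List Nat) := [THeaLD0.p0g0]
def p1top : List (List Nat) := [THeaLD0.p1g0]
def p2top : List (List Nat) := [THeaLD0.p2g0]
def p3top : List (List Nat) := [THeaLD0.p3g0]
def p4top : List (List Nat) := [THeaLD0.p4g0]
def ptops : List (List (List Nat)) := [p0top, p1top, p2top, p3top, p4top]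
def ttop : List (List Nat) := [THeaLD0.tg0]
def tp : Nat → Nat → Nat := fld3z ptops 9 0 0 511 9 511
def pa : Nat → Nat := fld1 ttop 9 0 0 511 13 0 511
def pl : Nat → Nat := fld1 ttop 9 0 0 511 13 9 15
def relW : List (List Nat) := [[0, 1, 0, 1, 0, 1, 0, 1],
  [0, 2, 0, 2],
  [0, 3, 0, 3],
  [0, 4, 0, 4],
  [1, 2, 1, 2, 1, 2],
  [1, 3, 1, 3],
  [1, 4, 1, 4],
  [2, 3, 2, 3, 2, 3, 2, 3, 2, 3, 2, 3, 2, 3, 2, 3, 2, 3, 2, 3],
  [2, 4, 2, 4],
  [3, 4, 3, 4, 3, 4],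
  [4, 2, 1, 0, 2, 1, 0, 2, 1, 0],
  [0, 3, 2, 3, 2, 3, 2, 3, 2, 3, 2]]
def sgW : List (List Nat) := [[0],
  [1],
  [2]]
def tw : List (List Nat) := [[0],
  [1],
  [2],
  [0],
  [1],
  [2],
  [0],
  [1],
  [2],
  [3],
  [4]]
def invL : List Nat := [0, 1, 2, 3, 4]
def inv : Nat → Nat := nthD 0 invL
def roots : List Nat := [1, 7, 31, 79, 85, 109, 157, 169, 181, 229, 277, 289, 301, 313]
def nK : Nat := 6
def nL : Nat := 5
def nn : Nat := 315
def nD : Nat := 9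
/-- the per-point check -/
def chkPoint (a : Nat) : Bool :=
  pointOK tp inv pa pl relW sgW tw 6 roots 5 315 a

end Cfsg.Agent.Lib.Helper28.THeaLT
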