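import Mathlib

set_option autoImplicit false

namespace Cfsg.Agent.Lib.Helper28.THebLD0

def p0c0 : Nat := 0x2c4c8
def p0g0 : List Nat := [p0c0]

def p1c0 : Nat := 0x2b850
def p1g0 : List Nat := [p1c0]

def p2c0 : Nat := 0x25681
def p2g0 : List Nat := [p2c0]

def tc0 : Nat := 0xd0b089c00
def tg0 : List Nat := [tc0]

end Cfsg.Agent.Lib.Helper28.THebLD0
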