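import Cfsg.Agent.Lib.Helper28.TCKernel
import Cfsg.Agent.Lib.Helper28.THebLD0

set_option autoImplicit false

namespace Cfsg.Agent.Lib.Helper28.THebLT

open Cfsg.Agent.Lib.Helper28.TCKernel

def p0top : List (List Nat) := [THebLD0.p0g0]
def p1top : List (List Nat) := [THebLD0.p1g0]
def p2top : List (List Nat) := [THebLD0.p2g0]
def ptops : List (List (List Nat)) := [p0top, p1top, p2top]
def ttop : List (List Nat) := [THebLD0.tg0]
def tp : Nat → Nat → Nat := fld3z ptops 3 0 0 7 3 7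
def pa : Nat → Nat := fld1 ttop 3 0 0 7 6 0 7
def pl : Nat → Nat := fld1 ttop 3 0 0 7 6 3 7
def relW : List (List Nat) := [[0, 1, 0, 1, 0, 1, 0, 1],
  [0, 2, 0, 2],
  [1, 2, 1, 2, 1, 2]]
def sgW : List (List Nat) := [[0],
  [1]]
def tw : List (List Nat) := [[0],
  [1],
  [0],
  [1],
  [0],
  [1],
  [2]]
def invL : List Nat := [0, 1, 2]
def inv : Nat → Nat := nthD 0 invL
def roots : List Nat := [1, 5]
def nK : Nat := 4
def nL : Nat := 3
def nn : Nat := 6
def nD : Nat := 3
/-- the per-point check -/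
def chkPoint (a : Nat) : Bool :=
  pointOK tp inv pa pl relW sgW tw 4 roots 3 6 a

end Cfsg.Agent.Lib.Helper28.THebLT
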