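import Mathlib

set_option autoImplicit false

namespace Cfsg.Agent.Lib.Helper28.THebUD0

def e0c0 : Nat := 0x480a59044b812800dc8032100
def e0g0 : List Nat := [e0c0]

def e1c0 : Nat := 0x340a6503380231405a0051200
def e1g0 : List Nat := [e1c0]

def e2c0 : Nat := 0x660840054401ad809e6010001
def e2g0 : List Nat := [e2c0]

def dc0 : Nat := 0x500000b0000080000900004000000
def dg0 : List Nat := [dc0]

end Cfsg.Agent.Lib.Helper28.THebUD0
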