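import Cfsg.Agent.Lib.Helper28.TCKernel
import Cfsg.Agent.Lib.Helper28.THebUD0

set_option autoImplicit false

namespace Cfsg.Agent.Lib.Helper28.THebUT

open Cfsg.Agent.Lib.Helper28.TCKernel

def e0top : List (List Nat) := [THebUD0.e0g0]
def e1top : List (List Nat) := [THebUD0.e1g0]
def e2top : List (List Nat) := [THebUD0.e2g0]
def etops : List (List (List Nat)) := [e0top, e1top, e2top]
def dtop : List (List Nat) := [THebUD0.dg0]
def tgt : Nat → Nat → Nat := fld3z etops 3 0 0 7 17 7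
def hnt : Nat → Nat → Nat := fld3 etops 3 0 0 7 17 3 31
def crt : Nat → Nat → Nat := fld3 etops 3 0 0 7 17 8 15
def sig : Nat → Nat → Nat := fld3 etops 3 0 0 7 17 12 31
def par : Nat → Nat := fld1 dtop 3 0 0 7 22 0 7
def plet : Nat → Nat := fld1 dtop 3 0 0 7 22 3 15
def mu : Nat → Nat := fld1 dtop 3 0 0 7 22 7 7
def dst : Nat → Nat := fld1 dtop 3 0 0 7 22 10 7
def dcrt : Nat → Nat := fld1 dtop 3 0 0 7 22 13 15
def dsig : Nat → Nat := fld1 dtop 3 0 0 7 22 17 31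
def nGE : Nat := 1
def certs0 : List Cert := [Cert.mk 1 0 [] [],
  Cert.mk 1 1 [] [],
  Cert.mk 0 2 [] [2],
  Cert.mk 0 0 [] [2, 0, 2],
  Cert.mk 0 1 [] [1],
  Cert.mk 0 2 [] [1, 2, 1, 2, 1],
  Cert.mk 0 0 [] [0],
  Cert.mk 0 2 [] [0, 2, 0],
  Cert.mk 0 0 [] [1, 0, 1, 0, 1, 0, 1],
  Cert.mk 0 1 [] [2, 1, 2, 1, 2]]
def certs : List Cert := certs0
def hints : List (Nat × Nat) := [(0, 0), (1, 0), (8, 0), (1, 0), (7, 0), (2, 1), (6, 0), (1, 1), (0, 0), (2, 0)]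
def relW : List (List Nat) := [[0, 1, 0, 1, 0, 1, 0, 1],
  [0, 2, 0, 2],
  [1, 2, 1, 2, 1, 2]]
def sgW : List (List Nat) := [[0],
  [1]]
def invL : List Nat := [0, 1, 2]
def nL : Nat := 3
def nN : Nat := 6
def nF : Nat := 0
def nAlive : Nat := 6
def nD : Nat := 3
def nB : Nat := 31
/-- the per-name check -/
def chkName (v : Nat) : Bool :=
  andK (nameOK tgt sig crt hnt dsig mu dcrt dst par plet certs 0 3 v) (finOK tgt sig hnt dsig mu 0 3 6 v)

end Cfsg.Agent.Lib.Helper28.THebUT
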