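import Cfsg.Agent.Lib.Helper28.TCKernel
import Cfsg.Agent.Lib.Helper28.THecLD0

set_option autoImplicit false

namespace Cfsg.Agent.Lib.Helper28.THecLT

open Cfsg.Agent.Lib.Helper28.TCKernel

def p0top : List (List Nat) := [THecLD0.p0g0]
def p1top : List (List Nat) := [THecLD0.p1g0]
def ptops : List (List (List Nat)) := [p0top, p1top]
def ttop : List (List Nat) := [THecLD0.tg0]
def tp : Nat → Nat → Nat := fld3z ptops 2 0 0 3 2 3
def pa : Nat → Nat := fld1 ttop 2 0 0 3 4 0 3
def pl : Nat → Nat := fld1 ttop 2 0 0 3 4 2 3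
def relW : List (List Nat) := [[0, 1, 0, 1, 0, 1, 0, 1]]
def sgW : List (List Nat) := [[0]]
def tw : List (List Nat) := [[0],
  [0],
  [0],
  [1]]
def invL : List Nat := [0, 1]
def inv : Nat → Nat := nthD 0 invL
def roots : List Nat := [1, 3]
def nK : Nat := 2
def nL : Nat := 2
def nn : Nat := 4
def nD : Nat := 2
/-- the per-point check -/
def chkPoint (a : Nat) : Bool :=
  pointOK tp inv pa pl relW sgW tw 2 roots 2 4 a

end Cfsg.Agent.Lib.Helper28.THecLT
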