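import Mathlib

set_option autoImplicit false

namespace Cfsg.Agent.Lib.Helper28.THecUD0

def e0c0 : Nat := 0x181a305405040
def e0g0 : List Nat := [e0c0]

def e1c0 : Nat := 0x241180d900e01
def e1g0 : List Nat := [e1c0]

def dc0 : Nat := 0x30000400080000
def dg0 : List Nat := [dc0]

end Cfsg.Agent.Lib.Helper28.THecUD0
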