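import Cfsg.Agent.Lib.Helper28.TCKernel
import Cfsg.Agent.Lib.Helper28.THecUD0

set_option autoImplicit false

namespace Cfsg.Agent.Lib.Helper28.THecUT

open Cfsg.Agent.Lib.Helper28.TCKernel

def e0top : List (List Nat) := [THecUD0.e0g0]
def e1top : List (List Nat) := [THecUD0.e1g0]
def etops : List (List (List Nat)) := [e0top, e1top]
def dtop : List (List Nat) := [THecUD0.dg0]
def tgt : Nat → Nat → Nat := fld3z etops 2 0 0 3 13 3
def hnt : Nat → Nat → Nat := fld3 etops 2 0 0 3 13 2 15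
def crt : Nat → Nat → Nat := fld3 etops 2 0 0 3 13 6 7
def sig : Nat → Nat → Nat := fld3 etops 2 0 0 3 13 9 15
def par : Nat → Nat := fld1 dtop 2 0 0 3 17 0 3
def plet : Nat → Nat := fld1 dtop 2 0 0 3 17 2 15
def mu : Nat → Nat := fld1 dtop 2 0 0 3 17 6 3
def dst : Nat → Nat := fld1 dtop 2 0 0 3 17 8 3
def dcrt : Nat → Nat := fld1 dtop 2 0 0 3 17 10 7
def dsig : Nat → Nat := fld1 dtop 2 0 0 3 17 13 15
def nGE : Nat := 1
def certs0 : List Cert := [Cert.mk 1 0 [] [],
  Cert.mk 0 1 [] [1],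
  Cert.mk 0 0 [] [0],
  Cert.mk 0 0 [] [1, 0, 1, 0, 1, 0, 1]]
def certs : List Cert := certs0
def hints : List (Nat × Nat) := [(0, 0), (3, 0), (2, 0), (0, 0)]
def relW : List (List Nat) := [[0, 1, 0, 1, 0, 1, 0, 1]]
def sgW : List (List Nat) := [[0]]
def invL : List Nat := [0, 1]
def nL : Nat := 2
def nN : Nat := 4
def nF : Nat := 0
def nAlive : Nat := 4
def nD : Nat := 2
def nB : Nat := 15
/-- the per-name check -/
def chkName (v : Nat) : Bool :=
  andK (nameOK tgt sig crt hnt dsig mu dcrt dst par plet certs 0 2 v) (finOK tgt sig hnt dsig mu 0 2 4 v)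

end Cfsg.Agent.Lib.Helper28.THecUT
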