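import Cfsg.Agent.Lib.Helper39.TLStmt

/-!
# S4404 piece FIN2 (helper39's call; second seat): `E ≤ Y` elementary abelian of order `p ^ 3`,
`p ≥ 5`, `[Y : Y ∩ C] ≤ 7` ⟹ `E ∩ C` is not cyclic
-/

set_option autoImplicit false

namespace Cfsg.Agent.Lib.Helper28.TLFIN2

universe u

open Cfsg Cfsg.Agent.Lib.Helper39

theorem card_inf_mul_relIndex {G : Type*} [Group G] (H K : Subgroup G) :
    Nat.card ↥(K ⊓ H) * H.relIndex K = Nat.card K := by
  have h1 := (H.subgroupOf K).card_mul_index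
  have h2 : Nat.card (H.subgroupOf K) = Nat.card ↥(K ⊓ H) := by
    rw [← Subgroup.inf_subgroupOf_right H K, inf_comm]
    exact Nat.card_congr (Subgroup.subgroupOfEquivOfLe inf_le_left).toEquiv
  rw [h2] at h1
  exact h1

theorem main : TLStmt.Fin2.{u} := by
  intro S _ _ p hp hp2 hp3 Y E C hY hEY hE hEcard hidx hcyc
  have hp5 : 5 ≤ p := by
    by_contra h
    have h2 := hp.two_le
    have hlt : p < 5 := by omega
    interval_cases p
    · exact hp2 rfl
    · exact hp3 rfl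
    · exact absurd hp (by norm_num)
  have h1 := card_inf_mul_relIndex C Y
  have h2 := card_inf_mul_relIndex C E
  have hYpos : 0 < Nat.card ↥(Y ⊓ C) := Nat.card_pos
  have hrY : C.relIndex Y ≤ 7 := by
    rw [← h1] at hidx
    have : Nat.card ↥(Y ⊓ C) * C.relIndex Y ≤ Nat.card ↥(Y ⊓ C) * 7 := by
      rw [mul_comm _ 7]; exact hidx
    exact Nat.le_of_mul_le_mul_left this hYpos
  have hrYne : C.relIndex Y ≠ 0 := by
    intro h
    rw [h, mul_zero] at h1
    have : 0 < Nat.card Y := Nat.card_pos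
    omega
  have hrE : C.relIndex E ≤ 7 := (Subgroup.relIndex_le_of_le_right hEY hrYne).trans hrY
  have hdvd : Nat.card ↥(E ⊓ C) ∣ p ^ 3 := by
    rw [← hEcard]; exact Subgroup.card_dvd_of_le inf_le_left
  obtain ⟨j, hj, hcj⟩ := (Nat.dvd_prime_pow hp).1 hdvd
  have hj2 : 2 ≤ j := by
    by_contra hlt
    rw [hcj, hEcard] at h2
    have h4 : p ^ j ≤ p ^ 1 := Nat.pow_le_pow_right hp.pos (by omega)
    have h3 : p ^ 3 ≤ p ^ 1 * 7 := by
      rw [← h2]; exact Nat.mul_le_mul h4 hrE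
    have h5 : 25 ≤ p ^ 2 := by nlinarith
    have h6 : p ^ 3 = p ^ 1 * p ^ 2 := by ring
    nlinarith
  haveI := hcyc
  obtain ⟨g, hg⟩ := IsCyclic.exists_generator (α := ↥(E ⊓ C))
  have hcard : orderOf g = Nat.card ↥(E ⊓ C) := orderOf_eq_card_of_forall_mem_zpowers hg
  have hgp : g ^ p = 1 := by
    apply Subtype.ext
    rw [Subgroup.coe_pow]
    exact hE.2 _ g.2.1
  have hle : orderOf g ≤ p := Nat.le_of_dvd hp.pos (orderOf_dvd_of_pow_eq_one hgp)
  have h7 : p ^ 2 ≤ p ^ j := Nat.pow_le_pow_right hp.pos hj2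
  rw [hcj] at hcard
  nlinarith

end Cfsg.Agent.Lib.Helper28.TLFIN2
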